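import Mathlib
import Cfsg.Agent.Small.PrimeSylow
import Cfsg.Agent.Inv.Basic
import Cfsg.Agent.Inv.Count
import Cfsg.Agent.FGS.FrobeniusCount

/-!
Elementary facts on orders and centralizer orders of elements of a finite group.
-/

set_option autoImplicit false

namespace Cfsg.Agent.ClsN

open Subgroup Cfsg.Agent.Small Cfsg.Agent.Inv

variable {G : Type*} [Group G]

/-- the order of the centralizer -/
noncomputable def cz (x : G) : ℕ := Nat.card (centralizer ({x} : Set G))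

theorem mem_c {x y : G} : y ∈ centralizer ({x} : Set G) ↔ Commute y x :=
  mem_centralizer_singleton_iff

theorem c_le_pow (x : G) (n : ℕ) : centralizer ({x} : Set G) ≤ centralizer {x ^ n} :=
  fun _ h => mem_c.2 ((mem_c.1 h).pow_right n)

theorem cz_sub (H : Subgroup G) (t : H) :
    cz t = Nat.card ↥(H ⊓ centralizer ({(t : G)} : Set G)) := by
  have : centralizer ({t} : Set H) = (H ⊓ centralizer ({(t : G)} : Set G)).subgroupOf H := by
    ext y
    rw [mem_subgroupOf, mem_inf, mem_centralizer_singleton_iff, mem_centralizer_singleton_iff,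
      Subtype.ext_iff]
    simp
  rw [cz, this]
  exact Nat.card_congr (subgroupOfEquivOfLe inf_le_left).toEquiv

variable [Finite G]

theorem cz_pos (x : G) : 0 < cz x := Nat.card_pos

omit [Finite G] in
theorem cz_dvd (x : G) : cz x ∣ Nat.card G := card_subgroup_dvd_card _

theorem cz_conj {x y : G} (h : IsConj x y) : cz x = cz y := Count.card_centralizer_of_isConj h

theorem card_cl (x : G) : Nat.card {y : G // IsConj x y} = Nat.card G / cz x := by
  rw [← Count.card_isConj_mul_card_centralizer x]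
  exact (Nat.mul_div_cancel _ (cz_pos x)).symm

omit [Finite G] in
theorem c_mul {x y : G} (h : Commute x y) (hc : (orderOf x).Coprime (orderOf y)) :
    centralizer ({x * y} : Set G) = centralizer {x} ⊓ centralizer {y} := by
  have key : ∀ {x y : G}, Commute x y → (orderOf x).Coprime (orderOf y) →
      centralizer ({x * y} : Set G) ≤ centralizer {x} := fun {x y} h hc => by
    obtain ⟨m, hm⟩ := exists_pow_eq_self_of_coprime (x := x) hc.symm
    have : x = ((x * y) ^ orderOf y) ^ m := by rw [h.mul_pow, pow_orderOf_eq_one, mul_one, hm]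
    intro z hz
    rw [this]
    exact c_le_pow _ _ (c_le_pow _ _ hz)
  refine le_antisymm (le_inf (key h hc) ?_) fun z hz => mem_c.2 ((mem_c.1 hz.1).mul_right
    (mem_c.1 hz.2))
  rw [h.eq]
  exact key h.symm hc.symm

theorem exists_central {q : ℕ} (hq : q.Prime) (h : q ∣ Nat.card G) :
    ∃ y : G, orderOf y = q ∧ ∀ j, q ^ j ∣ Nat.card G → q ^ j ∣ cz y := by
  have := Fact.mk hq
  obtain ⟨P⟩ : Nonempty (Sylow q G) := inferInstance
  have h1 : Nontrivial (P : Subgroup G) := (P : Subgroup G).nontrivial_iff_ne_bot.2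
    (P.ne_bot_of_dvd_card h)
  have h2 := P.isPGroup'.center_nontrivial
  obtain ⟨k, hk, h3⟩ := (P.isPGroup'.to_subgroup (center (P : Subgroup G))).nontrivial_iff_card.1 h2
  obtain ⟨z, hz⟩ := exists_prime_orderOf_dvd_card' (G := center (P : Subgroup G)) q
    (h3 ▸ dvd_pow_self q hk.ne')
  refine ⟨z, by rw [orderOf_coe, orderOf_coe, hz], fun j hj => ?_⟩
  refine (P.pow_dvd_card_of_pow_dvd_card hj).trans (card_dvd_of_le fun w hw => ?_)
  exact mem_c.2 (congrArg Subtype.val (mem_center_iff.1 z.2 ⟨w, hw⟩))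

theorem sq_dvd_cz {p : ℕ} (hp : p.Prime) {x : G} (hx : orderOf x = p) (h : p * p ∣ Nat.card G) :
    p * p ∣ cz x := by
  have := Fact.mk hp
  have h1 : Nat.card (zpowers x) = p := by rw [Nat.card_zpowers, hx]
  have h2 := Sylow.prime_pow_dvd_card_normalizer (p := p) (n := 1) (by rwa [pow_succ, pow_one])
    (H := zpowers x) (by rw [h1, pow_one])
  rw [← card_centralizer_mul_relIndex, centralizer_zpowers, pow_succ, pow_one] at h2
  have h3 := relIndex_dvd_of_card_prime _ h1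
  rw [centralizer_zpowers] at h3
  have h4 : p.Coprime (p - 1) := (Nat.coprime_self_sub_right hp.one_le).2 (Nat.coprime_one_right _)
  exact ((h4.mul_left h4).coprime_dvd_right h3).dvd_of_dvd_mul_right h2

theorem exists_conj_mem {p : ℕ} (hp : p.Prime) (h : ¬ p * p ∣ Nat.card G) {x y : G}
    (hx : orderOf x = p) (hy : orderOf y = p) : ∃ g, g * y * g⁻¹ ∈ zpowers x := by
  have := Fact.mk hp
  obtain ⟨m, hm⟩ := hx ▸ orderOf_dvd_natCard x
  have h1 : ¬ p ∣ m := fun h1 => h (hm ▸ Nat.mul_dvd_mul_left _ h1)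
  obtain ⟨P, hP⟩ := exists_sylow_eq_zpowers hm h1 hx
  obtain ⟨Q, hQ⟩ := exists_sylow_eq_zpowers hm h1 hy
  obtain ⟨g, hg⟩ := MulAction.exists_smul_eq G Q P
  refine ⟨g, ?_⟩
  rw [← hP, ← hg]
  exact smul_mem_pointwise_smul y (MulAut.conj g) _ (hQ ▸ mem_zpowers y)

theorem cz_eq_of_prime {p : ℕ} (hp : p.Prime) (h : ¬ p * p ∣ Nat.card G) {x y : G}
    (hx : orderOf x = p) (hy : orderOf y = p) : cz y = cz x := by
  obtain ⟨g, hg⟩ := exists_conj_mem hp h hx hy
  rw [cz_conj (isConj_iff.2 ⟨g, rfl⟩ : IsConj y _), cz, cz, ← centralizer_zpowers,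
    ← centralizer_zpowers x, eq_of_le_of_card_ge (zpowers_le.2 hg)
      (by rw [Nat.card_zpowers, Nat.card_zpowers, orderOf_conj, hx, hy])]

theorem exists_pow_order (x : G) {e : ℕ} (h : e ∣ orderOf x) : ∃ n, orderOf (x ^ n) = e :=
  ⟨_, orderOf_pow_orderOf_div (orderOf_pos x).ne' h⟩

theorem exists_order_relIndex {p : ℕ} (hp : p.Prime) (P : Subgroup G) (hP : Nat.card P = p) :
    ∃ y : G, orderOf y = (centralizer (P : Set G)).relIndex (normalizer (P : Set G)) := by
  have := Fact.mk hp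
  have h1 : IsCyclic P := isCyclic_of_prime_card hP
  have h2 : IsCyclic (ZMod (Nat.card P))ˣ := ZMod.isCyclic_units_prime (hP ▸ hp)
  have h3 : IsCyclic (MulAut P) := isCyclic_of_surjective _ (IsCyclic.mulAutMulEquiv P).symm.surjective
  obtain ⟨z, hy⟩ := isCyclic_iff_exists_orderOf_eq_natCard.1
    (inferInstance : IsCyclic P.normalizerMonoidHom.range)
  obtain ⟨y, hz⟩ := z.2
  rw [← index_ker, normalizerMonoidHom_ker, ← orderOf_coe, ← hz] at hy
  obtain ⟨n, hn⟩ := exists_pow_order y (orderOf_map_dvd P.normalizerMonoidHom y)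
  exact ⟨(y ^ n : normalizer (P : Set G)), by rw [orderOf_coe, hn, hy]; rfl⟩

theorem inv_count {t x : G} (ht : orderOf t = 2) (hx : Odd (orderOf x)) (h : t * x * t⁻¹ = x⁻¹) :
    orderOf x * (cz t * cz t) ≤ Nat.card G * cz x := by
  have t2 := mul_self_of_orderOf_two ht
  have h1 : ∀ y ∈ zpowers x, IsConj t (t * y) := fun y hy => by
    refine (isConj_of_odd_orderOf_mul t2 (Count.mul_self_of_inverts t2
      (conj_eq_inv_of_mem_zpowers h hy)) ?_).symm
    rw [← mul_assoc, t2, one_mul]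
    exact hx.of_dvd_nat (orderOf_dvd_of_mem_zpowers hy)
  choose g hg using fun z : {y : G // IsConj x y} => isConj_iff.1 z.2
  let f : {y : G // IsConj x y} × zpowers x → {y : G // IsConj t y} × {y : G // IsConj t y} :=
    fun a => (⟨g a.1 * (t * a.2) * (g a.1)⁻¹, (h1 _ a.2.2).trans (isConj_iff.2 ⟨_, rfl⟩)⟩,
      ⟨g a.1 * (t * (a.2 * x)) * (g a.1)⁻¹,
        (h1 _ (mul_mem a.2.2 (mem_zpowers x))).trans (isConj_iff.2 ⟨_, rfl⟩)⟩)
  have hf : Function.Injective f := by
    rintro ⟨a, y⟩ ⟨b, z⟩ hab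
    have e1 : g a * (t * y) * (g a)⁻¹ = g b * (t * z) * (g b)⁻¹ := congrArg (·.1.1) hab
    have e2 : g a * (t * (y * x)) * (g a)⁻¹ = g b * (t * (z * x)) * (g b)⁻¹ := congrArg (·.2.1) hab
    obtain rfl : a = b := Subtype.ext (by
      rw [← hg a, ← hg b]
      calc g a * x * (g a)⁻¹ = (g a * (t * y) * (g a)⁻¹)⁻¹ * (g a * (t * (y * x)) * (g a)⁻¹) := by
            group
        _ = _ := by rw [e1, e2]; group)
    simp only [mul_left_inj, mul_right_inj] at e1
    rw [Subtype.ext e1]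
  have h2 := Nat.card_le_card_of_injective f hf
  rw [Nat.card_prod, Nat.card_prod, Nat.card_zpowers] at h2
  have h3 := Count.card_isConj_mul_card_centralizer x
  have h4 := Count.card_isConj_mul_card_centralizer t
  have h5 : 0 < Nat.card {y : G // IsConj x y} :=
    Nat.card_pos_iff.2 ⟨⟨⟨x, IsConj.refl x⟩⟩, inferInstance⟩
  change _ * cz x = _ at h3
  change _ * cz t = _ at h4
  refine Nat.le_of_mul_le_mul_left ?_ h5
  generalize Nat.card {y : G // IsConj x y} = A at *
  generalize Nat.card {y : G // IsConj t y} = T at *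
  calc A * (orderOf x * (cz t * cz t)) = A * orderOf x * (cz t * cz t) := by ring
    _ ≤ T * T * (cz t * cz t) := Nat.mul_le_mul_right _ h2
    _ = (T * cz t) * (T * cz t) := by ring
    _ = Nat.card G * (A * cz x) := by rw [h3, h4]
    _ = _ := by ring

theorem exists_inverting {p : ℕ} (hp : p.Prime) {x : G} (hx : orderOf x = p) (hc : Odd (cz x))
    (h : Even (Nat.card (normalizer ((zpowers x : Subgroup G) : Set G)))) :
    ∃ t : G, orderOf t = 2 ∧ t * x * t⁻¹ = x⁻¹ := by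
  obtain ⟨t, h1, h2⟩ := exists_involution_of_even h
  refine ⟨t, h2, ?_⟩
  rw [mem_normalizer_zpowers_iff] at h1
  have h3 : Commute x (t * x * t⁻¹) := by
    obtain ⟨n, hn⟩ := h1
    rw [← hn]
    exact (Commute.refl x).zpow_right n
  by_contra h4
  have h5 : x * (t * x * t⁻¹) ≠ 1 := fun h5 => h4 (eq_inv_of_mul_eq_one_right h5)
  have h6 : x * (t * x * t⁻¹) ∈ zpowers x := mul_mem (mem_zpowers x) h1
  have h7 : orderOf (x * (t * x * t⁻¹)) = p :=
    ((Nat.dvd_prime hp).1 (hx ▸ orderOf_dvd_of_mem_zpowers h6)).resolve_left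
      (fun h => h5 (orderOf_eq_one_iff.1 h))
  have h8 := eq_of_le_of_card_ge (zpowers_le.2 h6)
    (by rw [Nat.card_zpowers, Nat.card_zpowers, hx, h7])
  refine odd_card_iff.1 hc t ?_ h2
  rw [← centralizer_zpowers, ← h8, centralizer_zpowers, mem_centralizer_singleton_iff]
  have t2 := mul_self_of_orderOf_two h2
  have ti := inv_of_orderOf_two h2
  calc t * (x * (t * x * t⁻¹)) = (t * x * t⁻¹) * ((t * t) * x * t⁻¹) := by group
    _ = (t * x * t⁻¹) * x * t := by rw [t2, ti]; group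
    _ = _ := by rw [← h3.eq]

section Sq

variable {n : ℕ} (hn : Odd n) {y : G} (hy : orderOf y = 2 * n)
include hn hy

omit [Finite G] hn in
theorem sq_order : orderOf (y ^ 2) = n := by
  rw [orderOf_pow' y two_ne_zero, hy, Nat.gcd_mul_right_left, Nat.mul_div_cancel_left _ two_pos]

omit [Finite G] in
theorem half_order : orderOf (y ^ n) = 2 := by
  rw [orderOf_pow' y hn.pos.ne', hy, Nat.gcd_mul_left_left, Nat.mul_div_cancel _ hn.pos]

omit hy [Finite G] in
theorem eq_parts : y = (y ^ 2) ^ (n / 2 + 1) * (y ^ n)⁻¹ := by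
  obtain ⟨k, rfl⟩ := hn
  rw [eq_mul_inv_iff_mul_eq, ← pow_mul, ← pow_succ']
  congr 1
  omega

theorem cz_sq (h : cz y % 4 = 2) : cz (y ^ 2) % 4 = 2 := by
  have h1 : y ^ n ∈ centralizer ({y ^ 2} : Set G) := mem_c.2 (Commute.pow_pow_self y _ _)
  have h2 := even_card_of_involution h1 (half_order hn hy)
  have h3 : ¬ 2 * 2 ∣ cz (y ^ 2) := fun h3 => by
    have h4 := sq_dvd_cz Nat.prime_two (x := (⟨_, h1⟩ : centralizer ({y ^ 2} : Set G)))
      (by rw [orderOf_mk, half_order hn hy]) h3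
    rw [cz_sub] at h4
    have h5 : centralizer ({y ^ 2} : Set G) ⊓ centralizer {y ^ n} ≤ centralizer {y} := fun z hz => by
      rw [eq_parts hn (y := y)]
      exact mem_c.2 (((mem_c.1 hz.1).pow_right _).mul_right (mem_c.1 hz.2).inv_right)
    have h6 := h4.trans (card_dvd_of_le h5)
    change 2 * 2 ∣ cz y at h6
    omega
  change Even (cz (y ^ 2)) at h2
  obtain ⟨k, hk⟩ := h2
  omega

theorem isConj_of_sq {z : G} (hz : orderOf z = 2 * n) (h : cz y % 4 = 2)
    (hc : IsConj (z ^ 2) (y ^ 2)) : IsConj z y := by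
  obtain ⟨g, hg⟩ := isConj_iff.1 hc
  rw [← conj_pow] at hg
  refine (isConj_iff.2 ⟨g, rfl⟩ : IsConj z (g * z * g⁻¹)).trans ?_
  rw [← orderOf_conj g] at hz
  generalize g * z * g⁻¹ = w at hz hg
  have h1 : y ^ n ∈ centralizer ({y ^ 2} : Set G) := mem_c.2 (Commute.pow_pow_self y _ _)
  have h2 : w ^ n ∈ centralizer ({y ^ 2} : Set G) := hg ▸ mem_c.2 (Commute.pow_pow_self w _ _)
  have h3 := cz_sq hn hy h
  obtain ⟨u, hu⟩ := exists_conj_mem (G := centralizer ({y ^ 2} : Set G)) Nat.prime_two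
    (by change ¬ 2 * 2 ∣ cz (y ^ 2); omega) (x := ⟨_, h1⟩) (y := ⟨_, h2⟩)
    (by rw [orderOf_mk, half_order hn hy]) (by rw [orderOf_mk, half_order hn hz])
  have h4 := congrArg Subtype.val (Count.eq_of_mem_zpowers hu (mem_zpowers _)
    (by rw [orderOf_conj, orderOf_mk, half_order hn hz]) (by rw [orderOf_mk, half_order hn hy]))
  change u * w ^ n * (u : G)⁻¹ = y ^ n at h4
  refine isConj_iff.2 ⟨u, ?_⟩
  have h5 := ((mem_c.1 u.2).pow_right (n / 2 + 1)).mul_inv_cancel
  generalize (u : G) = v at h4 h5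
  calc v * w * v⁻¹ = v * ((w ^ 2) ^ (n / 2 + 1) * (w ^ n)⁻¹) * v⁻¹ := by rw [← eq_parts hn]
    _ = (v * (y ^ 2) ^ (n / 2 + 1) * v⁻¹) * (v * w ^ n * v⁻¹)⁻¹ := by rw [hg]; group
    _ = y := by rw [h4, h5, ← eq_parts hn]

end Sq

theorem exists_sqrt {n : ℕ} (hn : Odd n) {x : G} (hx : orderOf x = n) (h : cz x % 4 = 2) :
    ∃ y : G, orderOf y = 2 * n ∧ y ^ 2 = x ∧ cz y % 4 = 2 ∧ cz y ≤ cz x := by
  obtain ⟨t, h1, h2⟩ := exists_involution_of_even (H := centralizer ({x} : Set G))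
    (by change Even (cz x); exact Nat.even_iff.2 (by omega))
  have h3 : Commute t (x ^ (n / 2 + 1)) := (mem_c.1 h1).pow_right _
  have h4 : (t * x ^ (n / 2 + 1)) ^ 2 = x := by
    obtain ⟨k, rfl⟩ := hn
    rw [h3.mul_pow, sq_of_orderOf_two h2, one_mul, ← pow_mul,
      show ((2 * k + 1) / 2 + 1) * 2 = (2 * k + 1) + 1 by omega, pow_succ, ← hx, pow_orderOf_eq_one,
      one_mul]
  have h5 : orderOf (x ^ (n / 2 + 1)) = n := by
    rw [← hx] at hn ⊢
    refine Nat.Coprime.orderOf_pow ?_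
    obtain ⟨k, hk⟩ := hn
    rw [hk, show (2 * k + 1) / 2 + 1 = k + 1 by omega, show 2 * k + 1 = k + (k + 1) by omega]
    simp
  have h6 : orderOf (t * x ^ (n / 2 + 1)) = 2 * n := by
    rw [h3.orderOf_mul_eq_mul_orderOf_of_coprime (by rw [h2, h5]; exact hn.coprime_two_left), h2, h5]
  have h7 : cz (t * x ^ (n / 2 + 1)) ∣ cz x := card_dvd_of_le (by
    conv_rhs => rw [← h4]
    exact c_le_pow _ _)
  have h8 : 2 * n ∣ cz (t * x ^ (n / 2 + 1)) := h6 ▸ orderOf_dvd_natCard _ (mem_c.2 (Commute.refl _))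
  refine ⟨_, h6, h4, ?_, Nat.le_of_dvd (cz_pos x) h7⟩
  have h9 : 2 ∣ cz (t * x ^ (n / 2 + 1)) := (dvd_mul_right 2 n).trans h8
  have h10 : ¬ 4 ∣ cz (t * x ^ (n / 2 + 1)) := fun h10 => by
    have := h10.trans h7
    omega
  omega

end Cfsg.Agent.ClsN
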