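import Mathlib
import Cfsg.Agent.Comp.Basic

/-!
A search through the possible class structures (element order, centralizer order) of a finite
simple group with few conjugacy classes: the kernel-friendly program.
-/

set_option autoImplicit false

namespace Cfsg.Agent.ClsN

open Cfsg.Agent.Comp

/-- lists of pairs -/
inductive PL : Type
  | nil : PL
  | cons (n c : ℕ) (t : PL) : PL

scoped notation:30 a:31 " ∨' " b:30 => @Bool.rec (fun _ => Bool) b true a
scoped notation:35 a:36 " ∧' " b:35 => @Bool.rec (fun _ => Bool) false b a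
scoped notation:35 a:36 " ↛' " b:35 => @Bool.rec (fun _ => Bool) b false a
scoped notation:30 a:31 " →' " b:30 => @Bool.rec (fun _ => Bool) true b a
scoped notation:40 "¬' " a:40 => @Bool.rec (fun _ => Bool) true false a
scoped notation:10 "IF " c " THEN " x " ELSE " y:10 => @Bool.rec (fun _ => _) y x c
scoped notation:50 a:51 " ∣' " b:51 => Nat.beq (Nat.mod b a) 0
scoped notation:50 a:51 " =' " b:51 => Nat.beq a b
scoped notation:50 a:51 " ≤' " b:51 => Nat.ble a b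
scoped notation:50 a:51 " <' " b:51 => Nat.ble (Nat.succ a) b
scoped notation:65 a:65 " +' " b:66 => Nat.add a b
scoped notation:65 a:65 " -' " b:66 => Nat.sub a b
scoped notation:70 a:70 " *' " b:71 => Nat.mul a b
scoped notation:70 a:70 " /' " b:71 => Nat.div a b
scoped notation:10 "LET " x " := " v " IN " b:10 =>
  @Nat.rec (fun _ => _) default (fun x _ => b) (Nat.succ v)
scoped notation:10 "ANY " n:max ", " c:max " OF " l " ; " b:10 =>
  @PL.rec (fun _ => Bool) false (fun n c _ ih => @Bool.rec (fun _ => Bool) ih true b) l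
scoped notation:10 "ANYN " n:max " OF " l " ; " b:10 =>
  @List.rec ℕ (fun _ => Bool) false (fun n _ ih => @Bool.rec (fun _ => Bool) ih true b) l
scoped notation:10 "ALLN " n:max " OF " l " ; " b:10 =>
  @List.rec ℕ (fun _ => Bool) true (fun n _ ih => @Bool.rec (fun _ => Bool) false ih b) l

instance instInhabitedPL : Inhabited PL := ⟨PL.nil⟩

noncomputable def memN (e : ℕ) (l : List ℕ) : Bool := ANYN a OF l ; a =' e
noncomputable def lenN (l : List ℕ) : ℕ :=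
  List.rec (motive := fun _ => ℕ) 0 (fun _ _ ih => Nat.succ ih) l
noncomputable def hn (l : PL) : ℕ := PL.rec (motive := fun _ => ℕ) 0 (fun n _ _ _ => n) l
noncomputable def hc (l : PL) : ℕ := PL.rec (motive := fun _ => ℕ) 0 (fun _ c _ _ => c) l
noncomputable def mx (a b : ℕ) : ℕ := IF a ≤' b THEN b ELSE a
noncomputable def mn (a b : ℕ) : ℕ := IF a ≤' b THEN a ELSE b

/-- a power of `p` dividing `x` -/
noncomputable def pp (x p : ℕ) : ℕ :=
  Nat.rec (motive := fun _ => ℕ → ℕ) (fun a => a)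
    (fun _ ih a => LET b := a *' p IN IF b ∣' x THEN ih b ELSE a) 64 1

noncomputable def facA (f : ℕ) : ℕ → ℕ → List ℕ → List ℕ :=
  Nat.rec (motive := fun _ => ℕ → ℕ → List ℕ → List ℕ) (fun _ _ _ => [0])
    (fun _ ih d y acc => IF y <' d *' d THEN (IF y ≤' 1 THEN acc ELSE y :: acc) ELSE
      IF d ∣' y THEN (LET z := y /' d IN IF d ∣' z THEN ih d z acc ELSE
          LET d' := Nat.succ d IN ih d' z (d :: acc))
      ELSE LET d' := Nat.succ d IN ih d' y acc) f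

noncomputable def facK' (k : List ℕ → Bool) (fc : List ℕ) : Bool := memN 0 fc ↛' k fc

/-- the prime divisors -/
noncomputable def facK (x : ℕ) (k : List ℕ → Bool) : Bool := facK' k (facA 6000 2 x [])

noncomputable def isPA (p f : ℕ) : ℕ → Bool :=
  Nat.rec (motive := fun _ => ℕ → Bool) (fun _ => true)
    (fun _ ih d => p <' d *' d ∨' (d ∣' p ↛' (LET d' := Nat.succ d IN ih d'))) f

noncomputable def isP (p : ℕ) : Bool := isPA p 2000 2

noncomputable def genP (ok : ℕ → Bool) (p : ℕ) (k : ℕ → Bool) (f : ℕ) : ℕ → Bool :=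
  Nat.rec (motive := fun _ => ℕ → Bool) (fun _ => false)
    (fun _ ih a => ok a →' (k a ∧' (LET b := a *' p IN ih b))) f

/-- run `k` on all admissible multiples of `a` by products of members of the list -/
noncomputable def gen (ok : ℕ → Bool) (k : ℕ → Bool) (l : List ℕ) : ℕ → Bool :=
  List.rec (motive := fun _ => ℕ → Bool) k (fun p _ ih => genP ok p ih 80) l

/-- push `(e, c)` for proper divisors `e > 1` of `n` -/
noncomputable def dvA (n c f : ℕ) : ℕ → PL → PL :=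
  Nat.rec (motive := fun _ => ℕ → PL → PL) (fun _ acc => acc)
    (fun _ ih d acc => IF n <' d *' d THEN acc ELSE LET d' := Nat.succ d IN
      IF d ∣' n THEN (LET e := n /' d IN ih d' (.cons d c (.cons e c acc))) ELSE ih d' acc) f

noncomputable def cnt (p : ℕ) (l : PL) : ℕ :=
  PL.rec (motive := fun _ => ℕ) 0 (fun n _ _ ih => IF n =' p THEN Nat.succ ih ELSE ih) l

noncomputable def hasN (p : ℕ) (l : PL) : Bool := ANY n, _ OF l ; n =' p

noncomputable def subs (w : ℕ) (l : List ℕ) : ℕ → Bool :=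
  List.rec (motive := fun _ => ℕ → Bool) (fun s => w ∣' s)
    (fun a _ ih s => ih s ∨' (LET t := s +' a IN ih t)) l

noncomputable def eraseN (e : ℕ) (l : List ℕ) : List ℕ :=
  List.rec (motive := fun _ => List ℕ) [] (fun a t ih => IF a =' e THEN t ELSE a :: ih) l

noncomputable def rep2 (t : ℕ) (l : List ℕ) : List ℕ :=
  Nat.rec (motive := fun _ => List ℕ) l (fun _ ih => 2 :: ih) t

structure Cfg where
  k : ℕ
  G0 : ℕ
  g0 : ℕ
  six : ℕ
  s66 : Bool
  three : Bool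
  fin : ℕ → PL → Bool

structure St where
  pre : PL
  L : ℕ
  R : ℕ
  B : ℕ
  ps : List ℕ
  ob : PL
  o2 : List ℕ
  t2 : ℕ
  px : PL

noncomputable def rejIns (pre : PL) (n c : ℕ) (fc : List ℕ) : Bool :=
  ANYN q OF fc ; q ∣' n ↛' (LET nq := n *' q IN
    ¬' (ANY a, b OF pre ; a =' nq ∧' b ∣' c ∧' pp c q ∣' b))

noncomputable def bnd (k c : ℕ) : ℕ := (k -' 1) *' (c *' c) +' c

noncomputable def rejPx (px : PL) (n c : ℕ) : Bool :=
  ANY a, b OF px ; a *' a ∣' c ∨' (a ∣' n ∧' ¬' (n =' a ∧' c =' b))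

noncomputable def isClo (pre px : PL) (n c : ℕ) : Bool :=
  hn px =' hn pre ∧' hc px =' hc pre ∧' 1 ≤' hn px ∧' ¬' (n =' hn px ∧' c =' hc px)

noncomputable def badE (k p mm : ℕ) : Bool :=
  mm ∣' p -' 1 →' (LET e := (p -' 1) /' mm IN e <' 2 ∨' k <' mm +' e)

noncomputable def obClo (s : St) (n c : ℕ) : PL :=
  IF isClo s.pre s.px n c THEN
    (LET e := (hn s.px -' 1) /' cnt (hn s.px) s.pre IN
      IF hasN e s.pre THEN s.ob ELSE dvA e 1 100 2 (.cons e 1 s.ob))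
  ELSE s.ob

noncomputable def isPx (n c : ℕ) (fc : List ℕ) : Bool := n *' n ∣' c ↛' memN n fc

noncomputable def rejNew (pre : PL) (n c L2 : ℕ) (fc : List ℕ) : Bool :=
  isPx n c fc ∧' (31 <' n ∨' n *' n ∣' L2 ∨' n -' 1 <' 2 *' Nat.succ (cnt n pre) ∨'
      (ANY a, b OF pre ; n ∣' a ∧' ¬' (b ∣' c)))

noncomputable def pxNew (px : PL) (n c : ℕ) (fc : List ℕ) : PL :=
  IF (hn px =' n ↛' isPx n c fc) THEN .cons n c px ELSE px

noncomputable def o2New (o2 : List ℕ) (n c : ℕ) : List ℕ :=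
  IF Nat.mod c 4 =' 2 THEN (IF 2 ∣' n THEN (LET h := n /' 2 IN h :: o2) ELSE eraseN n o2) ELSE o2

noncomputable def t2New (s66 : Bool) (s : St) (n c : ℕ) : ℕ :=
  IF n =' 2 THEN s.t2 -' 1 ELSE
    IF (c =' 6 ∧' n =' 6 ∧' s66 ∧' ¬' (hasN 2 s.pre)) THEN 2 ELSE s.t2

noncomputable def secL (pre : PL) (n c p : ℕ) : List ℕ :=
  PL.rec (motive := fun _ => List ℕ) [] (fun a b _ ih =>
    IF (n ∣' a ∧' (a =' n ↛' (p ∣' a /' n ↛' b ∣' c))) THEN (c /' b) :: ih ELSE ih) pre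

noncomputable def rejSec (pre : PL) (n c : ℕ) (fc : List ℕ) : Bool :=
  ANYN p OF fc ; p ∣' n ∧' pp n p =' n ∧' (LET w := c /' pp c p IN
    1 <' w ∧' (p ∣' w ↛' ¬' (subs w (secL pre n c p) 1)))

noncomputable def fltO (n c : ℕ) (l : PL) : PL → PL :=
  PL.rec (motive := fun _ => PL → PL) (fun r => r)
    (fun a b _ ih r => IF (a =' n ∧' b ∣' c) THEN ih r ELSE ih (.cons a b r)) l

noncomputable def cenO (L n u L2 : ℕ) (fc : List ℕ) : PL → PL :=
  List.rec (motive := fun _ => PL → PL) (fun r => r)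
    (fun p _ ih r => IF (p ∣' u ∧' ¬' (p =' n)) THEN
      (LET a := pp L2 p IN IF a ∣' L THEN ih r ELSE ih (.cons p a r)) ELSE ih r) fc

noncomputable def obNew (s : St) (n c u L2 : ℕ) (fc : List ℕ) : PL :=
  cenO s.L n u L2 fc (dvA n c 3000 2 (fltO n c (obClo s n c) .nil))

noncomputable def need (ob : PL) : List ℕ → List ℕ :=
  PL.rec (motive := fun _ => List ℕ → List ℕ) (fun r => r)
    (fun a _ _ ih r => IF memN a r THEN ih r ELSE ih (a :: r)) ob

noncomputable def psNew (L : ℕ) (fc : List ℕ) : List ℕ → List ℕ :=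
  List.rec (motive := fun _ => List ℕ → List ℕ) (fun r => r)
    (fun p _ ih r => IF p ∣' L THEN ih r ELSE ih (p :: r)) fc

noncomputable def step5 (K : St → List ℕ → Bool) (pre : PL) (L2 : ℕ) (ps : List ℕ) (ob : PL)
    (o2 : List ℕ) (t2 : ℕ) (px : PL) (nd : List ℕ) (R2 B2 : ℕ) : Bool :=
  LET R := R2 IN LET B := B2 IN K ⟨pre, L2, R, B, ps, ob, o2, t2, px⟩ nd

noncomputable def step4 (C : Cfg) (m : ℕ) (s : St) (K : St → List ℕ → Bool) (n c : ℕ)
    (fc : List ℕ) (d u L2 : ℕ) (ob : PL) (o2 : List ℕ) (t2 : ℕ) (nd : List ℕ) : Bool :=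
  m <' lenN nd ∨' step5 K (.cons n c s.pre) L2 (psNew s.L fc s.ps) ob o2 t2 (pxNew s.px n c fc) nd
    (s.R *' u -' s.L /' d) (IF (n =' 2 ∧' s.B =' 0) THEN bnd C.k c ELSE s.B)

noncomputable def step3 (C : Cfg) (m : ℕ) (s : St) (K : St → List ℕ → Bool) (n c : ℕ)
    (fc : List ℕ) (d u L2 : ℕ) (ob : PL) (o2 : List ℕ) : Bool :=
  LET t2 := t2New C.s66 s n c IN step4 C m s K n c fc d u L2 ob o2 t2 (need ob (rep2 t2 o2))

noncomputable def step2 (C : Cfg) (m : ℕ) (s : St) (K : St → List ℕ → Bool) (n c : ℕ)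
    (fc : List ℕ) (d u : ℕ) : Bool :=
  LET L2 := s.L *' u IN
  rejNew s.pre n c L2 fc ∨' rejSec s.pre n c fc ∨'
  step3 C m s K n c fc d u L2 (obNew s n c u L2 fc) (o2New s.o2 n c)

noncomputable def step1 (C : Cfg) (m : ℕ) (s : St) (K : St → List ℕ → Bool) (n c : ℕ)
    (fc : List ℕ) : Bool :=
  (n =' 6 ∧' C.six =' 2) ∨' (n =' 2 ∧' bnd C.k c <' C.G0) ∨' rejPx s.px n c ∨'
  (Nat.mod c 4 =' 2 ∧' (2 ∣' n ↛' ¬' (memN n s.o2))) ∨'
  (isClo s.pre s.px n c ∧' badE C.k (hn s.px) (cnt (hn s.px) s.pre)) ∨'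
  (LET d := Nat.gcd s.L c IN LET u := c /' d IN step2 C m s K n c fc d u)

/-- insert the class `(n, c)`; `m` classes remain afterwards -/
noncomputable def step (C : Cfg) (m : ℕ) (s : St) (K : St → List ℕ → Bool) (n c : ℕ)
    (fc : List ℕ) : Bool :=
  (hc s.pre =' c ∧' hn s.pre <' n) ∨' rejIns s.pre n c fc ∨' step1 C m s K n c fc

noncomputable def loB (s : St) : ℕ :=
  LET a := mx (mx (Nat.succ (s.L /' s.R)) 5) (hc s.pre) IN
    IF s.B =' 0 THEN a ELSE mx a (s.L *' s.B /' (s.R *' s.B -' s.L))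

noncomputable def hiB (G0 m : ℕ) (s : St) : ℕ :=
  LET a := Nat.succ (7 *' m) *' s.L /' (7 *' s.R) IN
  LET b := (IF s.L <' s.R *' G0 THEN mn a (m *' s.L *' G0 /' (s.R *' G0 -' s.L)) ELSE a) IN
  IF s.B =' 0 THEN b ELSE mn b (s.B /' 7)

noncomputable def scanx (g0 f : ℕ) (ns : List ℕ) (S : ℕ → ℕ → List ℕ → Bool) (x : ℕ) : Bool :=
  x ∣' g0 →' (IF f =' 0 THEN
    ((ANYN N OF ns ; N ∣' x) →' facK x fun fc => ALLN N OF ns ; N ∣' x →' S N x fc)
    ELSE facK x fun fc => gen (fun a => a ∣' x) (fun N => N =' 1 ∨' S N x fc) fc 1)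

noncomputable def lastU (L R lo hi : ℕ) (X : ℕ → Bool) (u : ℕ) : Bool :=
  LET t := R *' u -' 1 IN t ∣' L →' (LET x := L /' t *' u IN x <' lo ∨' hi <' x ∨' X x)

noncomputable def lastA (s : St) (f : ℕ) (nd : List ℕ) (U : ℕ → Bool) : Bool :=
  U 1 ∧' (f =' 0 ∨' (LET u := Nat.succ s.L /' s.R IN U u)) ∧'
    (ALLN p OF (IF f =' 0 THEN nd ELSE s.ps) ;
      genP (fun u => s.R *' u ≤' Nat.succ s.L) p U 80 p)

noncomputable def wOf (pre : PL) (N : ℕ) : ℕ → ℕ :=
  PL.rec (motive := fun _ => ℕ → ℕ) (fun w => w) (fun a b _ ih w =>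
    IF (N ∣' a ∧' ¬' (a =' N)) THEN (LET w' := w /' Nat.gcd w b *' b IN ih w') ELSE ih w) pre

noncomputable def qsOf (N W : ℕ) (ps : List ℕ) : List ℕ :=
  List.rec (motive := fun _ => List ℕ) [] (fun q _ ih =>
    IF (q ∣' W ∧' ¬' (q ∣' N)) THEN q :: ih ELSE ih) ps

noncomputable def fcOf (x : ℕ) (qs : List ℕ) : List ℕ → List ℕ :=
  List.rec (motive := fun _ => List ℕ → List ℕ) (fun r => r)
    (fun q _ ih r => IF q ∣' x THEN ih (q :: r) ELSE ih r) qs

noncomputable def leaf (g0 lo : ℕ) (S : ℕ → List ℕ → Bool) (qs pN : List ℕ) (x : ℕ) : Bool :=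
  x <' lo ∨' (x ∣' g0 →' S x (fcOf x qs pN))

noncomputable def genN' (g0 lo hi : ℕ) (S : ℕ → List ℕ → Bool) (N NW : ℕ) (qs pN : List ℕ) : Bool :=
  gen (fun a => a ≤' hi ∧' a ∣' NW) (gen (fun a => a ≤' hi) (leaf g0 lo S qs pN) pN) qs N

noncomputable def genN (g0 : ℕ) (s : St) (lo hi : ℕ) (S : ℕ → ℕ → List ℕ → Bool) (N : ℕ) : Bool :=
  LET W := wOf s.pre N 1 IN LET NW := N *' W IN
    facK N (genN' g0 lo hi (S N) N NW (qsOf N W s.ps))

noncomputable def dd (l : List ℕ) : List ℕ → List ℕ :=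
  List.rec (motive := fun _ => List ℕ → List ℕ) (fun r => r)
    (fun a _ ih r => IF memN a r THEN ih r ELSE ih (a :: r)) l

noncomputable def nsA (a : ℕ) (ps : List ℕ) : List ℕ → List ℕ :=
  List.rec (motive := fun _ => List ℕ → List ℕ) (fun r => r)
    (fun q _ ih r => IF (q ∣' a ∧' ¬' (q =' a)) THEN
      (LET e := a /' q IN IF memN e r THEN ih r ELSE ih (e :: r)) ELSE ih r) ps

noncomputable def nsB (a : ℕ) (nd : List ℕ) : List ℕ → List ℕ :=
  List.rec (motive := fun _ => List ℕ → List ℕ) (fun r => r)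
    (fun q _ ih r => LET e := a *' q IN IF memN e r THEN ih r ELSE ih (e :: r)) nd

noncomputable def nsC (ps : List ℕ) (pre : PL) : List ℕ → List ℕ :=
  PL.rec (motive := fun _ => List ℕ → List ℕ) (fun r => r) (fun a _ _ ih r => ih (nsA a ps r)) pre

noncomputable def nsD (nd l : List ℕ) : List ℕ → List ℕ :=
  List.rec (motive := fun _ => List ℕ → List ℕ) (fun r => r) (fun a _ ih r => ih (nsB a nd r)) l

noncomputable def pleaf (g0 lo f : ℕ) (ns : List ℕ) (S : ℕ → ℕ → List ℕ → Bool) (p x : ℕ) : Bool :=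
  x <' lo ∨' (x =' p ∧' 31 <' p) ∨' (x ∣' g0 →' isP p →'
    ((memN p ns ∨' S p x [p]) ∧'
      (f <' 2 ∨' x =' p ∨' (LET p2 := p *' p IN memN p2 ns ∨' S p2 x [p]))))

noncomputable def ploop (g0 lo hi f : ℕ) (ns : List ℕ) (S : ℕ → ℕ → List ℕ → Bool) : Bool :=
  LET Q := Nat.pow 2 (Nat.succ (Nat.log2 hi /' 2)) +' 32 IN
  hi <' Q *' Q ∧' allB Q fun p => p <' 2 ∨' (31 <' p ∧' hi <' p *' p) ∨'
      genP (fun a => a ≤' hi) p (pleaf g0 lo f ns S p) 80 p

noncomputable def node3 (g0 : ℕ) (s : St) (lo hi f : ℕ) (S : ℕ → ℕ → List ℕ → Bool)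
    (ns2 : List ℕ) : Bool :=
  (ALLN N OF ns2 ; genN g0 s lo hi S N) ∧' ploop g0 lo hi f ns2 S

noncomputable def node2 (g0 m : ℕ) (s : St) (nd : List ℕ) (lo hi f : ℕ)
    (S : ℕ → ℕ → List ℕ → Bool) (ns : List ℕ) : Bool :=
  IF m =' 0 THEN lastA s f nd (lastU s.L s.R lo hi (scanx g0 f ns S)) ELSE
  IF (hi <' lo +' 8 ∨' (1 <' f ∧' 1 <' m)) THEN
    allB (Nat.succ hi -' lo) (fun i => LET x := lo +' i IN scanx g0 f ns S x) ELSE
  IF f =' 0 THEN (ALLN N OF ns ; genN g0 s lo hi S N) ELSE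
  node3 g0 s lo hi f S (nsD nd nd (nsC s.ps s.pre ns))

noncomputable def node1 (C : Cfg) (m : ℕ) (K : St → List ℕ → Bool) (s : St) (nd : List ℕ)
    (lo hi : ℕ) : Bool :=
  hi <' lo ∨' (LET f := Nat.succ m -' lenN nd IN
    node2 C.g0 m s nd lo hi f (step C m s K) (dd nd []))

/-- one level of the search; `m + 1` classes remain -/
noncomputable def node (C : Cfg) (m : ℕ) (K : St → List ℕ → Bool) (s : St) (nd : List ℕ) : Bool :=
  (s.B =' 0 ↛' (s.B <' s.L ∨' s.R *' s.B ≤' s.L)) ∨'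
  (LET lo := loB s IN LET hi := hiB C.G0 (Nat.succ m) s IN node1 C m K s nd lo hi)

noncomputable def sumI (g : ℕ) (l : PL) : ℕ :=
  PL.rec (motive := fun _ => ℕ) 0 (fun a b _ ih => IF a =' 2 THEN g /' b +' ih ELSE ih) l

noncomputable def rejF (k g : ℕ) (pre : PL) (p c : ℕ) : Bool :=
  LET mm := cnt p pre IN badE k p mm ∨' (LET e := (p -' 1) /' mm IN
    hasN e pre →' c *' e ∣' g →' Nat.mod (g /' (c *' e)) p =' 1 →'
      (c =' p ∧' 2 ∣' e ∧' ¬' (ANY a, b OF pre ; a =' 2 ∧' b *' b ≤' g)))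

noncomputable def final (C : Cfg) (s : St) (_ : List ℕ) : Bool :=
  s.R =' 1 →' s.L <' C.G0 ∨' (s.L ∣' C.g0 →'
  (ANY p, c OF s.px ; rejF C.k s.L s.pre p c) ∨'
  (LET I := sumI s.L s.pre IN I +' (C.k -' 1) *' s.L <' I *' I) ∨'
  (ANY a, b OF s.pre ; a =' 2 ∧' ¬' (ANY a', b' OF s.pre ; 2 <' a' ∧'
    a' *' (b *' b) ≤' s.L *' b' ∧' isP a')) ∨'
  C.fin s.L s.pre)

/-- `d` levels above `K`, which is entered when `m` classes remain -/
noncomputable def top (C : Cfg) (m : ℕ) (K : St → List ℕ → Bool) (d : ℕ) : St → List ℕ → Bool :=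
  Nat.rec (motive := fun _ => St → List ℕ → Bool) K
    (fun j ih => LET m' := m +' j IN node C m' ih) d

noncomputable def ob0 (C : Cfg) : PL :=
  IF C.six =' 1 THEN .cons 6 6 (.cons 2 6 (.cons 3 6 .nil)) ELSE
    IF C.three THEN .cons 2 2 (.cons 3 3 .nil) ELSE .cons 2 2 .nil

noncomputable def st0 (C : Cfg) : St := ⟨.nil, 1, 1, 0, [], ob0 C, [], 0, .nil⟩

noncomputable def hash (l : PL) : ℕ :=
  PL.rec (motive := fun _ => ℕ) 0 (fun a b _ ih => a +' b +' 7 *' ih) l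

/-- a part of the search, split after `d` and after `d + d'` levels -/
noncomputable def part (C : Cfg) (d n i d' n' i' : ℕ) : Bool :=
  top C (C.k -' 1 -' d) (fun s nd => Nat.mod (hash s.pre) n =' i →'
    top C (C.k -' 1 -' d -' d') (fun s nd => Nat.mod (hash s.pre) n' =' i' →'
      top C 0 (final C) (C.k -' 1 -' d -' d') s nd) d' s nd) d (st0 C) (need (ob0 C) [])

end Cfsg.Agent.ClsN
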