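import Mathlib
import Cfsg.Agent.ClsN.Defs

/-!
Specifications of the auxiliary programs of the class structure search.
-/

set_option autoImplicit false

namespace Cfsg.Agent.ClsN

open Cfsg.Agent.Comp

def PL.toM : PL → Multiset (ℕ × ℕ)
  | .nil => 0
  | .cons n c t => (n, c) ::ₘ t.toM

@[simp] theorem toM_nil : PL.nil.toM = 0 := rfl
@[simp] theorem toM_cons (n c : ℕ) (t : PL) : (PL.cons n c t).toM = (n, c) ::ₘ t.toM := rfl

@[simp] theorem or_t (a b : Bool) : (a ∨' b) = true ↔ a = true ∨ b = true := by cases a <;> simp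
@[simp] theorem and_t (a b : Bool) : (a ∧' b) = true ↔ a = true ∧ b = true := by cases a <;> simp
@[simp] theorem nand_t (a b : Bool) : (a ↛' b) = true ↔ ¬ a = true ∧ b = true := by
  cases a <;> simp
@[simp] theorem imp_t (a b : Bool) : (a →' b) = true ↔ (a = true → b = true) := by cases a <;> simp
@[simp high] theorem not_t (a : Bool) : (¬' a) = true ↔ ¬ a = true := by cases a <;> simp
theorem ite_e {α : Type} (c : Bool) (x y : α) :
    (IF c THEN x ELSE y : α) = if c = true then x else y := by cases c <;> rfl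
theorem let_e {α : Type} (d : α) (f : ℕ → α) (v : ℕ) :
    @Nat.rec (fun _ => α) d (fun x _ => f x) (Nat.succ v) = f v := rfl
@[simp] theorem e_div (a b : ℕ) : a /' b = a / b := rfl
@[simp] theorem e_mod (a b : ℕ) : Nat.mod a b = a % b := rfl
theorem dv_t (a b : ℕ) : (a ∣' b) = true ↔ a ∣ b := by
  rw [Nat.beq_eq, e_mod, Nat.dvd_iff_mod_eq_zero]
theorem dv0 (a b : ℕ) : Nat.mod b a = 0 ↔ a ∣ b := by rw [e_mod, Nat.dvd_iff_mod_eq_zero]
theorem lt_t (a b : ℕ) : (a <' b) = true ↔ a < b := by rw [Nat.ble_eq]; rfl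
theorem le_t (a b : ℕ) : (a ≤' b) = true ↔ a ≤ b := by rw [Nat.ble_eq]
theorem eq_t (a b : ℕ) : (a =' b) = true ↔ a = b := by rw [Nat.beq_eq]

theorem any_t (p : ℕ → ℕ → Bool) (l : PL) :
    (ANY n, c OF l ; p n c) = true ↔ ∃ a ∈ l.toM, p a.1 a.2 = true := by
  induction l with
  | nil => simp
  | cons n c t ih =>
    have : (ANY a, b OF PL.cons n c t ; p a b) = (p n c ∨' (ANY a, b OF t ; p a b)) := rfl
    rw [this, or_t, ih]; simp

theorem anyN_t (p : ℕ → Bool) (l : List ℕ) :
    (ANYN n OF l ; p n) = true ↔ ∃ a ∈ l, p a = true := by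
  induction l with
  | nil => simp
  | cons n t ih =>
    have : (ANYN a OF n :: t ; p a) = (p n ∨' (ANYN a OF t ; p a)) := rfl
    rw [this, or_t, ih]; simp

theorem allN_t (p : ℕ → Bool) (l : List ℕ) :
    (ALLN n OF l ; p n) = true ↔ ∀ a ∈ l, p a = true := by
  induction l with
  | nil => simp
  | cons n t ih =>
    have : (ALLN a OF n :: t ; p a) = (p n ∧' (ALLN a OF t ; p a)) := rfl
    rw [this, and_t, ih]; simp

theorem memN_t (e : ℕ) (l : List ℕ) : memN e l = true ↔ e ∈ l := by
  rw [memN, anyN_t (fun a => a =' e)]; simp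

theorem lenN_e (l : List ℕ) : lenN l = l.length := by
  induction l with
  | nil => rfl
  | cons a t ih => exact congrArg Nat.succ ih

theorem hd_cases (l : PL) : (l = .nil ∧ hn l = 0 ∧ hc l = 0) ∨ (hn l, hc l) ∈ l.toM := by
  cases l with
  | nil => exact Or.inl ⟨rfl, rfl, rfl⟩
  | cons n c t => exact Or.inr (Multiset.mem_cons_self _ _)

theorem mx_e (a b : ℕ) : mx a b = max a b := by
  simp only [mx, ite_e, le_t]; split_ifs <;> omega

theorem mn_e (a b : ℕ) : mn a b = min a b := by
  simp only [mn, ite_e, le_t]; split_ifs <;> omega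

theorem pp_spec (x p : ℕ) : (∃ j, pp x p = p ^ j) ∧ pp x p ∣ x := by
  have : ∀ f a, (∃ j, a = p ^ j) → a ∣ x →
      (∃ j, Nat.rec (motive := fun _ => ℕ → ℕ) (fun a => a)
        (fun _ ih a => LET b := a *' p IN IF b ∣' x THEN ih b ELSE a) f a = p ^ j) ∧
      Nat.rec (motive := fun _ => ℕ → ℕ) (fun a => a)
        (fun _ ih a => LET b := a *' p IN IF b ∣' x THEN ih b ELSE a) f a ∣ x := by
    intro f
    induction f with
    | zero => exact fun a h1 h2 => ⟨h1, h2⟩
    | succ f ih =>
      intro a h1 h2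
      change (∃ j, (IF a * p ∣' x THEN _ ELSE a : ℕ) = p ^ j) ∧ (IF a * p ∣' x THEN _ ELSE a : ℕ) ∣ x
      rw [ite_e]
      split_ifs with h
      · rw [dv_t] at h
        obtain ⟨j, rfl⟩ := h1
        exact ih _ ⟨j + 1, rfl⟩ h
      · exact ⟨h1, h2⟩
  exact this 64 1 ⟨0, rfl⟩ (one_dvd _)

theorem facA_succ (f d y : ℕ) (acc : List ℕ) : facA (f + 1) d y acc =
    if y < d * d then (if y ≤ 1 then acc else y :: acc) else
      if d ∣ y then (if d ∣ y / d then facA f d (y / d) acc else facA f (d + 1) (y / d) (d :: acc))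
      else facA f (d + 1) y acc := by
  have : facA (f + 1) d y acc = (IF y <' d * d THEN (IF y ≤' 1 THEN acc ELSE y :: acc) ELSE
      IF d ∣' y THEN (IF d ∣' y / d THEN facA f d (y / d) acc ELSE facA f (d + 1) (y / d) (d :: acc))
      ELSE facA f (d + 1) y acc : List ℕ) := rfl
  rw [this]
  simp only [ite_e, lt_t, le_t, dv_t]

theorem facA_spec (f : ℕ) : ∀ (d y : ℕ) (acc : List ℕ), 2 ≤ d → 0 < y →
    (∀ q, q.Prime → q ∣ y → d ≤ q) → 0 ∉ facA f d y acc →
    ∀ q, q ∈ facA f d y acc ↔ q ∈ acc ∨ (q.Prime ∧ q ∣ y) := by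
  induction f with
  | zero => intro d y acc _ _ _ h; exact absurd (List.mem_singleton_self 0) h
  | succ f ih =>
    intro d y acc hd hy hq h0 q
    rw [facA_succ] at h0 ⊢
    split_ifs at h0 ⊢ with h1 h2 h3 h4
    · obtain rfl : y = 1 := by omega
      simp only [Nat.dvd_one, iff_self_or, and_imp]
      rintro h rfl; exact absurd h Nat.not_prime_one
    · have hp : y.Prime := by
        by_contra hp
        have h5 := Nat.minFac_sq_le_self hy hp
        have h6 := hq _ (Nat.minFac_prime (by omega)) (Nat.minFac_dvd y)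
        nlinarith
      rw [List.mem_cons, or_comm]
      refine or_congr Iff.rfl ⟨fun h => by rw [h]; exact ⟨hp, dvd_rfl⟩, fun h => ?_⟩
      exact (Nat.prime_dvd_prime_iff_eq h.1 hp).1 h.2
    · obtain ⟨z, rfl⟩ := h3
      rw [Nat.mul_div_cancel_left _ (by omega : 0 < d)] at h0 h4 ⊢
      rw [ih d z acc hd (Nat.pos_of_mul_pos_left hy) (fun q h h' => hq q h (h'.mul_left _)) h0]
      refine or_congr Iff.rfl (and_congr_right fun h => ⟨fun h' => h'.mul_left _, fun h' => ?_⟩)
      rcases (h.dvd_mul).1 h' with h' | h'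
      · exact h'.trans h4
      · exact h'
    · have hp : d.Prime := by
        have h5 := hq _ (Nat.minFac_prime (n := d) (by omega)) ((Nat.minFac_dvd d).trans h3)
        rw [← le_antisymm (Nat.minFac_le (by omega)) h5]
        exact Nat.minFac_prime (by omega)
      obtain ⟨z, rfl⟩ := h3
      rw [Nat.mul_div_cancel_left _ (by omega : 0 < d)] at h0 h4 ⊢
      rw [ih (d + 1) z (d :: acc) (by omega) (Nat.pos_of_mul_pos_left hy) (fun q h h' => by
        have := hq q h (h'.mul_left _)
        rcases this.eq_or_lt with rfl | this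
        · exact absurd h' h4
        · exact this) h0, List.mem_cons]
      constructor
      · rintro ((rfl | h) | h)
        · exact Or.inr ⟨hp, dvd_mul_right _ _⟩
        · exact Or.inl h
        · exact Or.inr ⟨h.1, h.2.mul_left _⟩
      · rintro (h | ⟨h, h'⟩)
        · exact Or.inl (Or.inr h)
        · rcases (h.dvd_mul).1 h' with h' | h'
          · exact Or.inl (Or.inl ((Nat.prime_dvd_prime_iff_eq h hp).1 h'))
          · exact Or.inr ⟨h, h'⟩
    · exact ih (d + 1) y acc (by omega) hy (fun q h h' => by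
        have := hq q h h'
        rcases this.eq_or_lt with rfl | this
        · exact absurd h' h3
        · exact this) h0 q

/-- `fc` lists the prime divisors of `x` -/
def IsFc (x : ℕ) (fc : List ℕ) : Prop := ∀ q, q ∈ fc ↔ q.Prime ∧ q ∣ x

theorem facK_spec {x : ℕ} (hx : 0 < x) : ∃ fc, (0 ∉ fc → IsFc x fc) ∧
    ∀ k, facK x k = true → 0 ∉ fc ∧ k fc = true := by
  refine ⟨facA 6000 2 x [], fun h q => ?_, fun k h => ?_⟩
  · simpa using facA_spec 6000 2 x [] le_rfl hx (fun q h _ => h.two_le) h q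
  · rw [facK, facK', nand_t, memN_t] at h
    exact h

theorem isP_of_prime {p : ℕ} (hp : p.Prime) : isP p = true := by
  have : ∀ f d, 2 ≤ d → isPA p f d = true := by
    intro f
    induction f with
    | zero => exact fun _ _ => rfl
    | succ f ih =>
      intro d hd
      have : isPA p (f + 1) d = (p <' d * d ∨' (d ∣' p ↛' isPA p f (d + 1))) := rfl
      rw [this, or_t, nand_t, lt_t, dv_t]
      by_cases h : p < d * d
      · exact Or.inl h
      · refine Or.inr ⟨fun h' => ?_, ih _ (by omega)⟩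
        rcases (Nat.dvd_prime hp).1 h' with rfl | rfl
        · omega
        · nlinarith
  exact this _ _ le_rfl

theorem genP_spec {ok k : ℕ → Bool} {p : ℕ} (f : ℕ) : ∀ a j, genP ok p k f a = true →
    (∀ i ≤ j, ok (a * p ^ i) = true) → k (a * p ^ j) = true := by
  induction f with
  | zero => intro a j h; exact absurd h (by simp [genP])
  | succ f ih =>
    intro a j h hok
    have : genP ok p k (f + 1) a = (ok a →' (k a ∧' genP ok p k f (a * p))) := rfl
    rw [this, imp_t, and_t] at h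
    have h1 := h (by simpa using hok 0 (Nat.zero_le _))
    cases j with
    | zero => simpa using h1.1
    | succ j =>
      rw [pow_succ', ← mul_assoc]
      exact ih _ j h1.2 fun i hi => by rw [mul_assoc, ← pow_succ']; exact hok _ (by omega)

theorem gen_spec {ok k : ℕ → Bool} (l : List ℕ) : ∀ a y, gen ok k l a = true → 0 < y →
    (∀ q, q.Prime → q ∣ y → q ∈ l) → (∀ z, z ∣ y → ok (a * z) = true) → k (a * y) = true := by
  induction l with
  | nil =>
    intro a y h hy hq _
    have : y = 1 := Nat.eq_one_iff_not_exists_prime_dvd.2 fun q h h' => by simpa using hq q h h'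
    subst this
    rw [mul_one]
    exact h
  | cons p t ih =>
    intro a y h hy hq hok
    have h' : genP ok p (gen ok k t) 80 a = true := h
    by_cases hp : p.Prime
    · obtain ⟨j, z, hz, rfl⟩ := Nat.exists_eq_pow_mul_and_not_dvd hy.ne' p hp.ne_one
      rw [← mul_assoc]
      refine ih _ z (genP_spec 80 a j h' fun i hi => hok _ ((pow_dvd_pow p hi).mul_right _))
        (Nat.pos_of_mul_pos_left hy) (fun q h1 h2 => ?_) fun w hw => ?_
      · rcases List.mem_cons.1 (hq q h1 (h2.mul_left _)) with rfl | h3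
        · exact absurd h2 hz
        · exact h3
      · rw [mul_assoc]; exact hok _ (Nat.mul_dvd_mul_left _ hw)
    · have h1 := genP_spec 80 a 0 h' fun i hi => by
        obtain rfl : i = 0 := by omega
        exact hok _ (one_dvd _)
      rw [pow_zero, mul_one] at h1
      refine ih a y h1 hy (fun q h1 h2 => ?_) hok
      rcases List.mem_cons.1 (hq q h1 h2) with rfl | h3
      · exact absurd h1 hp
      · exact h3

theorem dvA_spec (n c f : ℕ) : ∀ (d : ℕ) (acc : PL), 2 ≤ d → ∀ a ∈ (dvA n c f d acc).toM,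
    a ∈ acc.toM ∨ (a.2 = c ∧ 1 < a.1 ∧ a.1 < n ∧ a.1 ∣ n) := by
  induction f with
  | zero => exact fun d acc _ a h => Or.inl h
  | succ f ih =>
    intro d acc hd a h
    have : dvA n c (f + 1) d acc = (IF n <' d * d THEN acc ELSE
      IF d ∣' n THEN dvA n c f (d + 1) (.cons d c (.cons (n / d) c acc))
        ELSE dvA n c f (d + 1) acc : PL) := rfl
    rw [this] at h
    simp only [ite_e, lt_t, dv_t] at h
    split_ifs at h with h1 h2
    · exact Or.inl h
    · rcases ih _ _ (by omega) a h with h | h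
      · obtain ⟨z, rfl⟩ := h2
        rw [Nat.mul_div_cancel_left _ (by omega : 0 < d)] at h
        have hz : d ≤ z := by
          by_contra h3
          exact h1 (Nat.mul_lt_mul_of_pos_left (by omega) (by omega))
        simp only [toM_cons, Multiset.mem_cons] at h
        rcases h with rfl | rfl | h
        · exact Or.inr ⟨rfl, by omega, by nlinarith, dvd_mul_right _ _⟩
        · exact Or.inr ⟨rfl, by simp; omega, by simp; nlinarith, dvd_mul_left _ _⟩
        · exact Or.inl h
      · exact Or.inr h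
    · exact ih _ _ (by omega) a h

theorem cnt_e (p : ℕ) (l : PL) : cnt p l = (l.toM.map Prod.fst).count p := by
  induction l with
  | nil => rfl
  | cons n c t ih =>
    have : cnt p (.cons n c t) = (IF n =' p THEN cnt p t + 1 ELSE cnt p t : ℕ) := rfl
    rw [this, ih, toM_cons, Multiset.map_cons, Multiset.count_cons]
    simp only [ite_e, eq_t]
    split_ifs <;> omega

theorem hasN_t (p : ℕ) (l : PL) : hasN p l = true ↔ ∃ a ∈ l.toM, a.1 = p := by
  rw [hasN, any_t (fun n _ => n =' p)]; simp only [eq_t]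

theorem subs_spec {w : ℕ} (l : List ℕ) : ∀ (s : ℕ) (S : Multiset ℕ), S ≤ l → w ∣ s + S.sum →
    subs w l s = true := by
  induction l with
  | nil =>
    intro s S h h'
    have : S = 0 := by simpa using h
    subst this
    exact (dv_t _ _).2 (by simpa using h')
  | cons a t ih =>
    intro s S h h'
    have : subs w (a :: t) s = (subs w t s ∨' subs w t (s + a)) := rfl
    rw [this, or_t]
    by_cases ha : a ∈ S
    · obtain ⟨T, rfl⟩ := Multiset.exists_cons_of_mem ha
      refine Or.inr (ih _ T ((Multiset.cons_le_cons_iff a).1 (by simpa using h)) ?_)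
      simpa [add_assoc] using h'
    · exact Or.inl (ih s S ((Multiset.le_cons_of_notMem ha).1 (by simpa using h)) h')

theorem eraseN_e (e : ℕ) (l : List ℕ) : eraseN e l = l.erase e := by
  induction l with
  | nil => rfl
  | cons a t ih =>
    have : eraseN e (a :: t) = (IF a =' e THEN t ELSE a :: eraseN e t : List ℕ) := rfl
    rw [this, ih, List.erase_cons]
    simp [ite_e]

theorem rep2_e (t : ℕ) (l : List ℕ) : rep2 t l = List.replicate t 2 ++ l := by
  induction t with
  | zero => rfl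
  | succ t ih => exact congrArg (List.cons 2) ih

theorem fltO_spec (n c : ℕ) (l : PL) : ∀ r : PL, ∀ a ∈ (fltO n c l r).toM,
    a ∈ r.toM ∨ (a ∈ l.toM ∧ ¬ (a.1 = n ∧ a.2 ∣ c)) := by
  induction l with
  | nil => exact fun r a h => Or.inl h
  | cons x y t ih =>
    intro r a h
    have : fltO n c (.cons x y t) r = (IF (x =' n ∧' y ∣' c) THEN fltO n c t r ELSE
      fltO n c t (.cons x y r) : PL) := rfl
    rw [this] at h
    simp only [ite_e (α := PL), and_t, eq_t, dv0] at h
    split_ifs at h with h1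
    · exact (ih _ a h).imp_right fun h => ⟨Multiset.mem_cons_of_mem h.1, h.2⟩
    · rcases ih _ a h with h | h
      · rcases Multiset.mem_cons.1 h with rfl | h
        · exact Or.inr ⟨Multiset.mem_cons_self _ _, h1⟩
        · exact Or.inl h
      · exact Or.inr ⟨Multiset.mem_cons_of_mem h.1, h.2⟩

theorem cenO_spec (L n u L2 : ℕ) (fc : List ℕ) : ∀ r : PL, ∀ a ∈ (cenO L n u L2 fc r).toM,
    a ∈ r.toM ∨ (a.1 ∈ fc ∧ a.1 ≠ n ∧ a.2 = pp L2 a.1 ∧ ¬ a.2 ∣ L) := by
  induction fc with
  | nil => exact fun r a h => Or.inl h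
  | cons p t ih =>
    intro r a h
    have : cenO L n u L2 (p :: t) r = (IF (p ∣' u ∧' ¬' (p =' n)) THEN
      (IF pp L2 p ∣' L THEN cenO L n u L2 t r ELSE cenO L n u L2 t (.cons p (pp L2 p) r))
      ELSE cenO L n u L2 t r : PL) := rfl
    rw [this] at h
    simp only [ite_e (α := PL), and_t, not_t, eq_t, dv0] at h
    split_ifs at h with h1 h2
    · exact (ih _ a h).imp_right fun h => ⟨List.mem_cons_of_mem _ h.1, h.2⟩
    · rcases ih _ a h with h | h
      · rcases Multiset.mem_cons.1 h with rfl | h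
        · exact Or.inr ⟨List.mem_cons_self, h1.2, rfl, h2⟩
        · exact Or.inl h
      · exact Or.inr ⟨List.mem_cons_of_mem _ h.1, h.2⟩
    · exact (ih _ a h).imp_right fun h => ⟨List.mem_cons_of_mem _ h.1, h.2⟩

theorem need_le {T : Multiset ℕ} (ob : PL) : ∀ r : List ℕ, (∀ a ∈ ob.toM, a.1 ∈ T) →
    (r : Multiset ℕ) ≤ T → (need ob r : Multiset ℕ) ≤ T := by
  induction ob with
  | nil => exact fun r _ h => h
  | cons x y t ih =>
    intro r h1 h2
    have : need (.cons x y t) r = (IF memN x r THEN need t r ELSE need t (x :: r) : List ℕ) := rfl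
    rw [this]
    simp only [ite_e, memN_t]
    have h3 := fun a ha => h1 a (Multiset.mem_cons_of_mem ha)
    split_ifs with h
    · exact ih r h3 h2
    · exact ih _ h3 ((Multiset.cons_le_of_notMem h).2 ⟨h1 _ (Multiset.mem_cons_self _ _), h2⟩)

theorem psNew_spec (L : ℕ) (fc : List ℕ) : ∀ (r : List ℕ) (q : ℕ),
    q ∈ psNew L fc r ↔ q ∈ r ∨ (q ∈ fc ∧ ¬ q ∣ L) := by
  induction fc with
  | nil => intro r q; simp [psNew]
  | cons p t ih =>
    intro r q
    have : psNew L (p :: t) r = (IF p ∣' L THEN psNew L t r ELSE psNew L t (p :: r) : List ℕ) := rfl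
    rw [this]
    simp only [ite_e, dv_t]
    split_ifs with h
    · rw [ih, List.mem_cons]
      refine or_congr Iff.rfl (and_congr_left fun h' => ⟨Or.inr, fun h'' => ?_⟩)
      exact h''.resolve_left (by rintro rfl; exact h' h)
    · rw [ih, List.mem_cons, List.mem_cons]
      constructor
      · rintro ((rfl | h1) | h1)
        · exact Or.inr ⟨Or.inl rfl, h⟩
        · exact Or.inl h1
        · exact Or.inr ⟨Or.inr h1.1, h1.2⟩
      · rintro (h1 | ⟨rfl | h1, h2⟩)
        · exact Or.inl (Or.inr h1)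
        · exact Or.inl (Or.inl rfl)
        · exact Or.inr ⟨h1, h2⟩

theorem secL_e (pre : PL) (n c p : ℕ) : (secL pre n c p : Multiset ℕ) =
    (pre.toM.filter fun a => n ∣ a.1 ∧ a.1 ≠ n ∧ ¬ p ∣ a.1 / n ∧ a.2 ∣ c).map fun a => c / a.2 := by
  induction pre with
  | nil => rfl
  | cons a b t ih =>
    have : secL (.cons a b t) n c p = (IF (n ∣' a ∧' (a =' n ↛' (p ∣' a / n ↛' b ∣' c))) THEN
      (c / b) :: secL t n c p ELSE secL t n c p : List ℕ) := rfl
    rw [this, toM_cons, Multiset.filter_cons]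
    simp only [ite_e (α := List ℕ), and_t, nand_t, dv0, eq_t, ne_eq]
    split_ifs with h
    · rw [← Multiset.cons_coe, ih]; simp
    · rw [ih]; simp

theorem wOf_spec (N : ℕ) (pre : PL) : ∀ w, w ∣ wOf pre N w ∧
    ∀ a ∈ pre.toM, N ∣ a.1 → a.1 ≠ N → a.2 ∣ wOf pre N w := by
  induction pre with
  | nil => exact fun w => ⟨dvd_rfl, by simp⟩
  | cons a b t ih =>
    intro w
    have : wOf (.cons a b t) N w = (IF (N ∣' a ∧' ¬' (a =' N)) THEN
      wOf t N (w / Nat.gcd w b * b) ELSE wOf t N w : ℕ) := rfl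
    rw [this]
    simp only [ite_e (α := ℕ), and_t, not_t, dv0, eq_t]
    split_ifs with h
    · have h1 : w / Nat.gcd w b * b = Nat.lcm w b := by
        rw [Nat.lcm, Nat.div_mul_right_comm (Nat.gcd_dvd_left _ _)]
      rw [h1]
      refine ⟨(Nat.dvd_lcm_left _ _).trans (ih _).1, fun x hx h2 h3 => ?_⟩
      rcases Multiset.mem_cons.1 hx with rfl | hx
      · exact (Nat.dvd_lcm_right _ _).trans (ih _).1
      · exact (ih _).2 x hx h2 h3
    · refine ⟨(ih _).1, fun x hx h2 h3 => ?_⟩
      rcases Multiset.mem_cons.1 hx with rfl | hx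
      · exact absurd ⟨h2, h3⟩ h
      · exact (ih _).2 x hx h2 h3

theorem qsOf_spec (N W : ℕ) (ps : List ℕ) (q : ℕ) :
    q ∈ qsOf N W ps ↔ q ∈ ps ∧ q ∣ W ∧ ¬ q ∣ N := by
  induction ps with
  | nil => simp [qsOf]
  | cons p t ih =>
    have : qsOf N W (p :: t) = (IF (p ∣' W ∧' ¬' (p ∣' N)) THEN p :: qsOf N W t ELSE
      qsOf N W t : List ℕ) := rfl
    rw [this]
    simp only [ite_e (α := List ℕ), and_t, not_t, dv_t]
    split_ifs with h
    · rw [List.mem_cons, List.mem_cons, ih]
      constructor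
      · rintro (rfl | h1)
        · exact ⟨Or.inl rfl, h⟩
        · exact ⟨Or.inr h1.1, h1.2⟩
      · rintro ⟨rfl | h1, h2⟩
        · exact Or.inl rfl
        · exact Or.inr ⟨h1, h2⟩
    · rw [ih, List.mem_cons]
      refine and_congr_left fun h' => ⟨Or.inr, fun h'' => h''.resolve_left ?_⟩
      rintro rfl; exact h h'

theorem fcOf_spec (x : ℕ) (qs : List ℕ) : ∀ (r : List ℕ) (q : ℕ),
    q ∈ fcOf x qs r ↔ q ∈ r ∨ (q ∈ qs ∧ q ∣ x) := by
  induction qs with
  | nil => intro r q; simp [fcOf]
  | cons p t ih =>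
    intro r q
    have : fcOf x (p :: t) r = (IF p ∣' x THEN fcOf x t (p :: r) ELSE fcOf x t r : List ℕ) := rfl
    rw [this]
    simp only [ite_e, dv_t]
    split_ifs with h
    · rw [ih, List.mem_cons, List.mem_cons]
      constructor
      · rintro ((rfl | h1) | h1)
        · exact Or.inr ⟨Or.inl rfl, h⟩
        · exact Or.inl h1
        · exact Or.inr ⟨Or.inr h1.1, h1.2⟩
      · rintro (h1 | ⟨rfl | h1, h2⟩)
        · exact Or.inl (Or.inr h1)
        · exact Or.inl (Or.inl rfl)
        · exact Or.inr ⟨h1, h2⟩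
    · rw [ih, List.mem_cons]
      refine or_congr Iff.rfl (and_congr_left fun h' => ⟨Or.inr, fun h'' => ?_⟩)
      exact h''.resolve_left (by rintro rfl; exact h h')

theorem ins_mem {r : List ℕ} {e : ℕ} {f : List ℕ → List ℕ} (hf : ∀ r, ∀ a ∈ r, a ∈ f r) :
    (∀ a ∈ r, a ∈ (IF memN e r THEN f r ELSE f (e :: r) : List ℕ)) ∧
      e ∈ (IF memN e r THEN f r ELSE f (e :: r) : List ℕ) := by
  simp only [ite_e, memN_t]
  split_ifs with h
  · exact ⟨hf r, hf r e h⟩
  · exact ⟨fun a ha => hf _ a (List.mem_cons_of_mem _ ha), hf _ e List.mem_cons_self⟩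

theorem dd_spec (l : List ℕ) : ∀ r, (∀ a ∈ r, a ∈ dd l r) ∧ ∀ a ∈ l, a ∈ dd l r := by
  induction l with
  | nil => exact fun r => ⟨fun _ h => h, by simp⟩
  | cons e t ih =>
    intro r
    have : dd (e :: t) r = (IF memN e r THEN dd t r ELSE dd t (e :: r) : List ℕ) := rfl
    rw [this]
    have h := ins_mem (r := r) (e := e) fun r => (ih r).1
    refine ⟨h.1, fun a ha => ?_⟩
    rcases List.mem_cons.1 ha with rfl | ha
    · exact h.2
    · rw [ite_e]; split_ifs <;> exact (ih _).2 a ha

theorem nsA_spec (a : ℕ) (ps : List ℕ) : ∀ r, (∀ b ∈ r, b ∈ nsA a ps r) ∧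
    ∀ q ∈ ps, q ∣ a → q ≠ a → a / q ∈ nsA a ps r := by
  induction ps with
  | nil => exact fun r => ⟨fun _ h => h, by simp⟩
  | cons e t ih =>
    intro r
    have : nsA a (e :: t) r = (IF (e ∣' a ∧' ¬' (e =' a)) THEN
      (IF memN (a / e) r THEN nsA a t r ELSE nsA a t (a / e :: r)) ELSE nsA a t r : List ℕ) := rfl
    rw [this, ite_e]
    have h := ins_mem (r := r) (e := a / e) fun r => (ih r).1
    split_ifs with h1
    all_goals rw [and_t, not_t, dv_t, eq_t] at h1
    · refine ⟨h.1, fun q hq h2 h3 => ?_⟩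
      rcases List.mem_cons.1 hq with rfl | hq
      · exact h.2
      · rw [ite_e]; split_ifs <;> exact (ih _).2 q hq h2 h3
    · refine ⟨(ih r).1, fun q hq h2 h3 => ?_⟩
      rcases List.mem_cons.1 hq with rfl | hq
      · exact absurd ⟨h2, h3⟩ h1
      · exact (ih _).2 q hq h2 h3

theorem nsB_spec (a : ℕ) (l : List ℕ) : ∀ r, (∀ b ∈ r, b ∈ nsB a l r) ∧
    ∀ q ∈ l, a * q ∈ nsB a l r := by
  induction l with
  | nil => exact fun r => ⟨fun _ h => h, by simp⟩
  | cons e t ih =>
    intro r
    have : nsB a (e :: t) r =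
      (IF memN (a * e) r THEN nsB a t r ELSE nsB a t (a * e :: r) : List ℕ) := rfl
    rw [this]
    have h := ins_mem (r := r) (e := a * e) fun r => (ih r).1
    refine ⟨h.1, fun q hq => ?_⟩
    rcases List.mem_cons.1 hq with rfl | hq
    · exact h.2
    · rw [ite_e]; split_ifs <;> exact (ih _).2 q hq

theorem nsC_spec (ps : List ℕ) (pre : PL) : ∀ r, (∀ b ∈ r, b ∈ nsC ps pre r) ∧
    ∀ a ∈ pre.toM, ∀ q ∈ ps, q ∣ a.1 → q ≠ a.1 → a.1 / q ∈ nsC ps pre r := by
  induction pre with
  | nil => exact fun r => ⟨fun _ h => h, by simp⟩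
  | cons x y t ih =>
    intro r
    have : nsC ps (.cons x y t) r = nsC ps t (nsA x ps r) := rfl
    rw [this]
    refine ⟨fun b hb => (ih _).1 b ((nsA_spec _ _ _).1 b hb), fun a ha q hq h1 h2 => ?_⟩
    rcases Multiset.mem_cons.1 ha with rfl | ha
    · exact (ih _).1 _ ((nsA_spec _ _ _).2 q hq h1 h2)
    · exact (ih _).2 a ha q hq h1 h2

theorem nsD_spec (nd l : List ℕ) : ∀ r, (∀ b ∈ r, b ∈ nsD nd l r) ∧
    ∀ a ∈ l, ∀ q ∈ nd, a * q ∈ nsD nd l r := by
  induction l with
  | nil => exact fun r => ⟨fun _ h => h, by simp⟩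
  | cons x t ih =>
    intro r
    have : nsD nd (x :: t) r = nsD nd t (nsB x nd r) := rfl
    rw [this]
    refine ⟨fun b hb => (ih _).1 b ((nsB_spec _ _ _).1 b hb), fun a ha q hq => ?_⟩
    rcases List.mem_cons.1 ha with rfl | ha
    · exact (ih _).1 _ ((nsB_spec _ _ _).2 q hq)
    · exact (ih _).2 a ha q hq

theorem sumI_e (g : ℕ) (l : PL) :
    sumI g l = ((l.toM.filter fun a => a.1 = 2).map fun a => g / a.2).sum := by
  induction l with
  | nil => rfl
  | cons a b t ih =>
    have : sumI g (.cons a b t) = (IF a =' 2 THEN g / b + sumI g t ELSE sumI g t : ℕ) := rfl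
    rw [this, ih, toM_cons, Multiset.filter_cons]
    simp only [ite_e, eq_t]
    split_ifs <;> simp

end Cfsg.Agent.ClsN
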