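import Mathlib
import Cfsg.Agent.ClsN.Spec

/-!
The numerical shadow of the class structure of a simple group, and soundness of one insertion step
of the search.
-/

set_option autoImplicit false

namespace Cfsg.Agent.ClsN

open Multiset

def ord (a b : ℕ × ℕ) : Prop := a.2 < b.2 ∨ (a.2 = b.2 ∧ b.1 ≤ a.1)

/-- number of classes of elements of order `p` -/
def cn (p : ℕ) (M : Multiset (ℕ × ℕ)) : ℕ := (M.map Prod.fst).count p

def cA (n : ℕ) (M : Multiset (ℕ × ℕ)) : ℕ := M.countP fun a => a.1 = n ∧ a.2 % 4 = 2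

def sI (g : ℕ) (M : Multiset (ℕ × ℕ)) : ℕ := ((M.filter fun a => a.1 = 2).map fun a => g / a.2).sum

/-- `M` is the multiset of pairs (order, centralizer order) of the non-identity classes -/
structure Ax (k g : ℕ) (M : Multiset (ℕ × ℕ)) : Prop where
  card : M.card + 1 = k
  sum : 1 + (M.map fun a => g / a.2).sum = g
  bas : ∀ a ∈ M, 1 < a.1 ∧ a.1 ∣ a.2 ∧ a.2 ∣ g ∧ 5 ≤ a.2 ∧ 7 * a.2 ≤ g
  ins : ∀ a ∈ M, ∀ q, q.Prime → q ∣ a.2 → ¬ q ∣ a.1 →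
    ∃ b ∈ M, b.1 = a.1 * q ∧ b.2 ∣ a.2 ∧ ∀ j, q ^ j ∣ a.2 → q ^ j ∣ b.2
  pow : ∀ a ∈ M, ∀ e, 1 < e → e ∣ a.1 → ∃ b ∈ M, b.1 = e ∧ a.2 ∣ b.2
  cen : ∀ p, p.Prime → p ∣ g → ∃ b ∈ M, b.1 = p ∧ ∀ j, p ^ j ∣ g → p ^ j ∣ b.2
  px : ∀ a ∈ M, a.1.Prime → ¬ a.1 * a.1 ∣ a.2 → ¬ a.1 * a.1 ∣ g ∧
    (∀ b ∈ M, a.1 ∣ b.1 → b.2 ∣ a.2) ∧ ∃ e, 2 ≤ e ∧ cn a.1 M * e = a.1 - 1 ∧ cn a.1 M + e ≤ k ∧
      (∃ b ∈ M, b.1 = e) ∧ a.2 * e ∣ g ∧ g / (a.2 * e) % a.1 = 1 ∧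
      (a.2 = a.1 → 2 ∣ e → ∃ b ∈ M, b.1 = 2 ∧ b.2 * b.2 ≤ g)
  rA : ∀ n, Odd n → 1 < n → cA (2 * n) M ≤ cA n M
  rB : ∀ n c, Odd n → 1 < n → (M.countP fun a => (a.1 = n ∧ a.2 % 4 = 2) ∧ a.2 ≤ c) ≤
    M.countP fun a => (a.1 = 2 * n ∧ a.2 % 4 = 2) ∧ a.2 ≤ c
  sec : ∀ a ∈ M, ∀ p j w, p.Prime → a.1 = p ^ j → w ∣ a.2 → ¬ p ∣ w → ∃ S ≤ M,
    (∀ b ∈ S, a.1 ∣ b.1 ∧ b.1 ≠ a.1 ∧ ¬ p ∣ b.1 / a.1 ∧ b.2 ∣ a.2) ∧
      w ∣ 1 + (S.map fun b => a.2 / b.2).sum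
  t1 : sI g M * sI g M ≤ sI g M + (k - 1) * g
  bs : ∀ a ∈ M, a.1 = 2 → ∃ b ∈ M, b.1.Prime ∧ 2 < b.1 ∧ b.1 * (a.2 * a.2) ≤ g * b.2

structure Hyp (C : Cfg) (g : ℕ) (M : Multiset (ℕ × ℕ)) : Prop where
  ax : Ax C.k g M
  k11 : C.k ≤ 11
  G0 : C.G0 ≤ g
  g0 : g ∣ C.g0
  six1 : C.six = 1 → ∃ a ∈ M, a.1 = 6
  six2 : C.six = 2 → ∀ a ∈ M, a.1 ≠ 6
  s66 : C.s66 = true → (6, 6) ∈ M → 2 ≤ cn 2 M
  two : 2 ∣ g
  three : C.three = true → 3 ∣ g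

structure Inv (g : ℕ) (M : Multiset (ℕ × ℕ)) (s : St) (rest : Multiset (ℕ × ℕ)) : Prop where
  hM : s.pre.toM + rest = M
  hord : ∀ a ∈ s.pre.toM, ∀ b ∈ rest, ord a b
  hL : s.L ∣ g
  hcL : ∀ a ∈ s.pre.toM, a.2 ∣ s.L
  hR : s.R * g = s.L * (1 + (rest.map fun a => g / a.2).sum)
  hB : s.B = 0 ∨ g ≤ s.B
  hps : ∀ q, q ∈ s.ps ↔ q.Prime ∧ q ∣ s.L
  hob : ∀ a ∈ s.ob.toM, ∃ b ∈ rest, b.1 = a.1 ∧ a.2 ∣ b.2
  ho2 : ∀ n, Odd n → s.o2.count n + cA n s.pre.toM = cA (2 * n) s.pre.toM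
  ho2' : ∀ n ∈ s.o2, Odd n
  ht2 : s.t2 ≤ cn 2 rest
  hpx : ∀ a ∈ s.px.toM, a ∈ s.pre.toM ∧ a.1.Prime ∧ ¬ a.1 * a.1 ∣ a.2

theorem cn_add (p : ℕ) (A B : Multiset (ℕ × ℕ)) : cn p (A + B) = cn p A + cn p B := by
  simp [cn]

theorem cn_cons (p : ℕ) (a : ℕ × ℕ) (A : Multiset (ℕ × ℕ)) :
    cn p (a ::ₘ A) = cn p A + if p = a.1 then 1 else 0 := by
  simp [cn, count_cons]

theorem cn_eq_zero {p : ℕ} {A : Multiset (ℕ × ℕ)} (h : ∀ a ∈ A, a.1 ≠ p) : cn p A = 0 := by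
  rw [cn, count_eq_zero, mem_map]
  rintro ⟨a, h1, h2⟩
  exact h a h1 h2

theorem cA_add (p : ℕ) (A B : Multiset (ℕ × ℕ)) : cA p (A + B) = cA p A + cA p B := by
  simp [cA]

theorem cA_cons (p : ℕ) (a : ℕ × ℕ) (A : Multiset (ℕ × ℕ)) :
    cA p (a ::ₘ A) = cA p A + if a.1 = p ∧ a.2 % 4 = 2 then 1 else 0 := by
  simp [cA, countP_cons]

theorem cA_le (p : ℕ) (A : Multiset (ℕ × ℕ)) : cA p A ≤ cn p A := by
  induction A using Multiset.induction_on with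
  | empty => exact le_rfl
  | cons a A ih => rw [cA_cons, cn_cons]; split_ifs <;> omega

theorem exists_min {A : Multiset (ℕ × ℕ)} (h : A ≠ 0) : ∃ x ∈ A, ∀ y ∈ A, ord x y := by
  obtain ⟨x, hx, h1⟩ := Finset.exists_min_image A.toFinset
    (fun a => toLex (a.2, OrderDual.toDual a.1)) (toFinset_nonempty.2 h)
  refine ⟨x, mem_toFinset.1 hx, fun y hy => ?_⟩
  have := h1 y (mem_toFinset.2 hy)
  rw [Prod.Lex.toLex_le_toLex] at this
  exact this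

namespace Ax

variable {k g : ℕ} {M : Multiset (ℕ × ℕ)} (h : Ax k g M)
include h

theorem gpos : 0 < g := by have := h.sum; omega

theorem pos {a : ℕ × ℕ} (ha : a ∈ M) : 0 < a.2 := by have := h.bas a ha; omega

theorem same {a b : ℕ × ℕ} (ha : a ∈ M) (hp : a.1.Prime) (h2 : ¬ a.1 * a.1 ∣ a.2) (hb : b ∈ M)
    (e : b.1 = a.1) : b = a := by
  have h3 := h.px a ha hp h2
  have h4 := h.px b hb (e ▸ hp) (fun h5 => h3.1 (e ▸ h5.trans (h.bas b hb).2.2.1))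
  exact Prod.ext e (Nat.dvd_antisymm (h3.2.1 b hb (e ▸ dvd_rfl)) (h4.2.1 a ha (e ▸ dvd_rfl)))

theorem four {a : ℕ × ℕ} (ha : a ∈ M) (h2 : a.1 = 2) : a.2 % 4 ≠ 2 := by
  intro h3
  obtain ⟨-, -, e, h4, h5, -⟩ := h.px a ha (h2 ▸ Nat.prime_two) (by rw [h2]; omega)
  rw [h2] at h5
  have := Nat.eq_one_of_mul_eq_one_left h5
  omega

theorem le_bnd {a : ℕ × ℕ} (ha : a ∈ M) (h2 : a.1 = 2) : g ≤ bnd k a.2 := by
  have h3 : g / a.2 ≤ sI g M :=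
    single_le_sum (fun _ _ => Nat.zero_le _) _ (mem_map_of_mem _ (mem_filter.2 ⟨ha, h2⟩))
  have h4 := h.t1
  obtain ⟨t, ht⟩ := (h.bas a ha).2.2.1
  have h5 := h.pos ha
  have h6 := h.gpos
  change g ≤ (k - 1) * (a.2 * a.2) + a.2
  generalize sI g M = I at h3 h4
  rw [show g / a.2 = t by rw [ht, Nat.mul_div_cancel_left _ h5]] at h3
  generalize k - 1 = r at h4 ⊢
  have h7 : 0 < t := Nat.pos_of_mul_pos_left (ht ▸ h6)
  have h8 : t * t ≤ t + r * g := by nlinarith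
  rw [ht] at h8 ⊢
  have h9 : t ≤ 1 + r * a.2 := by
    refine Nat.le_of_mul_le_mul_left ?_ h7
    nlinarith
  nlinarith

theorem le31 (hk : k ≤ 11) {a : ℕ × ℕ} (ha : a ∈ M) (hp : a.1.Prime) (h2 : ¬ a.1 * a.1 ∣ a.2) :
    a.1 ≤ 31 := by
  obtain ⟨-, -, e, -, h5, h6, -⟩ := h.px a ha hp h2
  generalize cn a.1 M = m at h5 h6
  have : m * e ≤ 30 := by
    have h7 : m ≤ 11 := by omega
    interval_cases m <;> omega
  omega

end Ax

/-- the situation of one step: `(n, c)` is the next class -/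
structure Cx (C : Cfg) (g : ℕ) (M : Multiset (ℕ × ℕ)) (s : St) (n c : ℕ) (r : Multiset (ℕ × ℕ)) :
    Prop where
  H : Hyp C g M
  I : Inv g M s ((n, c) ::ₘ r)
  min : ∀ y ∈ r, ord (n, c) y

namespace Cx

variable {C : Cfg} {g : ℕ} {M : Multiset (ℕ × ℕ)} {s : St} {n c : ℕ} {r : Multiset (ℕ × ℕ)}
  (h : Cx C g M s n c r)
include h

theorem pre_mem {a : ℕ × ℕ} (ha : a ∈ s.pre.toM) : a ∈ M := h.I.hM ▸ mem_add.2 (Or.inl ha)
theorem rest_mem {a : ℕ × ℕ} (ha : a ∈ (n, c) ::ₘ r) : a ∈ M := h.I.hM ▸ mem_add.2 (Or.inr ha)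
theorem mem : (n, c) ∈ M := h.rest_mem (mem_cons_self _ _)
theorem cases {a : ℕ × ℕ} (ha : a ∈ M) : a ∈ s.pre.toM ∨ a ∈ (n, c) ::ₘ r :=
  mem_add.1 (h.I.hM ▸ ha)
theorem bas : 1 < n ∧ n ∣ c ∧ c ∣ g ∧ 5 ≤ c ∧ 7 * c ≤ g := h.H.ax.bas _ h.mem
theorem min' {a : ℕ × ℕ} (ha : a ∈ (n, c) ::ₘ r) : ord (n, c) a := by
  rcases mem_cons.1 ha with rfl | ha
  · exact Or.inr ⟨rfl, le_rfl⟩
  · exact h.min a ha

theorem earlier {a : ℕ × ℕ} (ha : a ∈ M) (h1 : a.2 ≤ c) (h2 : n < a.1) : a ∈ s.pre.toM := by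
  refine (h.cases ha).resolve_right fun h3 => ?_
  rcases h.min' h3 with h4 | h4 <;> simp only at h4 <;> omega

theorem later {y b : ℕ × ℕ} (hy : y ∈ (n, c) ::ₘ r) (hb : b ∈ M) (h1 : y.2 ∣ b.2) (h2 : b.1 < y.1) :
    b ∈ (n, c) ::ₘ r := by
  refine (h.cases hb).resolve_left fun h3 => ?_
  have := Nat.le_of_dvd (h.H.ax.pos hb) h1
  rcases h.I.hord b h3 y hy with h4 | h4 <;> omega

theorem ins {q : ℕ} (hq : q.Prime) (h1 : q ∣ c) (h2 : ¬ q ∣ n) :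
    ∃ b ∈ s.pre.toM, b.1 = n * q ∧ b.2 ∣ c ∧ ∀ j, q ^ j ∣ c → q ^ j ∣ b.2 := by
  obtain ⟨b, hb, h3, h4, h5⟩ := h.H.ax.ins _ h.mem q hq h1 h2
  have := h.bas
  exact ⟨b, h.earlier hb (Nat.le_of_dvd (by omega) h4) (by rw [h3]; nlinarith [hq.one_lt]),
    h3, h4, h5⟩

theorem pow {e : ℕ} (h1 : 1 < e) (h2 : e < n) (h3 : e ∣ n) : ∃ b ∈ r, b.1 = e ∧ c ∣ b.2 := by
  obtain ⟨b, hb, h4, h5⟩ := h.H.ax.pow _ h.mem e h1 h3
  refine ⟨b, (mem_cons.1 (h.later (mem_cons_self _ _) hb h5 (by rw [h4]; exact h2))).resolve_left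
    ?_, h4, h5⟩
  rintro rfl
  exact h2.ne h4.symm

theorem hc_le : hc s.pre ≤ c ∧ ¬ (hc s.pre = c ∧ hn s.pre < n) := by
  have := h.bas
  rcases hd_cases s.pre with h1 | h1
  · omega
  · rcases h.I.hord _ h1 _ (mem_cons_self _ _) with h2 | h2 <;> simp only at h2 <;> omega

theorem r_ins {fc : List ℕ} (hf : IsFc c fc) : ¬ rejIns s.pre n c fc = true := by
  rw [rejIns, anyN_t (fun q => q ∣' n ↛' (LET nq := n *' q IN
    ¬' (ANY a, b OF s.pre ; a =' nq ∧' b ∣' c ∧' pp c q ∣' b)))]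
  rintro ⟨q, h1, h2⟩
  change (q ∣' n ↛' ¬' (ANY a, b OF s.pre ; a =' n *' q ∧' b ∣' c ∧' pp c q ∣' b)) = true at h2
  rw [nand_t, dv_t, not_t, any_t (fun a b => a =' n *' q ∧' b ∣' c ∧' pp c q ∣' b)] at h2
  obtain ⟨b, hb, h3, h4, h5⟩ := h.ins ((hf q).1 h1).1 ((hf q).1 h1).2 h2.1
  refine h2.2 ⟨b, hb, ?_⟩
  rw [and_t, and_t, eq_t, dv_t, dv_t]
  obtain ⟨⟨j, hj⟩, h6⟩ := pp_spec c q
  rw [hj] at h6 ⊢
  exact ⟨h3, h4, h5 j h6⟩

theorem r_px : ¬ rejPx s.px n c = true := by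
  rw [rejPx, any_t (fun a b => a *' a ∣' c ∨' (a ∣' n ∧' ¬' (n =' a ∧' c =' b)))]
  rintro ⟨a, ha, h1⟩
  rw [or_t, and_t, not_t, and_t, dv_t, dv_t, eq_t, eq_t] at h1
  obtain ⟨h2, h3, h4⟩ := h.I.hpx a ha
  have h5 := h.H.ax.px a (h.pre_mem h2) h3 h4
  rcases h1 with h1 | ⟨h1, h6⟩
  · exact h5.1 (h1.trans h.bas.2.2.1)
  · have h7 := Nat.le_of_dvd (h.H.ax.pos (h.pre_mem h2)) (h5.2.1 _ h.mem h1)
    have h8 := Nat.le_of_dvd (by have := h.bas; omega) h1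
    rcases h.I.hord _ h2 _ (mem_cons_self _ _) with h2 | h2 <;> simp only at h2 h7 <;> omega

theorem r_R2 (h1 : c % 4 = 2) (h2 : ¬ 2 ∣ n) : n ∈ s.o2 := by
  by_contra h3
  have h4 : Odd n := Nat.odd_iff.2 (by omega)
  have h5 := h.I.ho2 n h4
  rw [List.count_eq_zero_of_not_mem h3, zero_add] at h5
  have h6 := h.H.ax.rB n c h4 h.bas.1
  have h7 : ∀ m, (s.pre.toM.countP fun a => (a.1 = m ∧ a.2 % 4 = 2) ∧ a.2 ≤ c) = cA m s.pre.toM :=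
    fun m => countP_congr rfl fun a ha => by
      have : a.2 ≤ c := by
        rcases h.I.hord _ ha _ (mem_cons_self _ _) with h2 | h2 <;> simp only at h2 <;> omega
      simp [this]
  have h8 : (((n, c) ::ₘ r).countP fun a => (a.1 = 2 * n ∧ a.2 % 4 = 2) ∧ a.2 ≤ c) = 0 :=
    countP_eq_zero.2 fun a ha h9 => by
      have := h.bas
      rcases h.min' ha with h2 | h2 <;> simp only at h2 <;> omega
  rw [← h.I.hM, countP_add, countP_add, h7, h7, h8, countP_cons_of_pos _ (by simp [h1])] at h6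
  omega

theorem clo (h1 : isClo s.pre s.px n c = true) : ∃ e, 2 ≤ e ∧
    cnt (hn s.px) s.pre * e = hn s.px - 1 ∧ cnt (hn s.px) s.pre + e ≤ C.k ∧ (∃ b ∈ M, b.1 = e) ∧
      0 < cnt (hn s.px) s.pre := by
  rw [isClo, and_t, and_t, and_t, not_t, and_t, eq_t, eq_t, eq_t, eq_t, le_t] at h1
  obtain ⟨h1, h2, h3, h4⟩ := h1
  have h5 : (hn s.px, hc s.px) ∈ s.px.toM := (hd_cases _).resolve_left (by omega)
  obtain ⟨h6, h7, h8⟩ := h.I.hpx _ h5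
  obtain ⟨-, -, e, e1, e2, e3, e4, -⟩ := h.H.ax.px _ (h.pre_mem h6) h7 h8
  have h9 : cn (hn s.px) ((n, c) ::ₘ r) = 0 := cn_eq_zero fun a ha h9 => by
    obtain rfl := h.H.ax.same (h.pre_mem h6) h7 h8 (h.rest_mem ha) h9
    have h10 := h.min' ha
    have h11 := h.I.hord _ h6 _ (mem_cons_self _ _)
    simp only [ord] at h10 h11
    omega
  rw [← h.I.hM, cn_add] at e2 e3
  simp only at e2 e3 h7
  rw [h9, add_zero] at e2 e3
  refine ⟨e, e1, by rw [cnt_e]; exact e2, by rw [cnt_e]; exact e3, e4, ?_⟩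
  rw [cnt_e]
  refine Nat.pos_of_ne_zero fun h10 => ?_
  have h11 := h7.two_le
  rw [cn, h10] at e2
  omega

omit h in
theorem not_badE {k p mm e : ℕ} (h0 : 0 < mm) (h1 : 2 ≤ e) (h2 : mm * e = p - 1) (h3 : mm + e ≤ k) :
    ¬ badE k p mm = true ∧ (p - 1) / mm = e := by
  have h4 : (p - 1) / mm = e := by rw [← h2, Nat.mul_div_cancel_left _ h0]
  refine ⟨?_, h4⟩
  change ¬ (mm ∣' p - 1 →' ((p - 1) / mm <' 2 ∨' k <' mm + (p - 1) / mm)) = true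
  rw [imp_t, dv_t, or_t, lt_t, lt_t, h4]
  intro h5
  have := h5 ⟨e, h2.symm⟩
  omega

theorem obClo_ok : ∀ a ∈ (obClo s n c).toM, ∃ b ∈ (n, c) ::ₘ r, b.1 = a.1 ∧ a.2 ∣ b.2 := by
  intro a ha
  rw [obClo, ite_e] at ha
  split_ifs at ha with h1
  · obtain ⟨e, e1, e2, e3, ⟨b, hb, e4⟩, e5⟩ := h.clo h1
    have e6 : (hn s.px -' 1) /' cnt (hn s.px) s.pre = e := (not_badE e5 e1 e2 e3).2
    rw [e6] at ha
    change a ∈ (IF hasN e s.pre THEN s.ob ELSE dvA e 1 100 2 (.cons e 1 s.ob) : PL).toM at ha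
    rw [ite_e] at ha
    split_ifs at ha with h2
    · exact h.I.hob a ha
    rw [hasN_t] at h2
    have h3 : b ∈ (n, c) ::ₘ r := (h.cases hb).resolve_left fun h3 => h2 ⟨b, h3, e4⟩
    rcases dvA_spec _ _ _ _ _ le_rfl a ha with h4 | ⟨h4, h5, h6, h7⟩
    · rcases mem_cons.1 h4 with rfl | h4
      · exact ⟨b, h3, e4, one_dvd _⟩
      · exact h.I.hob a h4
    · obtain ⟨b', hb', h8, h9⟩ := h.H.ax.pow b hb a.1 h5 (e4 ▸ h7)
      exact ⟨b', h.later h3 hb' h9 (by omega), h8, h4 ▸ one_dvd _⟩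
  · exact h.I.hob a ha

omit h in
theorem L2_eq (L c : ℕ) : L * (c / Nat.gcd L c) = Nat.lcm L c := by
  rw [Nat.lcm, Nat.mul_div_assoc _ (Nat.gcd_dvd_right _ _)]

theorem L2_dvd : Nat.lcm s.L c ∣ g := Nat.lcm_dvd h.I.hL h.bas.2.2.1

theorem obNew_ok {fc : List ℕ} (hf : IsFc c fc) (u : ℕ) :
    ∀ a ∈ (obNew s n c u (Nat.lcm s.L c) fc).toM, ∃ b ∈ r, b.1 = a.1 ∧ a.2 ∣ b.2 := by
  intro a ha
  rcases cenO_spec _ _ _ _ _ _ a ha with h1 | ⟨h1, h2, h3, h4⟩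
  · rcases dvA_spec _ _ _ _ _ le_rfl a h1 with h1 | ⟨h1, h2, h3, h4⟩
    · rcases fltO_spec _ _ _ _ a h1 with h1 | ⟨h1, h2⟩
      · simp at h1
      · obtain ⟨b, hb, h3, h4⟩ := h.obClo_ok a h1
        refine ⟨b, (mem_cons.1 hb).resolve_left ?_, h3, h4⟩
        rintro rfl
        exact h2 ⟨h3.symm, h4⟩
    · rw [h1]; exact h.pow h2 h3 h4
  · obtain ⟨h5, h6⟩ := (hf _).1 h1
    obtain ⟨b, hb, h7, h8⟩ := h.H.ax.cen a.1 h5 (h6.trans h.bas.2.2.1)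
    obtain ⟨⟨j, hj⟩, h9⟩ := pp_spec (Nat.lcm s.L c) a.1
    have h10 : a.2 ∣ b.2 := by
      rw [h3, hj]
      exact h8 j (hj ▸ h9.trans h.L2_dvd)
    rcases h.cases hb with h11 | h11
    · exact absurd (h10.trans (h.I.hcL b h11)) h4
    · refine ⟨b, (mem_cons.1 h11).resolve_left ?_, h7, h10⟩
      rintro rfl
      exact h2 h7.symm

omit h in
theorem isPx_t {fc : List ℕ} (hf : IsFc c fc) (h1 : isPx n c fc = true) :
    n.Prime ∧ ¬ n * n ∣ c := by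
  rw [isPx, nand_t, dv_t, memN_t] at h1
  exact ⟨((hf n).1 h1.2).1, h1.1⟩

theorem r_new {fc : List ℕ} (hf : IsFc c fc) : ¬ rejNew s.pre n c (Nat.lcm s.L c) fc = true := by
  rw [rejNew, and_t, or_t, or_t, or_t, any_t (fun a b => n ∣' a ∧' ¬' (b ∣' c)), lt_t, lt_t, dv_t]
  rintro ⟨h1, h2⟩
  obtain ⟨h3, h4⟩ := isPx_t hf h1
  have h5 := h.H.ax.le31 h.H.k11 h.mem h3 h4
  obtain ⟨h6, h7, e, e1, e2, -⟩ := h.H.ax.px _ h.mem h3 h4
  rcases h2 with h2 | h2 | h2 | ⟨a, ha, h2⟩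
  · exact absurd h5 (not_le.2 h2)
  · exact h6 (h2.trans h.L2_dvd)
  · rw [← h.I.hM, cn_add, cn_cons] at e2
    rw [cnt_e] at h2
    change n - 1 < 2 * (cn n s.pre.toM + 1) at h2
    simp only [if_true] at e2
    nlinarith [Nat.zero_le (cn n r * e)]
  · rw [and_t, not_t, dv_t, dv_t] at h2
    exact h2.2 (h7 a (h.pre_mem ha) h2.1)

theorem r_sec {fc : List ℕ} (hf : IsFc c fc) : ¬ rejSec s.pre n c fc = true := by
  rw [rejSec, anyN_t (fun p => p ∣' n ∧' pp n p =' n ∧' (LET w := c /' pp c p IN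
    1 <' w ∧' (p ∣' w ↛' ¬' (subs w (secL s.pre n c p) 1))))]
  rintro ⟨p, h1, h2⟩
  change (p ∣' n ∧' pp n p =' n ∧' (1 <' c / pp c p ∧' (p ∣' c / pp c p ↛'
    ¬' (subs (c / pp c p) (secL s.pre n c p) 1)))) = true at h2
  rw [and_t, and_t, and_t, nand_t, not_t, dv_t, eq_t, dv_t] at h2
  obtain ⟨-, h2, -, h3, h4⟩ := h2
  obtain ⟨j, hj⟩ := (pp_spec n p).1
  obtain ⟨S, hS, h5, h6⟩ := h.H.ax.sec _ h.mem p j _ ((hf p).1 h1).1 (h2.symm.trans hj)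
    (Nat.div_dvd_of_dvd (pp_spec c p).2) h3
  refine h4 (subs_spec _ _ _ ?_ h6)
  rw [secL_e]
  refine map_le_map ?_
  have h7 := le_filter.2 ⟨hS, h5⟩
  rwa [← h.I.hM, filter_add, (filter_eq_nil (s := (n, c) ::ₘ r)).2 (fun a ha h8 => ?_),
    add_zero] at h7
  have h9 := h.bas
  have h10 := Nat.le_of_dvd (by omega) h8.2.2.2
  have h11 := Nat.le_of_dvd (by have := h.H.ax.bas a (h.rest_mem ha); omega) h8.1
  have h12 := h8.2.1
  rcases h.min' ha with h2 | h2 <;> simp only at h2 h10 h11 h12 <;> omega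

theorem o2_ok : (∀ m, Odd m → (o2New s.o2 n c).count m + cA m ((n, c) ::ₘ s.pre.toM) =
    cA (2 * m) ((n, c) ::ₘ s.pre.toM)) ∧ ∀ m ∈ o2New s.o2 n c, Odd m := by
  rw [o2New, ite_e, ite_e]
  simp only [cA_cons]
  split_ifs with h1 h2
  all_goals rw [eq_t, e_mod] at h1
  · rw [dv_t] at h2
    change (∀ m, Odd m → List.count m (n / 2 :: s.o2) + _ = _) ∧ ∀ m ∈ n / 2 :: s.o2, _
    have h3 : Odd (n / 2) := by
      obtain ⟨t, ht⟩ := h.bas.2.1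
      obtain ⟨v, rfl⟩ := h2
      rw [Nat.mul_div_cancel_left _ two_pos]
      by_contra h4
      obtain ⟨w, rfl⟩ := Nat.not_odd_iff_even.1 h4
      have : c = 4 * (w * t) := by rw [ht]; ring
      omega
    refine ⟨fun m hm => ?_, fun m hm => ?_⟩
    · have := h.I.ho2 m hm
      obtain ⟨w, hw⟩ := hm
      rw [List.count_cons]
      simp only [beq_iff_eq]
      split_ifs <;> omega
    · rcases List.mem_cons.1 hm with rfl | hm
      · exact h3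
      · exact h.I.ho2' m hm
  · rw [dv_t] at h2
    rw [eraseN_e]
    refine ⟨fun m hm => ?_, fun m hm => h.I.ho2' m (List.mem_of_mem_erase hm)⟩
    have h3 := h.I.ho2 m hm
    have h4 := List.count_pos_iff.2 (h.r_R2 h1 h2)
    by_cases h5 : n = m
    · subst h5
      rw [List.count_erase_self]
      split_ifs <;> omega
    · rw [List.count_erase_of_ne (Ne.symm h5)]
      split_ifs <;> omega
  · refine ⟨fun m hm => ?_, h.I.ho2'⟩
    have h3 := h.I.ho2 m hm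
    split_ifs <;> omega

theorem t2_ok : t2New C.s66 s n c ≤ cn 2 r := by
  have h0 := h.I.ht2
  rw [cn_cons] at h0
  rw [t2New, ite_e (α := ℕ), ite_e (α := ℕ)]
  split_ifs with h1 h2
  · change s.t2 - 1 ≤ _
    split_ifs at h0 <;> omega
  · rw [and_t, and_t, and_t, eq_t, eq_t, not_t, hasN_t] at h2
    obtain ⟨rfl, rfl, h3, h4⟩ := h2
    have h5 := h.H.s66 h3 h.mem
    rw [← h.I.hM, cn_add, cn_cons, cn_eq_zero fun a ha h6 => h4 ⟨a, ha, h6⟩] at h5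
    simpa using h5
  · rw [eq_t] at h1
    split_ifs at h0 with h3
    · exact absurd h3.symm h1
    · exact h0

/-- the new state -/
noncomputable def _root_.Cfsg.Agent.ClsN.nxt (C : Cfg) (s : St) (n c : ℕ) (fc : List ℕ) : St :=
  ⟨.cons n c s.pre, Nat.lcm s.L c, s.R * (c / Nat.gcd s.L c) - s.L / Nat.gcd s.L c,
    IF (n =' 2 ∧' s.B =' 0) THEN bnd C.k c ELSE s.B, psNew s.L fc s.ps,
    obNew s n c (c / Nat.gcd s.L c) (Nat.lcm s.L c) fc, o2New s.o2 n c, t2New C.s66 s n c,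
    pxNew s.px n c fc⟩

theorem inv_nxt {fc : List ℕ} (hf : IsFc c fc) : Inv g M (nxt C s n c fc) r where
  hM := by rw [← h.I.hM]; simp [nxt]
  hord := fun a ha b hb => by
    rcases mem_cons.1 ha with rfl | ha
    · exact h.min b hb
    · exact h.I.hord a ha b (mem_cons_of_mem hb)
  hL := h.L2_dvd
  hcL := fun a ha => by
    rcases mem_cons.1 ha with rfl | ha
    · exact Nat.dvd_lcm_right _ _
    · exact (h.I.hcL a ha).trans (Nat.dvd_lcm_left _ _)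
  hR := by
    have h1 := h.I.hR
    rw [map_cons, sum_cons] at h1
    simp only [nxt]
    rw [← L2_eq]
    generalize (r.map fun a => g / a.2).sum = S at h1 ⊢
    have h2 := h.bas
    obtain ⟨a, ha⟩ := h2.2.2.1
    have h3 : 0 < Nat.gcd s.L c := Nat.gcd_pos_of_pos_right _ (by omega)
    obtain ⟨l, hl⟩ := Nat.gcd_dvd_left s.L c
    obtain ⟨u, hu⟩ := Nat.gcd_dvd_right s.L c
    generalize Nat.gcd s.L c = d at h3 hl hu
    have h4 : g / c = a := by rw [ha, Nat.mul_div_cancel_left _ (by omega)]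
    have h5 : c / d = u := by rw [hu, Nat.mul_div_cancel_left _ h3]
    have h6 : s.L / d = l := by rw [hl, Nat.mul_div_cancel_left _ h3]
    simp only at h1
    rw [h4] at h1
    rw [h5, h6, Nat.sub_mul]
    apply Nat.sub_eq_of_eq_add
    have h7 : l * g = s.L * u * a := by rw [ha, hu, hl]; ring
    rw [h7, mul_right_comm, h1]; ring
  hB := by
    simp only [nxt]
    rw [ite_e]
    split_ifs with h1
    · rw [and_t, eq_t] at h1
      exact Or.inr (h.H.ax.le_bnd h.mem h1.1)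
    · exact h.I.hB
  hps := fun q => by
    simp only [nxt]
    rw [psNew_spec, h.I.hps, hf]
    constructor
    · rintro (h1 | h1)
      · exact ⟨h1.1, h1.2.trans (Nat.dvd_lcm_left _ _)⟩
      · exact ⟨h1.1.1, h1.1.2.trans (Nat.dvd_lcm_right _ _)⟩
    · rintro ⟨h1, h2⟩
      by_cases h3 : q ∣ s.L
      · exact Or.inl ⟨h1, h3⟩
      · exact Or.inr ⟨⟨h1, (h1.dvd_mul.1 (h2.trans (Nat.lcm_dvd_mul _ _))).resolve_left h3⟩, h3⟩
  hob := h.obNew_ok hf _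
  ho2 := h.o2_ok.1
  ho2' := h.o2_ok.2
  ht2 := h.t2_ok
  hpx := fun a ha => by
    simp only [nxt] at ha ⊢
    rw [pxNew, ite_e] at ha
    split_ifs at ha with h1
    · rcases mem_cons.1 ha with rfl | ha
      · exact ⟨mem_cons_self _ _, isPx_t hf ((nand_t _ _).1 h1).2⟩
      · exact ⟨mem_cons_of_mem (h.I.hpx a ha).1, (h.I.hpx a ha).2⟩
    · exact ⟨mem_cons_of_mem (h.I.hpx a ha).1, (h.I.hpx a ha).2⟩

end Cx

theorem Inv.need_le {C : Cfg} {g : ℕ} {M r : Multiset (ℕ × ℕ)} {s : St} (H : Hyp C g M)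
    (h : Inv g M s r) : (need s.ob (rep2 s.t2 s.o2) : Multiset ℕ) ≤ r.map Prod.fst := by
  refine ClsN.need_le _ _ (fun a ha => ?_) (le_iff_count.2 fun e => ?_)
  · obtain ⟨b, hb, h1, -⟩ := h.hob a ha
    exact mem_map.2 ⟨b, hb, h1⟩
  · rw [coe_count, rep2_e, List.count_append, List.count_replicate]
    change _ ≤ cn e r
    by_cases he : Odd e
    · have h1 := h.ho2 e he
      have h2 : cA (2 * e) M ≤ cA e M := by
        by_cases h3 : 1 < e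
        · exact H.ax.rA e he h3
        · obtain rfl : e = 1 := by obtain ⟨w, hw⟩ := he; omega
          rw [show cA (2 * 1) M = 0 from countP_eq_zero.2 fun a ha h4 => H.ax.four ha h4.1 h4.2]
          exact Nat.zero_le _
      rw [← h.hM, cA_add, cA_add] at h2
      have h3 := cA_le e r
      obtain ⟨w, hw⟩ := he
      simp only [beq_iff_eq]
      split_ifs <;> omega
    · rw [List.count_eq_zero_of_not_mem fun h1 => he (h.ho2' e h1)]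
      have := h.ht2
      simp only [beq_iff_eq]
      split_ifs with h1
      · subst h1; omega
      · omega

theorem Cx.step_sound {C : Cfg} {g : ℕ} {M : Multiset (ℕ × ℕ)} {s : St} {n c : ℕ}
    {r : Multiset (ℕ × ℕ)} (h : Cx C g M s n c r) {fc : List ℕ} (hf : IsFc c fc)
    (K : St → List ℕ → Bool) (hK : step C r.card s K n c fc = true) :
    K (nxt C s n c fc) (need (nxt C s n c fc).ob
      (rep2 (nxt C s n c fc).t2 (nxt C s n c fc).o2)) = true := by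
  rw [step, or_t, or_t, and_t, eq_t, lt_t, step1, or_t, or_t, or_t, or_t, or_t] at hK
  rcases hK with h1 | h1 | h1 | h1 | h1 | h1 | h1 | h1
  · exact absurd h1 h.hc_le.2
  · exact absurd h1 (h.r_ins hf)
  · rw [and_t, eq_t, eq_t] at h1
    exact absurd h1.1 (h.H.six2 h1.2 _ h.mem)
  · rw [and_t, eq_t, lt_t] at h1
    exact absurd ((h.H.ax.le_bnd h.mem h1.1).trans_lt h1.2) (not_lt.2 h.H.G0)
  · exact absurd h1 h.r_px
  · rw [and_t, nand_t, not_t, eq_t, dv_t, memN_t] at h1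
    exact absurd (h.r_R2 h1.1 h1.2.1) h1.2.2
  · rw [and_t] at h1
    obtain ⟨e, e1, e2, e3, -, e5⟩ := h.clo h1.1
    exact absurd h1.2 (Cx.not_badE e5 e1 e2 e3).1
  have h2 : (rejNew s.pre n c (s.L * (c / Nat.gcd s.L c)) fc ∨' rejSec s.pre n c fc ∨'
    step3 C r.card s K n c fc (Nat.gcd s.L c) (c / Nat.gcd s.L c) (s.L * (c / Nat.gcd s.L c))
      (obNew s n c (c / Nat.gcd s.L c) (s.L * (c / Nat.gcd s.L c)) fc) (o2New s.o2 n c)) = true := h1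
  rw [Cx.L2_eq, or_t, or_t] at h2
  rcases h2 with h2 | h2 | h2
  · exact absurd h2 (h.r_new hf)
  · exact absurd h2 (h.r_sec hf)
  have h3 : (r.card <' lenN (need (nxt C s n c fc).ob
      (rep2 (nxt C s n c fc).t2 (nxt C s n c fc).o2)) ∨'
      K (nxt C s n c fc) (need (nxt C s n c fc).ob
      (rep2 (nxt C s n c fc).t2 (nxt C s n c fc).o2))) = true := h2
  rw [or_t, lt_t, lenN_e] at h3
  refine h3.resolve_left (not_lt.2 ?_)
  have := card_le_card ((h.inv_nxt hf).need_le h.H)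
  rwa [coe_card, card_map] at this

end Cfsg.Agent.ClsN
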