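import Mathlib
import Cfsg.Agent.ClsN.Cnt
import Cfsg.Agent.ClsN.Step
import Cfsg.Agent.S4198
import Cfsg.Agent.S4441
import Cfsg.Agent.S0133
import Cfsg.Agent.Block.ModExists

/-!
The class structure of a finite simple group satisfies the numerical conditions of the search.
-/

set_option autoImplicit false

namespace Cfsg.Agent.ClsN

open Subgroup Finset Cfsg.Agent.Small Cfsg.Agent.Inv

variable {G : Type*} [Group G] [Finite G]

noncomputable def oc (x : G) : ℕ × ℕ := (orderOf x, cz x)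

noncomputable def ocK : ConjClasses G → ℕ × ℕ :=
  Quotient.lift oc fun _ _ h => Prod.ext (orderOf_eq_of_isConj h) (cz_conj h)

@[simp] theorem ocK_mk (x : G) : ocK (ConjClasses.mk x) = (orderOf x, cz x) := rfl

variable (G) in
noncomputable def ntc : Finset (ConjClasses G) :=
  (Set.toFinite {K : ConjClasses G | K ≠ ConjClasses.mk 1}).toFinset

variable (G) in
/-- orders and centralizer orders of the non-identity classes -/
noncomputable def cm : Multiset (ℕ × ℕ) := (ntc G).val.map ocK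

theorem mk_mem_ntc {x : G} : ConjClasses.mk x ∈ ntc G ↔ x ≠ 1 := by
  rw [ntc, Set.Finite.mem_toFinset, Set.mem_ofPred_eq, Ne, ConjClasses.mk_eq_mk_iff_isConj,
    isConj_one_left]

theorem mem_cm {a : ℕ × ℕ} : a ∈ cm G ↔ ∃ x : G, x ≠ 1 ∧ (orderOf x, cz x) = a := by
  rw [cm, Multiset.mem_map]
  constructor
  · rintro ⟨K, h, rfl⟩
    obtain ⟨x, rfl⟩ := K.mk_surjective
    exact ⟨x, mk_mem_ntc.1 h, rfl⟩
  · rintro ⟨x, h, rfl⟩
    exact ⟨_, mk_mem_ntc.2 h, rfl⟩

theorem oc_mem {x : G} (h : 1 < orderOf x) : (orderOf x, cz x) ∈ cm G :=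
  mem_cm.2 ⟨x, by rintro rfl; simp at h, rfl⟩

theorem card_cm : (cm G).card + 1 = Nat.card (ConjClasses G) := by
  rw [cm, Multiset.card_map, ← card_def, ntc, ← Set.ncard_eq_toFinset_card,
    ← Set.ncard_add_ncard_compl {ConjClasses.mk (1 : G)}, Set.ncard_singleton, add_comm]
  rfl

theorem countP_cm (p : ℕ × ℕ → Prop) [DecidablePred p] :
    (cm G).countP p = ((ntc G).filter fun K => p (ocK K)).card := by
  rw [cm, Multiset.countP_map]; rfl

theorem card_eq_sum (p : ℕ × ℕ → Prop) [DecidablePred p] :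
    Nat.card {x : G // x ≠ 1 ∧ p (orderOf x, cz x)} =
      (((cm G).filter p).map fun a => Nat.card G / a.2).sum := by
  classical
  have := Fintype.ofFinite G
  rw [cm, Multiset.filter_map, Multiset.map_map, Nat.card_eq_fintype_card, Fintype.card_subtype,
    card_eq_sum_card_fiberwise (f := ConjClasses.mk) (t := (ntc G).filter (p ∘ ocK))
      fun x hx => by simpa [mk_mem_ntc] using hx]
  refine sum_congr rfl fun K hK => ?_
  obtain ⟨y, rfl⟩ := K.mk_surjective
  rw [Function.comp, ocK_mk, ← card_cl, Nat.card_eq_fintype_card, Fintype.card_subtype]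
  congr 1
  ext z
  simp only [mem_filter, mem_univ, true_and, ConjClasses.mk_eq_mk_iff_isConj]
  refine ⟨fun h => h.2.symm, fun h => ⟨?_, h.symm⟩⟩
  rw [← ConjClasses.mk_eq_mk_iff_isConj] at h
  rw [h, mem_filter, mk_mem_ntc] at hK
  exact hK

theorem sum_cm : 1 + ((cm G).map fun a => Nat.card G / a.2).sum = Nat.card G := by
  classical
  have h := card_eq_sum (G := G) fun _ => True
  rw [Multiset.filter_true] at h
  rw [← h]
  have := Fintype.ofFinite G
  have h1 : 0 < Fintype.card G := Fintype.card_pos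
  simp only [and_true, Nat.card_eq_fintype_card, Fintype.card_subtype_compl, Fintype.card_unique]
  omega

theorem card_order {n : ℕ} (hn : 1 < n) : Nat.card {x : G // orderOf x = n} =
    (((cm G).filter fun a => a.1 = n).map fun a => Nat.card G / a.2).sum := by
  rw [← card_eq_sum]
  refine Nat.card_congr (Equiv.subtypeEquivRight fun x => ⟨fun h => ⟨?_, h⟩, fun h => h.2⟩)
  rintro rfl
  rw [orderOf_one] at h
  omega

theorem t1_cm : sI (Nat.card G) (cm G) * sI (Nat.card G) (cm G) ≤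
    sI (Nat.card G) (cm G) + (Nat.card (ConjClasses G) - 1) * Nat.card G := by
  classical
  have := Fintype.ofFinite G
  rw [sI, ← card_order one_lt_two, Nat.card_eq_fintype_card, Fintype.card_subtype]
  set I := univ.filter fun x : G => orderOf x = 2
  have h1 := S4198.sum_cent (G := G) fun K => K ≠ ConjClasses.mk 1
  have h2 : Nat.card {K : ConjClasses G // K ≠ ConjClasses.mk 1} = Nat.card (ConjClasses G) - 1 := by
    have := Fintype.ofFinite (ConjClasses G)
    simp only [Nat.card_eq_fintype_card, Fintype.card_subtype_compl, Fintype.card_unique]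
  rw [h2] at h1
  rw [← h1, ← card_product, card_eq_sum_card_fiberwise (f := fun a : G × G => a.1 * a.2)
    (t := univ) fun _ _ => mem_univ _, ← add_sum_erase _ _ (mem_univ 1)]
  refine Nat.add_le_add (card_le_card_of_injOn Prod.fst (fun a ha => ?_) fun a ha b hb h => ?_) ?_
  · exact (mem_product.1 (mem_filter.1 ha).1).1
  · exact Prod.ext h (mul_left_cancel (((mem_filter.1 ha).2.trans (mem_filter.1 hb).2.symm).trans
      (by rw [h])))
  · rw [show univ.filter (fun x : G => ConjClasses.mk x ≠ ConjClasses.mk 1) = univ.erase 1 by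
      ext x; simp [ConjClasses.mk_eq_mk_iff_isConj]]
    refine sum_le_sum fun x _ => ?_
    have h3 : ∀ a ∈ (I ×ˢ I).filter fun a => a.1 * a.2 = x, a.1 * x * a.1⁻¹ = x⁻¹ := fun a ha => by
      obtain ⟨h3, rfl⟩ := mem_filter.1 ha
      obtain ⟨h4, h5⟩ := mem_product.1 h3
      exact conj_mul_eq_inv_left (mul_self_of_orderOf_two (mem_filter.1 h4).2)
        (mul_self_of_orderOf_two (mem_filter.1 h5).2)
    rcases ((I ×ˢ I).filter fun a => a.1 * a.2 = x).eq_empty_or_nonempty with h4 | ⟨a, ha⟩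
    · rw [h4]; exact Nat.zero_le _
    rw [← Count.card_conj_eq (isConj_iff.2 ⟨_, h3 a ha⟩), Nat.card_eq_fintype_card,
      Fintype.card_subtype]
    refine card_le_card_of_injOn Prod.fst (fun a ha => ?_) fun a ha b hb h => ?_
    · exact mem_filter.2 ⟨mem_univ _, h3 a ha⟩
    · exact Prod.ext h (mul_left_cancel (((mem_filter.1 ha).2.trans (mem_filter.1 hb).2.symm).trans
        (by rw [h])))

theorem sec_cm {x : G} (hx : x ≠ 1) {p j w : ℕ} (hp : p.Prime) (ho : orderOf x = p ^ j)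
    (hw : w ∣ cz x) (hpw : ¬ p ∣ w) : ∃ S ≤ cm G,
    (∀ b ∈ S, orderOf x ∣ b.1 ∧ b.1 ≠ orderOf x ∧ ¬ p ∣ b.1 / orderOf x ∧ b.2 ∣ cz x) ∧
      w ∣ 1 + (S.map fun b => cz x / b.2).sum := by
  classical
  have := Fintype.ofFinite G
  have h0 := FGS.FrobCount.dvd_card_pow_eq_one hw
  set Y := univ.filter fun y : G => Commute y x ∧ y ^ w = 1 with hY
  have h1 : Nat.card {y : centralizer ({x} : Set G) // y ^ w = 1} = Y.card := by
    rw [← Fintype.card_subtype, ← Nat.card_eq_fintype_card]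
    exact Nat.card_congr ((Equiv.subtypeEquivRight fun y => Subtype.ext_iff).trans
      ((Equiv.subtypeSubtypeEquivSubtypeInter _ fun y : G => y ^ w = 1).trans
        (Equiv.subtypeEquivRight fun y => by rw [mem_c])))
  have hc : ∀ y ∈ Y, (orderOf x).Coprime (orderOf y) := fun y hy => by
    rw [ho]
    exact (((Nat.Prime.coprime_iff_not_dvd hp).2 hpw).coprime_dvd_right
      (orderOf_dvd_of_pow_eq_one (mem_filter.1 hy).2.2)).pow_left _
  have hx1 : (orderOf x).Coprime w := ho ▸ ((Nat.Prime.coprime_iff_not_dvd hp).2 hpw).pow_left _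
  have h2 : ∀ y ∈ Y, (Y.filter fun z => ConjClasses.mk (x * z) = ConjClasses.mk (x * y)).card =
      cz x / cz (x * y) := fun y hy => by
    obtain ⟨y1, y2⟩ := (mem_filter.1 hy).2
    rw [cz, cz, c_mul y1.symm (hc y hy), ← card_conj_mul_card_inf_centralizer _ y,
      Nat.mul_div_cancel _ Nat.card_pos, Nat.card_eq_fintype_card, Fintype.card_subtype]
    congr 1
    ext z
    simp only [hY, mem_filter, mem_univ, true_and, ConjClasses.mk_eq_mk_iff_isConj, mem_c]
    constructor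
    · rintro ⟨⟨z1, z2⟩, h3⟩
      obtain ⟨g, hg⟩ := isConj_iff.1 h3.symm
      have h4 : g * x * g⁻¹ = x := by
        obtain ⟨m, hm⟩ := exists_pow_eq_self_of_coprime (x := x) hx1.symm
        have h5 := congrArg (fun u => (u ^ w) ^ m) hg
        simp only [conj_pow] at h5
        rwa [y1.symm.mul_pow, z1.symm.mul_pow, y2, z2, mul_one, hm] at h5
      refine ⟨g, mul_inv_eq_iff_eq_mul.1 h4, mul_left_cancel (a := x) ?_⟩
      rw [← hg]
      conv_lhs => rw [← h4]
      group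
    · rintro ⟨g, h3, rfl⟩
      refine ⟨⟨(h3.mul_left y1).mul_left h3.inv_left, by rw [conj_pow, y2]; simp⟩,
        (isConj_iff.2 ⟨g, ?_⟩).symm⟩
      rw [← mul_assoc, h3.eq]
      group
  have h3 : ConjClasses.mk (x * 1) ∈ Y.image fun z => ConjClasses.mk (x * z) :=
    mem_image_of_mem _ (by simp [hY])
  refine ⟨((Y.image fun z => ConjClasses.mk (x * z)).erase (ConjClasses.mk (x * 1))).val.map ocK,
    Multiset.map_le_map (val_le_iff.2 fun K hK => ?_), fun b hb => ?_, ?_⟩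
  · obtain ⟨y, hy, rfl⟩ := mem_image.1 (mem_of_mem_erase hK)
    rw [mk_mem_ntc]
    intro h4
    have h5 := hc y hy
    rw [eq_inv_of_mul_eq_one_right h4, orderOf_inv, Nat.coprime_self, orderOf_eq_one_iff] at h5
    exact hx h5
  · obtain ⟨K, hK, rfl⟩ := Multiset.mem_map.1 hb
    obtain ⟨h4, h5⟩ := mem_erase.1 hK
    obtain ⟨y, hy, rfl⟩ := mem_image.1 h5
    obtain ⟨y1, y2⟩ := (mem_filter.1 hy).2
    rw [ocK_mk, y1.symm.orderOf_mul_eq_mul_orderOf_of_coprime (hc y hy)]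
    refine ⟨dvd_mul_right _ _, fun h6 => h4 ?_, ?_, ?_⟩
    · rw [orderOf_eq_one_iff.1 (Nat.eq_of_mul_eq_mul_left (orderOf_pos x) (h6.trans (mul_one _).symm))]
    · simp only
      rw [Nat.mul_div_cancel_left _ (orderOf_pos x)]
      exact fun h6 => hpw (h6.trans (orderOf_dvd_of_pow_eq_one y2))
    · simp only
      rw [cz, c_mul y1.symm (hc y hy)]
      exact card_dvd_of_le inf_le_left
  · rw [h1, card_eq_sum_card_image (fun z => ConjClasses.mk (x * z)),
      sum_congr rfl (g := fun K => cz x / (ocK K).2) fun K hK => by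
        obtain ⟨y, hy, rfl⟩ := mem_image.1 hK
        exact h2 y hy, ← add_sum_erase _ _ h3, ocK_mk, mul_one, Nat.div_self (cz_pos x)] at h0
    rw [Multiset.map_map, mul_one]
    exact h0

theorem rA_cm {n : ℕ} (hn : Odd n) (h1 : 1 < n) : cA (2 * n) (cm G) ≤ cA n (cm G) := by
  rw [cA, cA, countP_cm, countP_cm]
  refine card_le_card_of_forall_subsingleton
    (fun K L => ∃ y : G, ConjClasses.mk y = K ∧ ConjClasses.mk (y ^ 2) = L) (fun K hK => ?_)
    fun L _ K hK K' hK' => ?_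
  · obtain ⟨y, rfl⟩ := K.mk_surjective
    obtain ⟨-, h2, h3⟩ := mem_filter.1 hK
    have h4 := sq_order (y := y) h2
    refine ⟨_, mem_filter.2 ⟨mk_mem_ntc.2 fun h5 => ?_, h4, cz_sq hn h2 h3⟩, y, rfl, rfl⟩
    rw [h5, orderOf_one] at h4
    omega
  · obtain ⟨h2, y, rfl, h3⟩ := hK
    obtain ⟨h4, z, rfl, h5⟩ := hK'
    obtain ⟨-, h6, -⟩ := mem_filter.1 h2
    obtain ⟨-, h7, h8⟩ := mem_filter.1 h4
    exact ConjClasses.mk_eq_mk_iff_isConj.2 (isConj_of_sq hn h7 h6 h8
      (ConjClasses.mk_eq_mk_iff_isConj.1 (h3.trans h5.symm)))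

theorem rB_cm {n : ℕ} (c : ℕ) (hn : Odd n) :
    ((cm G).countP fun a => (a.1 = n ∧ a.2 % 4 = 2) ∧ a.2 ≤ c) ≤
      (cm G).countP fun a => (a.1 = 2 * n ∧ a.2 % 4 = 2) ∧ a.2 ≤ c := by
  rw [countP_cm, countP_cm]
  refine card_le_card_of_forall_subsingleton'
    (fun K L => ∃ y : G, ConjClasses.mk y = K ∧ ConjClasses.mk (y ^ 2) = L) (fun L hL => ?_)
    fun K _ L hL L' hL' => ?_
  · obtain ⟨x, rfl⟩ := L.mk_surjective
    obtain ⟨-, ⟨h2, h3⟩, h4⟩ := mem_filter.1 hL
    obtain ⟨y, h5, rfl, h6, h7⟩ := exists_sqrt hn h2 h3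
    refine ⟨_, mem_filter.2 ⟨mk_mem_ntc.2 fun h8 => ?_, ⟨h5, h6⟩, h7.trans h4⟩, y, rfl, rfl⟩
    rw [h8, orderOf_one] at h5
    omega
  · obtain ⟨-, y, rfl, rfl⟩ := hL
    obtain ⟨-, z, h2, rfl⟩ := hL'
    exact ConjClasses.mk_eq_mk_iff_isConj.2 ((ConjClasses.mk_eq_mk_iff_isConj.1 h2).symm.pow 2)

theorem add_le_card {p : ℕ} [Fact p.Prime] (h2 : p ≠ 2) (P : Sylow p G) (hP : Nat.card P = p) {e : ℕ}
    (he : (centralizer ((P : Subgroup G) : Set G)).relIndex (normalizer ((P : Subgroup G) : Set G)) = e) :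
    (p - 1) / e + e ≤ Nat.card (ConjClasses G) := by
  have := Fintype.ofFinite G
  obtain ⟨M, hM⟩ := Block.exists_isPModular (p := p) Fact.out
  obtain ⟨X, Y, -, h3, h4, h5, -⟩ := S4441.result p M hM h2 P hP e he
  have h6 := S0133.result (G := G)
  have : Finite (IrrCharacter G) := Nat.finite_of_card_ne_zero (by
    rw [h6]; exact Nat.card_pos.ne')
  rw [← h6, ← h5, ← h4, Nat.card_coe_set_eq, Nat.card_coe_set_eq, add_comm,
    ← Set.ncard_union_eq h3]
  exact Set.ncard_le_card _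

variable [IsSimpleGroup G] (hG : ¬ IsMulCommutative G)
include hG

theorem px_cm {x : G} {p : ℕ} (hp : p.Prime) (hx : orderOf x = p) (h : ¬ p * p ∣ cz x) :
    ¬ p * p ∣ Nat.card G ∧ (∀ b ∈ cm G, p ∣ b.1 → b.2 ∣ cz x) ∧ ∃ e, 2 ≤ e ∧
      cn p (cm G) * e = p - 1 ∧ cn p (cm G) + e ≤ Nat.card (ConjClasses G) ∧
      (∃ b ∈ cm G, b.1 = e) ∧ cz x * e ∣ Nat.card G ∧ Nat.card G / (cz x * e) % p = 1 ∧
      (cz x = p → 2 ∣ e → ∃ b ∈ cm G, b.1 = 2 ∧ b.2 * b.2 ≤ Nat.card G) := by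
  have := Fact.mk hp
  have h1 : ¬ p * p ∣ Nat.card G := fun h1 => h (sq_dvd_cz hp hx h1)
  refine ⟨h1, fun b hb h2 => ?_, ?_⟩
  · obtain ⟨y, -, rfl⟩ := mem_cm.1 hb
    obtain ⟨n, hn⟩ := exists_pow_order y h2
    rw [← cz_eq_of_prime hp h1 hx hn]
    exact card_dvd_of_le (c_le_pow y n)
  obtain ⟨m, hm⟩ := hx ▸ orderOf_dvd_natCard x
  have h2 : ¬ p ∣ m := fun h2 => h1 (hm ▸ Nat.mul_dvd_mul_left _ h2)
  obtain ⟨P, hP⟩ := exists_sylow_eq_zpowers hm h2 hx
  obtain ⟨n, e, c, e1, e2, e3, e4, e5, e6, e7, e8, e9, -, e10⟩ := prime_sylow_data hG hm h2 P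
  have h3 : cz x = p * c := by rw [← e9, hP, centralizer_zpowers]; rfl
  have h4 : Nat.card G = cz x * e * n := by rw [hm, h3, ← e1]; ring
  have h5 : cn p (cm G) * e = p - 1 := by
    have h5 := card_orderOf_eq_prime P e7
    rw [card_order hp.one_lt, e6, Multiset.map_congr rfl (g := fun _ => e * n) fun a ha => by
      obtain ⟨h6, h7⟩ := Multiset.mem_filter.1 ha
      obtain ⟨y, -, rfl⟩ := mem_cm.1 h6
      simp only
      rw [cz_eq_of_prime hp h1 hx h7, h4, mul_assoc, Nat.mul_div_cancel_left _ (cz_pos x)],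
      Multiset.map_const', Multiset.sum_replicate, smul_eq_mul] at h5
    rw [cn, Multiset.count_map]
    simp only [eq_comm (a := p)]
    exact Nat.eq_of_mul_eq_mul_right (by omega : 0 < n) (by rw [mul_assoc, h5, mul_comm])
  have h6 : p ≠ 2 := by
    rintro rfl
    have := Nat.le_of_dvd one_pos e5
    omega
  refine ⟨e, e4, h5, ?_, ?_, ⟨n, h4⟩, ?_, fun h7 h8 => ?_⟩
  · have h7 := add_le_card h6 P e7 e10
    rwa [← h5, Nat.mul_div_cancel _ (by omega)] at h7
  · obtain ⟨y, hy⟩ := exists_order_relIndex hp _ e7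
    rw [e10] at hy
    exact ⟨_, oc_mem (by omega), hy⟩
  · rw [h4, Nat.mul_div_cancel_left _ (Nat.mul_pos (cz_pos x) (by omega)), e2]
  · have h9 := hp.odd_of_ne_two h6
    obtain ⟨t, h10, h11⟩ := exists_inverting hp hx (h7 ▸ h9) (by
      rw [← hP, e8]
      exact even_iff_two_dvd.2 ((h8.mul_left _).mul_right _))
    have h12 := inv_count h10 (hx ▸ h9) h11
    rw [hx, h7, mul_comm] at h12
    exact ⟨_, oc_mem (by omega), h10, Nat.le_of_mul_le_mul_right h12 hp.pos⟩

theorem bs_cm {t : G} (ht : orderOf t = 2) :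
    ∃ b ∈ cm G, b.1.Prime ∧ 2 < b.1 ∧ b.1 * (cz t * cz t) ≤ Nat.card G * b.2 := by
  have : ∃ x : G, Odd (orderOf x) ∧ t * x * t⁻¹ = x⁻¹ ∧ x ≠ 1 := by
    by_contra h
    push Not at h
    obtain ⟨N, h1, h2, h3⟩ := exists_normal_of_not_inverts ht h
    rcases h1.eq_bot_or_eq_top with rfl | rfl
    · exact ne_one_of_orderOf_two ht h3
    · exact not_isPGroup hG 2 (h2.of_equiv topEquiv)
  obtain ⟨x, h1, h2, h3⟩ := this
  have h4 := Nat.minFac_prime (mt orderOf_eq_one_iff.1 h3)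
  obtain ⟨n, hn⟩ := exists_pow_order x (Nat.minFac_dvd _)
  have h5 : Odd (orderOf (x ^ n)) := h1.of_dvd_nat (orderOf_pow_dvd n)
  rw [← hn] at h4
  refine ⟨_, oc_mem h4.one_lt, h4, ?_, inv_count ht h5 (conj_pow_eq_inv h2 n)⟩
  have := h4.two_le
  obtain ⟨k, hk⟩ := h5
  simp only
  omega

theorem ax_cm (h5 : ∀ x : G, x ≠ 1 → 5 ≤ cz x) (hg : 360 < Nat.card G) :
    Ax (Nat.card (ConjClasses G)) (Nat.card G) (cm G) where
  card := card_cm
  sum := sum_cm
  bas := fun a ha => by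
    obtain ⟨x, hx, rfl⟩ := mem_cm.1 ha
    refine ⟨by have := orderOf_pos x; have := mt orderOf_eq_one_iff.1 hx; simp only; omega,
      orderOf_dvd_natCard _ (mem_c.2 (Commute.refl x)), cz_dvd x, h5 x hx, ?_⟩
    have h1 := two_mul_card_dvd_factorial hG (centralizer ({x} : Set G)) fun h => hx (by
      have : x ∈ center G := mem_center_iff.2 fun y => mem_c.1 (h ▸ mem_top y)
      rwa [center_eq_bot hG] at this)
    have h2 := Nat.le_of_dvd (Nat.factorial_pos _) h1
    rw [← (centralizer ({x} : Set G)).index_mul_card]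
    refine Nat.mul_le_mul_right _ (not_lt.1 fun h3 => ?_)
    have h4 : _ ≤ Nat.factorial 6 := Nat.factorial_le (Nat.lt_succ_iff.1 h3)
    norm_num [Nat.factorial] at h4
    omega
  ins := fun a ha q hq h1 h2 => by
    obtain ⟨x, hx, rfl⟩ := mem_cm.1 ha
    obtain ⟨y, h3, h4⟩ := exists_central hq h1
    rw [← orderOf_coe] at h3
    have h6 : (orderOf x).Coprime (orderOf (y : G)) := h3 ▸ ((hq.coprime_iff_not_dvd).2 h2).symm
    have h7 := (mem_c.1 y.2).symm
    have h8 := h7.orderOf_mul_eq_mul_orderOf_of_coprime h6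
    refine ⟨_, oc_mem (x := x * y) ?_, h3 ▸ h8, ?_, fun j hj => ?_⟩
    · rw [h8, h3]
      nlinarith [orderOf_pos x, hq.one_lt]
    · simp only [cz]
      rw [c_mul h7 h6]
      exact card_dvd_of_le inf_le_left
    · have h9 := h4 j hj
      rw [cz_sub, ← c_mul h7 h6] at h9
      exact h9
  pow := fun a ha e h1 h2 => by
    obtain ⟨x, -, rfl⟩ := mem_cm.1 ha
    obtain ⟨n, hn⟩ := exists_pow_order x h2
    exact ⟨_, oc_mem (by omega), hn, card_dvd_of_le (c_le_pow x n)⟩
  cen := fun p hp h => by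
    obtain ⟨y, h1, h2⟩ := exists_central hp h
    exact ⟨_, oc_mem (h1 ▸ hp.one_lt), h1, h2⟩
  px := fun a ha h1 h2 => by
    obtain ⟨x, -, rfl⟩ := mem_cm.1 ha
    exact px_cm hG h1 rfl h2
  rA := fun n h1 h2 => rA_cm h1 h2
  rB := fun n c h1 _ => rB_cm c h1
  sec := fun a ha p j w h1 h2 h3 h4 => by
    obtain ⟨x, hx, rfl⟩ := mem_cm.1 ha
    exact sec_cm hx h1 h2 h3 h4
  t1 := t1_cm
  bs := fun a ha h => by
    obtain ⟨x, -, rfl⟩ := mem_cm.1 ha
    exact bs_cm hG h

end Cfsg.Agent.ClsN
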