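import Mathlib
import Cfsg.Agent.ClsN.Step

/-!
Soundness of the class structure search: bounds and completeness of the candidate generation.
-/

set_option autoImplicit false

namespace Cfsg.Agent.ClsN

open Multiset Cfsg.Agent.Comp

theorem facK_spec' {x : ℕ} (hx : 0 < x) {k : List ℕ → Bool} (h : facK x k = true) :
    ∃ fc, IsFc x fc ∧ k fc = true := by
  obtain ⟨fc, h1, h2⟩ := facK_spec hx
  exact ⟨fc, h1 (h2 k h).1, (h2 k h).2⟩

theorem split_part (n x : ℕ) (hx : 0 < x) :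
    ∃ y z, x = y * z ∧ (∀ q, q.Prime → q ∣ y → ¬ q ∣ n) ∧ ∀ q, q.Prime → q ∣ z → q ∣ n := by
  induction x using induction_on_primes with
  | zero => omega
  | one => exact ⟨1, 1, rfl, fun q h h' => absurd (Nat.dvd_one.1 h') h.ne_one,
      fun q h h' => absurd (Nat.dvd_one.1 h') h.ne_one⟩
  | prime_mul p a hp ih =>
    obtain ⟨y, z, rfl, h1, h2⟩ := ih (Nat.pos_of_mul_pos_left hx)
    by_cases h : p ∣ n
    · refine ⟨y, p * z, by ring, h1, fun q hq h3 => ?_⟩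
      rcases hq.dvd_mul.1 h3 with h3 | h3
      · rwa [(Nat.prime_dvd_prime_iff_eq hq hp).1 h3]
      · exact h2 q hq h3
    · refine ⟨p * y, z, by ring, fun q hq h3 => ?_, h2⟩
      rcases hq.dvd_mul.1 h3 with h3 | h3
      · rwa [(Nat.prime_dvd_prime_iff_eq hq hp).1 h3]
      · exact h1 q hq h3

theorem prime_pow_of {p x : ℕ} (hx : 1 < x) (h : ∀ q, q.Prime → q ∣ x → q = p) :
    ∃ j, x = p * p ^ j := by
  have h1 := Nat.eq_prime_pow_of_unique_prime_dvd (n := x) (p := p) (by omega) (h _)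
  generalize x.primeFactorsList.length = j at h1
  cases j with
  | zero => rw [pow_zero] at h1; omega
  | succ j => exact ⟨j, by rw [h1, pow_succ']⟩

namespace Cx

variable {C : Cfg} {g : ℕ} {M : Multiset (ℕ × ℕ)} {s : St} {n c : ℕ} {r : Multiset (ℕ × ℕ)}
  (h : Cx C g M s n c r)
include h

theorem cpos : 0 < c := by have := h.bas; omega
theorem Lpos : 0 < s.L := Nat.pos_of_dvd_of_pos h.I.hL h.H.ax.gpos

theorem key : ∃ a S, g = c * a ∧ 7 ≤ a ∧ S ≤ r.card * a ∧ s.R * c * a = s.L * (1 + a + S) := by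
  obtain ⟨a, ha⟩ := h.bas.2.2.1
  have h1 := h.I.hR
  have h2 := h.cpos
  have h3 : g / c = a := by rw [ha, Nat.mul_div_cancel_left _ h2]
  rw [map_cons, sum_cons] at h1
  simp only at h1
  refine ⟨a, (r.map fun a => g / a.2).sum, ha, ?_, ?_, ?_⟩
  · have := h.bas.2.2.2.2
    rw [ha, mul_comm 7] at this
    exact Nat.le_of_mul_le_mul_left this h2
  · have := sum_le_card_nsmul (r.map fun a => g / a.2) a fun x hx => by
      obtain ⟨b, hb, rfl⟩ := mem_map.1 hx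
      rw [← h3]
      refine Nat.div_le_div_left ?_ h2
      rcases h.min b hb with h4 | h4 <;> simp only at h4 <;> omega
    rwa [card_map, smul_eq_mul] at this
  · rw [mul_assoc, ← ha, h1, h3, add_assoc]

theorem r_B : ¬ (s.B =' 0 ↛' (s.B <' s.L ∨' s.R *' s.B ≤' s.L)) = true := by
  rw [nand_t, or_t, eq_t, lt_t, le_t]
  rintro ⟨h1, h2⟩
  have h3 := h.I.hB.resolve_left h1
  have h4 := Nat.le_of_dvd h.H.ax.gpos h.I.hL
  obtain ⟨a, S, e1, e2, e3, e4⟩ := h.key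
  have h5 := h.Lpos
  rcases h2 with h2 | h2
  · omega
  · change s.R * s.B ≤ s.L at h2
    have h6 : s.R * g ≤ s.R * s.B := Nat.mul_le_mul_left _ h3
    rw [mul_assoc, ← e1] at e4
    nlinarith

theorem lo_le : loB s ≤ c := by
  obtain ⟨a, S, e1, e2, e3, e4⟩ := h.key
  have h5 := h.Lpos
  have h6 : s.L < s.R * c := by
    refine Nat.lt_of_mul_lt_mul_right (a := a) ?_
    nlinarith
  have h1 : mx (mx (Nat.succ (s.L /' s.R)) 5) (hc s.pre) ≤ c := by
    rw [mx_e, mx_e]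
    have h2 : s.L / s.R < c := Nat.div_lt_of_lt_mul h6
    have h3 := h.hc_le.1
    have h4 := h.bas
    exact max_le (max_le h2 h4.2.2.2.1) h3
  change (IF s.B =' 0 THEN mx (mx (Nat.succ (s.L /' s.R)) 5) (hc s.pre) ELSE
    mx (mx (mx (Nat.succ (s.L /' s.R)) 5) (hc s.pre)) (s.L * s.B / (s.R * s.B - s.L)) : ℕ) ≤ c
  rw [ite_e]
  split_ifs with h2
  · exact h1
  rw [eq_t] at h2
  have h3 := h.I.hB.resolve_left h2
  rw [mx_e]
  refine max_le h1 (Nat.div_le_of_le_mul ?_)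
  obtain ⟨t, ht⟩ := Nat.exists_eq_add_of_le h6.le
  have h7 : s.L * c ≤ g * t := by
    have : s.R * c * a * c = s.L * (1 + a + S) * c := by rw [e4]
    rw [ht] at this
    rw [e1]
    nlinarith [Nat.zero_le (s.L * S * c)]
  have h8 : g * t ≤ s.B * t := Nat.mul_le_mul_right _ h3
  rw [Nat.sub_mul]
  apply Nat.le_sub_of_add_le
  have h9 : s.R * s.B * c = s.B * (s.L + t) := by rw [← ht]; ring
  rw [h9]
  nlinarith

theorem le_hi : c ≤ hiB C.G0 (Nat.succ r.card) s := by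
  obtain ⟨a, S, e1, e2, e3, e4⟩ := h.key
  have h5 := h.Lpos
  have h6 : 0 < s.R := Nat.pos_of_ne_zero fun h6 => by
    rw [h6] at e4
    simp only [zero_mul] at e4
    exact absurd e4.symm (Nat.mul_ne_zero (by omega) (by omega))
  generalize r.card = m at e3 ⊢
  have h7 : s.R * c * a ≤ s.L * (1 + (m + 1) * a) := by
    rw [e4]; exact Nat.mul_le_mul_left _ (by nlinarith)
  have h1 : c ≤ (7 * (m + 1) + 1) * s.L / (7 * s.R) := by
    rw [Nat.le_div_iff_mul_le (by omega)]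
    refine Nat.le_of_mul_le_mul_right ?_ (by omega : 0 < a)
    nlinarith [Nat.mul_le_mul_left s.L e2]
  have h2 : c ≤ (IF s.L <' s.R * C.G0 THEN mn ((7 * (m + 1) + 1) * s.L / (7 * s.R))
      ((m + 1) * s.L * C.G0 / (s.R * C.G0 - s.L)) ELSE (7 * (m + 1) + 1) * s.L / (7 * s.R) : ℕ) := by
    rw [ite_e]
    split_ifs with h2
    · rw [lt_t] at h2
      rw [mn_e]
      refine le_min h1 ?_
      rw [Nat.le_div_iff_mul_le (by omega), Nat.mul_sub]
      apply Nat.sub_le_of_le_add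
      have h8 : s.R * c * g ≤ s.L * c + s.L * (m + 1) * g := by
        have := Nat.mul_le_mul_right c h7
        rw [e1]
        nlinarith
      have h9 := h.H.G0
      rcases le_total (s.R * c) (s.L * (m + 1)) with h10 | h10
      · nlinarith [Nat.mul_le_mul_right C.G0 h10]
      · obtain ⟨t, ht⟩ := Nat.exists_eq_add_of_le h10
        rw [ht] at h8
        have h11 : t * C.G0 ≤ t * g := Nat.mul_le_mul_left _ h9
        have h12 : c * (s.R * C.G0) = (s.L * (m + 1) + t) * C.G0 := by rw [← ht]; ring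
        rw [h12]
        nlinarith
    · exact h1
  change c ≤ (IF s.B =' 0 THEN _ ELSE mn _ (s.B / 7) : ℕ)
  rw [ite_e]
  split_ifs with h3
  · exact h2
  rw [eq_t] at h3
  rw [mn_e]
  refine le_min h2 ?_
  have := h.I.hB.resolve_left h3
  have := h.bas
  omega

theorem dvd_g0 : c ∣ C.g0 := h.bas.2.2.1.trans h.H.g0

theorem scanx_sound {f : ℕ} {ns : List ℕ} {S : ℕ → ℕ → List ℕ → Bool} (h0 : f = 0 → n ∈ ns)
    (h1 : scanx C.g0 f ns S c = true) : ∃ fc, IsFc c fc ∧ S n c fc = true := by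
  rw [scanx, imp_t, dv_t, ite_e (α := Bool)] at h1
  have h2 := h1 h.dvd_g0
  have h3 := h.bas
  split_ifs at h2 with h4
  · rw [eq_t] at h4
    rw [imp_t, anyN_t (fun N => N ∣' c)] at h2
    obtain ⟨fc, h5, h6⟩ := facK_spec' h.cpos (h2 ⟨n, h0 h4, (dv_t _ _).2 h3.2.1⟩)
    rw [allN_t (fun N => N ∣' c →' S N c fc)] at h6
    exact ⟨fc, h5, (imp_t _ _).1 (h6 n (h0 h4)) ((dv_t _ _).2 h3.2.1)⟩
  · obtain ⟨fc, h5, h6⟩ := facK_spec' h.cpos h2
    have h7 := gen_spec fc 1 n h6 (by omega) (fun q hq h7 => (h5 q).2 ⟨hq, h7.trans h3.2.1⟩)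
      fun z hz => (dv_t _ _).2 (by rw [one_mul]; exact hz.trans h3.2.1)
    rw [one_mul, or_t, eq_t] at h7
    exact ⟨fc, h5, h7.resolve_left (by omega)⟩

theorem ins' {q : ℕ} (hq : q.Prime) (h1 : q ∣ c) (h2 : ¬ q ∣ n) :
    ∃ b ∈ s.pre.toM, b.1 = n * q ∧ q ∈ s.ps ∧ n ∣ s.L ∧ ∀ j, q ^ j ∣ c → q ^ j ∣ b.2 := by
  obtain ⟨b, hb, h3, -, h5⟩ := h.ins hq h1 h2
  have h6 : n * q ∣ s.L := h3 ▸ (h.H.ax.bas b (h.pre_mem hb)).2.1.trans (h.I.hcL b hb)
  exact ⟨b, hb, h3, (h.I.hps q).2 ⟨hq, (dvd_mul_left _ _).trans h6⟩, (dvd_mul_right _ _).trans h6, h5⟩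

theorem genN_sound {lo hi : ℕ} (hlo : lo ≤ c) (hhi : c ≤ hi) {S : ℕ → ℕ → List ℕ → Bool}
    (h1 : genN C.g0 s lo hi S n = true) : ∃ fc, IsFc c fc ∧ S n c fc = true := by
  have h2 := h.bas
  change facK n (genN' C.g0 lo hi (S n) n (n * wOf s.pre n 1) (qsOf n (wOf s.pre n 1) s.ps)) = true
    at h1
  obtain ⟨pN, h3, h4⟩ := facK_spec' (by omega) h1
  have hW : ∀ q, q.Prime → q ∣ c → ¬ q ∣ n →
      q ∈ s.ps ∧ ∀ j, q ^ j ∣ c → q ^ j ∣ wOf s.pre n 1 := fun q hq h5 h6 => by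
    obtain ⟨b, hb, e1, e2, -, e4⟩ := h.ins' hq h5 h6
    refine ⟨e2, fun j hj => (e4 j hj).trans ((wOf_spec n s.pre 1).2 b hb (e1 ▸ dvd_mul_right _ _) ?_)⟩
    rw [e1]
    nlinarith [hq.one_lt]
  generalize wOf s.pre n 1 = W at h4 hW
  have hq : ∀ q, q.Prime → q ∣ c → ¬ q ∣ n → q ∈ qsOf n W s.ps := fun q hq h5 h6 =>
    (qsOf_spec _ _ _ _).2 ⟨(hW q hq h5 h6).1, by simpa using (hW q hq h5 h6).2 1 (by simpa), h6⟩
  obtain ⟨x, hx⟩ := h2.2.1
  have h5 : 0 < x := Nat.pos_of_mul_pos_left (hx ▸ h.cpos)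
  obtain ⟨y, z, rfl, h6, h7⟩ := split_part n x h5
  have hy : y ∣ c := hx ▸ (dvd_mul_right y z).mul_left n
  have h8 : y ∣ W := (Nat.dvd_iff_prime_pow_dvd_dvd _ _).2 fun q j h8 h9 => by
    cases j with
    | zero => simp
    | succ j =>
      have h10 : q ∣ y := (dvd_pow_self q j.succ_ne_zero).trans h9
      exact (hW q h8 (h10.trans hy) (h6 q h8 h10)).2 _ (h9.trans hy)
  have h9 := gen_spec _ n y h4 (Nat.pos_of_mul_pos_right h5)
    (fun q h9 h10 => hq q h9 (h10.trans hy) (h6 q h9 h10)) fun w hw => by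
      rw [and_t, le_t, dv_t]
      refine ⟨(Nat.le_of_dvd h.cpos ?_).trans hhi, Nat.mul_dvd_mul_left _ (hw.trans h8)⟩
      rw [hx]
      exact Nat.mul_dvd_mul_left _ (hw.mul_right _)
  have h10 := gen_spec _ (n * y) z h9 (Nat.pos_of_mul_pos_left h5)
    (fun q h9 h10 => (h3 q).2 ⟨h9, h7 q h9 h10⟩) fun w hw => by
      rw [le_t]
      refine (Nat.le_of_dvd h.cpos ?_).trans hhi
      rw [hx, mul_assoc]
      exact Nat.mul_dvd_mul_left _ (Nat.mul_dvd_mul_left _ hw)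
  rw [mul_assoc, ← hx, leaf, or_t, imp_t, lt_t, dv_t] at h10
  refine ⟨_, fun q => ?_, h10.resolve_left (by omega) h.dvd_g0⟩
  rw [fcOf_spec, h3]
  constructor
  · rintro (h11 | h11)
    · exact ⟨h11.1, h11.2.trans h2.2.1⟩
    · exact ⟨((h.I.hps q).1 ((qsOf_spec _ _ _ _).1 h11.1).1).1, h11.2⟩
  · rintro ⟨h11, h12⟩
    by_cases h13 : q ∣ n
    · exact Or.inl ⟨h11, h13⟩
    · exact Or.inr ⟨hq q h11 h12 h13, h12⟩

theorem ploop_sound {lo hi f p : ℕ} (hlo : lo ≤ c) (hhi : c ≤ hi) {ns : List ℕ}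
    {S : ℕ → ℕ → List ℕ → Bool} (hp : p.Prime) (hn : n = p ∨ (n = p * p ∧ 2 ≤ f)) (hns : n ∉ ns)
    (hc : ∀ q, q.Prime → q ∣ c → q ∣ n) (h1 : ploop C.g0 lo hi f ns S = true) :
    ∃ fc, IsFc c fc ∧ S n c fc = true := by
  have h2 := h.bas
  have h3 : ∀ q, q.Prime → q ∣ c → q = p := fun q hq h3 => by
    have h4 := hc q hq h3
    refine (Nat.prime_dvd_prime_iff_eq hq hp).1 ?_
    rcases hn with rfl | ⟨rfl, -⟩
    · exact h4
    · exact (hq.dvd_mul.1 h4).elim id id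
  obtain ⟨j, hj⟩ := prime_pow_of (by omega) h3
  have h4 : p ≤ 31 ∨ p * p ∣ c := by
    rcases hn with rfl | ⟨rfl, -⟩
    · by_cases h4 : n * n ∣ c
      · exact Or.inr h4
      · exact Or.inl (h.H.ax.le31 h.H.k11 h.mem hp h4)
    · exact Or.inr h2.2.1
  have h5 : p ≤ 31 ∨ p * p ≤ c := h4.imp_right (Nat.le_of_dvd h.cpos)
  change (hi <' _ * _ ∧' allB (Nat.pow 2 (Nat.succ (Nat.log2 hi /' 2)) + 32)
    fun p => p <' 2 ∨' (31 <' p ∧' hi <' p *' p) ∨'
      genP (fun a => a ≤' hi) p (pleaf C.g0 lo f ns S p) 80 p) = true at h1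
  rw [and_t, lt_t, allB_iff] at h1
  change hi < (Nat.pow 2 (Nat.succ (Nat.log2 hi /' 2)) + 32) *
    (Nat.pow 2 (Nat.succ (Nat.log2 hi /' 2)) + 32) ∧ _ at h1
  generalize Nat.pow 2 (Nat.succ (Nat.log2 hi /' 2)) = Q at h1
  have h6 := h1.2 p (by
    rcases h5 with h5 | h5
    · omega
    · exact Nat.mul_self_lt_mul_self_iff.1 (by omega))
  rw [or_t, or_t, and_t, lt_t, lt_t, lt_t] at h6
  have h7 := hp.two_le
  have h8 := genP_spec 80 p j (h6.resolve_left (by omega) |>.resolve_left (by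
    change ¬ (31 < p ∧ hi < p * p); omega)) fun i hi => by
      rw [le_t]
      refine le_trans ?_ hhi
      rw [hj]
      exact Nat.mul_le_mul_left _ (Nat.pow_le_pow_right hp.pos hi)
  rw [← hj] at h8
  change (c <' lo ∨' (c =' p ∧' 31 <' p) ∨' (c ∣' C.g0 →' isP p →'
    ((memN p ns ∨' S p c [p]) ∧'
      (f <' 2 ∨' c =' p ∨' (memN (p * p) ns ∨' S (p * p) c [p]))))) = true at h8
  rw [or_t, or_t, and_t, imp_t, imp_t, and_t, or_t, or_t, or_t, or_t, lt_t, eq_t, lt_t, dv_t, lt_t,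
    memN_t, memN_t] at h8
  have h9 : p < p * p := by nlinarith
  obtain ⟨h10, h11⟩ := (h8.resolve_left (by omega)).resolve_left (by omega) h.dvd_g0
    (isP_of_prime hp)
  refine ⟨[p], fun q => ?_, ?_⟩
  · rw [List.mem_singleton]
    exact ⟨by rintro rfl; exact ⟨hp, hj ▸ dvd_mul_right _ _⟩, fun h12 => h3 q h12.1 h12.2⟩
  rcases hn with rfl | ⟨rfl, h12⟩
  · exact h10.resolve_left hns
  · have := Nat.le_of_dvd h.cpos h2.2.1
    exact ((h11.resolve_left (by omega)).resolve_left (by omega)).resolve_left hns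

theorem last_sound (hr : r = 0) {lo hi f : ℕ} (hlo : lo ≤ c) (hhi : c ≤ hi) {nd : List ℕ}
    (h0 : f = 0 → n ∈ nd) {X : ℕ → Bool} (h1 : lastA s f nd (lastU s.L s.R lo hi X) = true) :
    X c = true := by
  have hI := h.inv_nxt (fc := c.primeFactorsList) fun q => Nat.mem_primeFactorsList h.cpos.ne'
  have e1 := hI.hR
  have e2 := hI.hL
  rw [hr] at e1
  simp only [nxt, map_zero, sum_zero, add_zero, mul_one] at e1 e2
  have gp := h.H.ax.gpos
  have e3 : Nat.lcm s.L c = g := Nat.dvd_antisymm e2 ⟨_, by rw [← e1, mul_comm]⟩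
  rw [e3] at e1
  have e4 := Nat.eq_of_mul_eq_mul_right gp (e1.trans (one_mul g).symm)
  rw [← L2_eq] at e3
  have h3 : 0 < Nat.gcd s.L c := Nat.gcd_pos_of_pos_right _ h.cpos
  obtain ⟨l, hl⟩ := Nat.gcd_dvd_left s.L c
  obtain ⟨u, hu⟩ := Nat.gcd_dvd_right s.L c
  generalize Nat.gcd s.L c = d at h3 hl hu e3 e4
  have h5 : c / d = u := by rw [hu, Nat.mul_div_cancel_left _ h3]
  have h6 : s.L / d = l := by rw [hl, Nat.mul_div_cancel_left _ h3]
  rw [h5] at e3 e4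
  rw [h6] at e4
  have lp : 0 < l := Nat.pos_of_mul_pos_left (hl ▸ h.Lpos)
  have e5 : s.R * u = l + 1 := by omega
  have hU : lastU s.L s.R lo hi X u = true → X c = true := fun h7 => by
    change (s.R * u - 1 ∣' s.L →' (s.L / (s.R * u - 1) * u <' lo ∨' hi <' s.L / (s.R * u - 1) * u ∨'
      X (s.L / (s.R * u - 1) * u))) = true at h7
    rw [e5, Nat.add_sub_cancel, imp_t, or_t, or_t, dv_t, lt_t, lt_t,
      show s.L / l = d by rw [hl, Nat.mul_div_cancel _ lp], ← hu] at h7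
    exact ((h7 (hl ▸ dvd_mul_left _ _)).resolve_left (by omega)).resolve_left (by omega)
  apply hU
  change (lastU s.L s.R lo hi X 1 ∧' (f =' 0 ∨' lastU s.L s.R lo hi X ((s.L + 1) / s.R)) ∧'
    (ALLN p OF (IF f =' 0 THEN nd ELSE s.ps) ;
      genP (fun u => s.R *' u ≤' Nat.succ s.L) p (lastU s.L s.R lo hi X) 80 p)) = true at h1
  rw [and_t, and_t, or_t, eq_t, allN_t (fun p => genP (fun u => s.R *' u ≤' Nat.succ s.L) p
    (lastU s.L s.R lo hi X) 80 p)] at h1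
  obtain ⟨h7, h8, h9⟩ := h1
  have up : 0 < u := Nat.pos_of_mul_pos_left (hu ▸ h.cpos)
  rcases (show u = 1 ∨ 1 < u by omega) with rfl | h10
  · exact h7
  have h11 : ∀ q, q.Prime → q ∣ u → q = n := fun q hq h11 => by
    obtain ⟨b, hb, h12, h13⟩ := h.H.ax.cen q hq (e3 ▸ h11.mul_left _)
    rcases h.cases hb with h14 | h14
    · exfalso
      have h15 := h13 (s.L.factorization q + 1) (by
        rw [← e3, pow_succ]; exact Nat.mul_dvd_mul (Nat.ordProj_dvd _ _) h11)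
      exact Nat.pow_succ_factorization_not_dvd h.Lpos.ne' hq (h15.trans (h.I.hcL b h14))
    · rw [hr, mem_cons] at h14
      rcases h14 with rfl | h14
      · exact h12.symm
      · simp at h14
  obtain ⟨j, hj⟩ := prime_pow_of h10 h11
  have hn : n.Prime := h11 _ (Nat.minFac_prime h10.ne') (Nat.minFac_dvd u) ▸
    Nat.minFac_prime h10.ne'
  have hg : n ∈ (IF f =' 0 THEN nd ELSE s.ps : List ℕ) → lastU s.L s.R lo hi X u = true :=
    fun h12 => by
      rw [hj]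
      refine genP_spec 80 n j (h9 n h12) fun i hi => ?_
      rw [le_t]
      change s.R * (n * n ^ i) ≤ s.L + 1
      have h13 : n * n ^ i ≤ u := by
        rw [hj]; exact Nat.mul_le_mul_left _ (Nat.pow_le_pow_right hn.pos hi)
      have h14 := Nat.mul_le_mul_left s.R h13
      have h15 : l ≤ s.L := Nat.le_of_dvd h.Lpos (hl ▸ dvd_mul_left _ _)
      omega
  simp only [ite_e (α := List ℕ), eq_t] at hg
  by_cases h12 : f = 0
  · exact hg (by rw [if_pos h12]; exact h0 h12)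
  by_cases h13 : n ∣ s.L
  · exact hg (by rw [if_neg h12]; exact (h.I.hps n).2 ⟨hn, h13⟩)
  have h14 : d = 1 := Nat.eq_one_iff_not_exists_prime_dvd.2 fun q hq h14 => by
    have h15 : q ∣ s.L := hl ▸ h14.mul_right _
    obtain ⟨b, -, -, -, h16, -⟩ := h.ins' hq (hu ▸ h14.mul_right _) fun h16 =>
      h13 ((Nat.prime_dvd_prime_iff_eq hq hn).1 h16 ▸ h15)
    exact h13 h16
  have h15 : (s.L + 1) / s.R = u := by
    rw [hl, h14, one_mul, ← e5, Nat.mul_div_cancel_left _ (Nat.pos_of_mul_pos_right (by omega :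
      0 < s.R * u))]
  rw [h15] at h8
  exact h8.resolve_left h12

theorem node2_sound {lo hi : ℕ} (hlo : lo ≤ c) (hhi : c ≤ hi) {nd : List ℕ}
    (hnd : (nd : Multiset ℕ) ≤ ((n, c) ::ₘ r).map Prod.fst) {S : ℕ → ℕ → List ℕ → Bool}
    (h1 : node2 C.g0 r.card s nd lo hi (r.card + 1 - nd.length) S (dd nd []) = true) :
    ∃ fc, IsFc c fc ∧ S n c fc = true := by
  rw [map_cons] at hnd
  have h2 : r.card + 1 - nd.length = 0 → n ∈ nd := fun h2 => by
    have := eq_of_le_of_card_le hnd (by rw [card_cons, card_map, coe_card]; omega)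
    exact mem_coe.1 (this ▸ mem_cons_self _ _)
  have h3 : r.card + 1 - nd.length = 0 → n ∈ dd nd [] := fun h3 => (dd_spec _ _).2 n (h2 h3)
  have h4 := card_le_card hnd
  rw [card_cons, card_map, coe_card] at h4
  generalize hf : r.card + 1 - nd.length = f at h1 h2 h3
  rw [node2, ite_e (α := Bool)] at h1
  by_cases h5 : (r.card =' 0) = true
  · rw [if_pos h5] at h1
    rw [eq_t, card_eq_zero] at h5
    exact h.scanx_sound h3 (h.last_sound h5 hlo hhi h2 h1)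
  rw [if_neg h5, ite_e (α := Bool)] at h1
  by_cases h6 : (hi <' lo +' 8 ∨' (1 <' f ∧' 1 <' r.card)) = true
  · rw [if_pos h6, allB_iff] at h1
    have h7 : scanx C.g0 f (dd nd []) S (lo + (c - lo)) = true :=
      h1 (c - lo) (by change c - lo < hi + 1 - lo; omega)
    rw [Nat.add_sub_cancel' hlo] at h7
    exact h.scanx_sound h3 h7
  rw [if_neg h6, ite_e (α := Bool)] at h1
  by_cases h7 : (f =' 0) = true
  · rw [if_pos h7, allN_t (fun N => genN C.g0 s lo hi S N)] at h1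
    exact h.genN_sound hlo hhi (h1 n (h3 ((eq_t _ _).1 h7)))
  rw [if_neg h7, node3, and_t, allN_t (fun N => genN C.g0 s lo hi S N)] at h1
  rw [or_t, and_t, lt_t, lt_t, lt_t] at h6
  rw [eq_t] at h5 h7
  by_cases h8 : n ∈ nsD nd nd (nsC s.ps s.pre (dd nd []))
  · exact h.genN_sound hlo hhi (h1.1 n h8)
  have h9 := h.bas
  have h10 : n ∉ nd := fun h10 =>
    h8 ((nsD_spec _ _ _).1 _ ((nsC_spec _ _ _).1 _ ((dd_spec _ _).2 n h10)))
  have h11 : ∀ q, q.Prime → q ∣ c → q ∣ n := fun q hq h11 => by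
    by_contra h12
    obtain ⟨b, hb, e1, e2, -⟩ := h.ins' hq h11 h12
    have := (nsC_spec s.ps s.pre (dd nd [])).2 b hb q e2 (e1 ▸ dvd_mul_left _ _)
      (by rw [e1]; nlinarith [hq.one_lt])
    rw [e1, Nat.mul_div_cancel _ hq.pos] at this
    exact h8 ((nsD_spec _ _ _).1 _ this)
  have hp := Nat.minFac_prime h9.1.ne'
  refine h.ploop_sound hlo hhi hp ?_ h8 h11 h1.2
  obtain ⟨e, he⟩ := Nat.minFac_dvd n
  generalize n.minFac = p at hp he
  rcases (show e = 0 ∨ e = 1 ∨ 1 < e by omega) with rfl | rfl | h12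
  · omega
  · exact Or.inl (by omega)
  have h13 := hp.one_lt
  obtain ⟨a, ha, e1, -⟩ := h.pow h13 (by nlinarith) (he ▸ dvd_mul_right p e)
  obtain ⟨b, hb, e2, -⟩ := h.pow h12 (by nlinarith) (he ▸ dvd_mul_left e p)
  by_cases h14 : f = 1
  · have h15 := eq_of_le_of_card_le ((le_cons_of_notMem (mem_coe.not.2 h10)).1 hnd)
      (by rw [card_map, coe_card]; omega)
    refine absurd ?_ h8
    rw [he]
    exact (nsD_spec _ _ _).2 p (mem_coe.1 (h15 ▸ mem_map.2 ⟨a, ha, e1⟩)) e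
      (mem_coe.1 (h15 ▸ mem_map.2 ⟨b, hb, e2⟩))
  · obtain ⟨x, hx⟩ := card_eq_one.1 (show r.card = 1 by omega)
    rw [hx, mem_singleton] at ha hb
    exact Or.inr ⟨by rw [he, ← e1, ← e2, ha, hb], by omega⟩

theorem node_sound {nd : List ℕ} (hnd : (nd : Multiset ℕ) ≤ ((n, c) ::ₘ r).map Prod.fst)
    {K : St → List ℕ → Bool} (h1 : node C r.card K s nd = true) :
    ∃ (s' : St) (nd' : List ℕ), s'.pre = .cons n c s.pre ∧ Inv g M s' r ∧
      (nd' : Multiset ℕ) ≤ r.map Prod.fst ∧ K s' nd' = true := by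
  rw [node, or_t] at h1
  have h2 : (hiB C.G0 (Nat.succ r.card) s <' loB s ∨' node2 C.g0 r.card s nd (loB s)
      (hiB C.G0 (Nat.succ r.card) s) (r.card + 1 - lenN nd) (step C r.card s K) (dd nd [])) = true :=
    h1.resolve_left h.r_B
  rw [or_t, lt_t, lenN_e] at h2
  obtain ⟨fc, h3, h4⟩ := h.node2_sound h.lo_le h.le_hi hnd
    (h2.resolve_left (not_lt.2 (h.lo_le.trans h.le_hi)))
  exact ⟨_, _, rfl, h.inv_nxt h3, (h.inv_nxt h3).need_le h.H, h.step_sound h3 K h4⟩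

end Cx

theorem top_sound {C : Cfg} {g : ℕ} {M : Multiset (ℕ × ℕ)} (H : Hyp C g M) (m d : ℕ) :
    ∀ (pre : PL) (rest : Multiset (ℕ × ℕ)), rest.card = m + d →
      ∃ (pre' : PL) (rest' : Multiset (ℕ × ℕ)), rest'.card = m ∧
        ∀ (s : St) (nd : List ℕ) (K : St → List ℕ → Bool), s.pre = pre → Inv g M s rest →
          (nd : Multiset ℕ) ≤ rest.map Prod.fst → top C m K d s nd = true →
          ∃ (s' : St) (nd' : List ℕ), s'.pre = pre' ∧ Inv g M s' rest' ∧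
            (nd' : Multiset ℕ) ≤ rest'.map Prod.fst ∧ K s' nd' = true := by
  induction d with
  | zero => exact fun pre rest h => ⟨pre, rest, h, fun s nd K h1 h2 h3 h4 => ⟨s, nd, h1, h2, h3, h4⟩⟩
  | succ d ih =>
    intro pre rest h
    obtain ⟨⟨n, c⟩, hx, h1⟩ := exists_min (A := rest) (by rintro rfl; simp at h)
    obtain ⟨r, rfl⟩ := exists_cons_of_mem hx
    rw [card_cons] at h
    obtain ⟨pre', rest', h2, h3⟩ := ih (.cons n c pre) r (by omega)
    refine ⟨pre', rest', h2, fun s nd K h4 h5 h6 h7 => ?_⟩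
    have h8 : node C (m + d) (top C m K d) s nd = true := h7
    rw [show m + d = r.card by omega] at h8
    obtain ⟨s', nd', e1, e2, e3, e4⟩ := Cx.node_sound
      ⟨H, h5, fun y hy => h1 y (mem_cons_of_mem hy)⟩ h6 h8
    exact h3 s' nd' K (by rw [e1, h4]) e2 e3 e4

theorem final_sound {C : Cfg} {g : ℕ} {M : Multiset (ℕ × ℕ)} (H : Hyp C g M) {s : St}
    (h : Inv g M s 0) {nd : List ℕ} (h1 : final C s nd = true) :
    s.pre.toM = M ∧ C.fin g s.pre = true := by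
  have e0 : s.pre.toM = M := by rw [← h.hM, add_zero]
  refine ⟨e0, ?_⟩
  have e1 := h.hR
  simp only [map_zero, sum_zero, add_zero, mul_one] at e1
  have gp := H.ax.gpos
  have e3 : s.L = g := Nat.dvd_antisymm h.hL ⟨_, by rw [← e1, mul_comm]⟩
  rw [e3] at e1
  have e4 := Nat.eq_of_mul_eq_mul_right gp (e1.trans (one_mul g).symm)
  rw [final, e3] at h1
  change (s.R =' 1 →' g <' C.G0 ∨' (g ∣' C.g0 →'
    (ANY p, c OF s.px ; rejF C.k g s.pre p c) ∨'
    (sumI g s.pre + (C.k - 1) * g <' sumI g s.pre * sumI g s.pre) ∨'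
    (ANY a, b OF s.pre ; a =' 2 ∧' ¬' (ANY a', b' OF s.pre ; 2 <' a' ∧'
      a' *' (b *' b) ≤' g *' b' ∧' isP a')) ∨' C.fin g s.pre)) = true at h1
  rw [imp_t, or_t, imp_t, or_t, or_t, or_t, eq_t, lt_t, dv_t, lt_t,
    any_t (fun p c => rejF C.k g s.pre p c),
    any_t (fun a b => a =' 2 ∧' ¬' (ANY a', b' OF s.pre ; 2 <' a' ∧'
      a' *' (b *' b) ≤' g *' b' ∧' isP a'))] at h1
  rcases (h1 e4).resolve_left (not_lt.2 H.G0) H.g0 with ⟨a, ha, h2⟩ | h2 | ⟨a, ha, h2⟩ | h2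
  · exfalso
    obtain ⟨h3, h4, h5⟩ := h.hpx a ha
    obtain ⟨-, -, e, f1, f2, f3, f4, f5, f6, f7⟩ := H.ax.px a (e0 ▸ h3) h4 h5
    have f8 : cnt a.1 s.pre = cn a.1 M := by rw [cnt_e, e0]; rfl
    have f9 : 0 < cn a.1 M := Nat.pos_of_ne_zero fun f9 => by
      rw [f9] at f2
      have := h4.two_le
      omega
    obtain ⟨f10, f11⟩ := Cx.not_badE f9 f1 f2 f3
    change (badE C.k a.1 (cnt a.1 s.pre) ∨' (hasN ((a.1 - 1) / cnt a.1 s.pre) s.pre →'
      a.2 * ((a.1 - 1) / cnt a.1 s.pre) ∣' g →'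
      Nat.mod (g / (a.2 * ((a.1 - 1) / cnt a.1 s.pre))) a.1 =' 1 →'
      (a.2 =' a.1 ∧' 2 ∣' ((a.1 - 1) / cnt a.1 s.pre) ∧'
        ¬' (ANY a, b OF s.pre ; a =' 2 ∧' b *' b ≤' g)))) = true at h2
    rw [f8, f11, or_t, imp_t, imp_t, imp_t, and_t, and_t, not_t, hasN_t, dv_t, eq_t, eq_t, dv_t,
      any_t (fun a b => a =' 2 ∧' b *' b ≤' g), e0] at h2
    obtain ⟨f12, f13, f14⟩ := h2.resolve_left f10 f4 f5 f6
    obtain ⟨b, hb, f15⟩ := f7 f12 f13
    exact f14 ⟨b, hb, by rw [and_t, eq_t, le_t]; exact f15⟩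
  · rw [sumI_e, e0] at h2
    exact absurd h2 (not_lt.2 H.ax.t1)
  · exfalso
    rw [and_t, not_t, eq_t, any_t (fun a' b' => 2 <' a' ∧'
      a' *' (a.2 *' a.2) ≤' g *' b' ∧' isP a'), e0] at h2
    obtain ⟨b, hb, f1, f2, f3⟩ := H.ax.bs a (e0 ▸ ha) h2.1
    exact h2.2 ⟨b, hb, by rw [and_t, and_t, lt_t, le_t]; exact ⟨f2, f3, isP_of_prime f1⟩⟩
  · exact h2

theorem inv_st0 {C : Cfg} {g : ℕ} {M : Multiset (ℕ × ℕ)} (H : Hyp C g M) :
    Inv g M (st0 C) M where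
  hM := zero_add _
  hord := fun a ha => by simp [st0] at ha
  hL := one_dvd _
  hcL := fun a ha => by simp [st0] at ha
  hR := by simp only [st0, one_mul]; exact H.ax.sum.symm
  hB := Or.inl rfl
  hps := fun q => by
    simp only [st0, List.not_mem_nil, Nat.dvd_one, false_iff, not_and]
    exact fun h => h.ne_one
  hob := fun a ha => by
    have h2 : ∀ p, p.Prime → p ∣ g → ∃ b ∈ M, b.1 = p ∧ p ∣ b.2 := fun p hp h => by
      obtain ⟨b, hb, h1, -⟩ := H.ax.cen p hp h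
      exact ⟨b, hb, h1, h1 ▸ (H.ax.bas b hb).2.1⟩
    simp only [st0] at ha
    rw [ob0, ite_e, ite_e] at ha
    split_ifs at ha with h1 h3
    all_goals simp only [toM_cons, toM_nil, mem_cons, notMem_zero, or_false] at ha
    · obtain ⟨b, hb, h4⟩ := H.six1 ((eq_t _ _).1 h1)
      have h5 : 6 ∣ b.2 := h4 ▸ (H.ax.bas b hb).2.1
      rcases ha with rfl | rfl | rfl
      · exact ⟨b, hb, h4, h5⟩
      · obtain ⟨x, hx, h6, h7⟩ := H.ax.pow b hb 2 (by omega) (by omega)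
        exact ⟨x, hx, h6, h5.trans h7⟩
      · obtain ⟨x, hx, h6, h7⟩ := H.ax.pow b hb 3 (by omega) (by omega)
        exact ⟨x, hx, h6, h5.trans h7⟩
    · rcases ha with rfl | rfl
      · exact h2 2 Nat.prime_two H.two
      · exact h2 3 Nat.prime_three (H.three h3)
    · subst ha
      exact h2 2 Nat.prime_two H.two
  ho2 := fun n _ => rfl
  ho2' := fun n h => by simp [st0] at h
  ht2 := Nat.zero_le _
  hpx := fun a ha => by simp [st0] at ha

theorem part_sound {C : Cfg} {g : ℕ} {M : Multiset (ℕ × ℕ)} (H : Hyp C g M) {d d' N : ℕ}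
    (hd : d + d' + 1 ≤ C.k) (hN : 0 < N)
    (h : ∀ i < N, ∃ N', 0 < N' ∧ ∀ j < N', part C d N i d' N' j = true) :
    ∃ l : PL, l.toM = M ∧ C.fin g l = true := by
  have h0 := H.ax.card
  obtain ⟨pre, rest, h1, h2⟩ := top_sound H (C.k - 1 - d) d .nil M (by omega)
  obtain ⟨pre', rest', h3, h4⟩ := top_sound H (C.k - 1 - d - d') d' pre rest (by omega)
  obtain ⟨pre'', rest'', h5, h6⟩ := top_sound H 0 (C.k - 1 - d - d') pre' rest' (by omega)
  obtain ⟨N', hN', h⟩ := h (hash pre % N) (Nat.mod_lt _ hN)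
  obtain ⟨s, nd, e1, e2, e3, e4⟩ := h2 (st0 C) (need (ob0 C) []) _ rfl (inv_st0 H)
    ((inv_st0 H).need_le H) (h (hash pre' % N') (Nat.mod_lt _ hN'))
  rw [imp_t, eq_t, e1] at e4
  obtain ⟨s', nd', f1, f2, f3, f4⟩ := h4 s nd _ e1 e2 e3 (e4 rfl)
  rw [imp_t, eq_t, f1] at f4
  obtain ⟨s'', nd'', -, g2, -, g4⟩ := h6 s' nd' _ f1 f2 f3 (f4 rfl)
  rw [card_eq_zero.1 h5] at g2
  exact ⟨_, final_sound H g2 g4⟩

end Cfsg.Agent.ClsN
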