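import Cfsg.Agent.ClsN.Run0

/-!
Kernel runs of the class structure search (part 2).
-/

set_option autoImplicit false
set_option maxRecDepth 100000
set_option Elab.async false

namespace Cfsg.Agent.ClsN

theorem run11_0_1 : part (cM 11 l11) 4 96 0 2 5 1 = true := by decide +kernel
theorem run11_3_0 : part (cM 11 l11) 4 96 3 2 1 0 = true := by decide +kernel
theorem run11_11_0 : part (cM 11 l11) 4 96 11 2 1 0 = true := by decide +kernel
theorem run11_16_2 : part (cM 11 l11) 4 96 16 2 3 2 = true := by decide +kernel
theorem run11_31_0 : part (cM 11 l11) 4 96 31 2 1 0 = true := by decide +kernel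
theorem run11_40_0 : part (cM 11 l11) 4 96 40 2 1 0 = true := by decide +kernel
theorem run11_45_0 : part (cM 11 l11) 4 96 45 2 1 0 = true := by decide +kernel
theorem run11_61_0 : part (cM 11 l11) 4 96 61 2 1 0 = true := by decide +kernel
theorem run11_64_0 : part (cM 11 l11) 4 96 64 2 1 0 = true := by decide +kernel
theorem run11_68_0 : part (cM 11 l11) 4 96 68 2 1 0 = true := by decide +kernel
theorem run11_69_0 : part (cM 11 l11) 4 96 69 2 1 0 = true := by decide +kernel
theorem run11_74_0 : part (cM 11 l11) 4 96 74 2 1 0 = true := by decide +kernel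
theorem run11_77_3 : part (cM 11 l11) 4 96 77 2 5 3 = true := by decide +kernel
theorem run11_79_0 : part (cM 11 l11) 4 96 79 2 1 0 = true := by decide +kernel
theorem run11_82_1 : part (cM 11 l11) 4 96 82 2 3 1 = true := by decide +kernel
theorem run11_85_0 : part (cM 11 l11) 4 96 85 2 1 0 = true := by decide +kernel
theorem run11_86_2 : part (cM 11 l11) 4 96 86 2 3 2 = true := by decide +kernel
theorem run11_88_0 : part (cM 11 l11) 4 96 88 2 1 0 = true := by decide +kernel
theorem run11_94_0 : part (cM 11 l11) 4 96 94 2 1 0 = true := by decide +kernel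
theorem run11_95_0 : part (cM 11 l11) 4 96 95 2 1 0 = true := by decide +kernel
theorem run10_4 : part (cM 10 [2520]) 3 5 4 0 1 0 = true := by decide +kernel

end Cfsg.Agent.ClsN
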