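import Cfsg.Agent.ClsN.Run0

/-!
Kernel runs of the class structure search (part 3).
-/

set_option autoImplicit false
set_option maxRecDepth 100000
set_option Elab.async false

namespace Cfsg.Agent.ClsN

theorem run11_0_4 : part (cM 11 l11) 4 96 0 2 5 4 = true := by decide +kernel
theorem run11_2_2 : part (cM 11 l11) 4 96 2 2 3 2 = true := by decide +kernel
theorem run11_4_2 : part (cM 11 l11) 4 96 4 2 3 2 = true := by decide +kernel
theorem run11_9_0 : part (cM 11 l11) 4 96 9 2 1 0 = true := by decide +kernel
theorem run11_10_0 : part (cM 11 l11) 4 96 10 2 1 0 = true := by decide +kernel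
theorem run11_13_0 : part (cM 11 l11) 4 96 13 2 1 0 = true := by decide +kernel
theorem run11_20_0 : part (cM 11 l11) 4 96 20 2 1 0 = true := by decide +kernel
theorem run11_34_0 : part (cM 11 l11) 4 96 34 2 1 0 = true := by decide +kernel
theorem run11_39_0 : part (cM 11 l11) 4 96 39 2 1 0 = true := by decide +kernel
theorem run11_41_0 : part (cM 11 l11) 4 96 41 2 1 0 = true := by decide +kernel
theorem run11_42_0 : part (cM 11 l11) 4 96 42 2 1 0 = true := by decide +kernel
theorem run11_49_0 : part (cM 11 l11) 4 96 49 2 1 0 = true := by decide +kernel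
theorem run11_58_0 : part (cM 11 l11) 4 96 58 2 1 0 = true := by decide +kernel
theorem run11_60_0 : part (cM 11 l11) 4 96 60 2 1 0 = true := by decide +kernel
theorem run11_76_0 : part (cM 11 l11) 4 96 76 2 1 0 = true := by decide +kernel
theorem run11_77_2 : part (cM 11 l11) 4 96 77 2 5 2 = true := by decide +kernel
theorem run11_82_0 : part (cM 11 l11) 4 96 82 2 3 0 = true := by decide +kernel
theorem run11_84_0 : part (cM 11 l11) 4 96 84 2 1 0 = true := by decide +kernel
theorem run11_90_0 : part (cM 11 l11) 4 96 90 2 1 0 = true := by decide +kernel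
theorem run11_91_0 : part (cM 11 l11) 4 96 91 2 1 0 = true := by decide +kernel
theorem run10_3 : part (cM 10 [2520]) 3 5 3 0 1 0 = true := by decide +kernel

end Cfsg.Agent.ClsN
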