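import Cfsg.Agent.ClsN.Run0

/-!
Kernel runs of the class structure search (part 4).
-/

set_option autoImplicit false
set_option maxRecDepth 100000
set_option Elab.async false

namespace Cfsg.Agent.ClsN

theorem run11_1_0 : part (cM 11 l11) 4 96 1 2 1 0 = true := by decide +kernel
theorem run11_12_0 : part (cM 11 l11) 4 96 12 2 1 0 = true := by decide +kernel
theorem run11_14_0 : part (cM 11 l11) 4 96 14 2 1 0 = true := by decide +kernel
theorem run11_16_0 : part (cM 11 l11) 4 96 16 2 3 0 = true := by decide +kernel
theorem run11_26_0 : part (cM 11 l11) 4 96 26 2 1 0 = true := by decide +kernel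
theorem run11_29_0 : part (cM 11 l11) 4 96 29 2 1 0 = true := by decide +kernel
theorem run11_30_0 : part (cM 11 l11) 4 96 30 2 1 0 = true := by decide +kernel
theorem run11_32_0 : part (cM 11 l11) 4 96 32 2 1 0 = true := by decide +kernel
theorem run11_36_0 : part (cM 11 l11) 4 96 36 2 1 0 = true := by decide +kernel
theorem run11_51_0 : part (cM 11 l11) 4 96 51 2 1 0 = true := by decide +kernel
theorem run11_56_0 : part (cM 11 l11) 4 96 56 2 1 0 = true := by decide +kernel
theorem run11_63_0 : part (cM 11 l11) 4 96 63 2 1 0 = true := by decide +kernel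
theorem run11_66_0 : part (cM 11 l11) 4 96 66 2 1 0 = true := by decide +kernel
theorem run11_67_0 : part (cM 11 l11) 4 96 67 2 1 0 = true := by decide +kernel
theorem run11_72_0 : part (cM 11 l11) 4 96 72 2 1 0 = true := by decide +kernel
theorem run11_73_0 : part (cM 11 l11) 4 96 73 2 1 0 = true := by decide +kernel
theorem run11_77_1 : part (cM 11 l11) 4 96 77 2 5 1 = true := by decide +kernel
theorem run11_80_2 : part (cM 11 l11) 4 96 80 2 5 2 = true := by decide +kernel
theorem run11_87_0 : part (cM 11 l11) 4 96 87 2 1 0 = true := by decide +kernel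
theorem run11_89_0 : part (cM 11 l11) 4 96 89 2 1 0 = true := by decide +kernel
theorem run10_1 : part (cM 10 [2520]) 3 5 1 0 1 0 = true := by decide +kernel

end Cfsg.Agent.ClsN
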