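import Cfsg.Agent.ClsN.Run0

/-!
Kernel runs of the class structure search (part 5).
-/

set_option autoImplicit false
set_option maxRecDepth 100000
set_option Elab.async false

namespace Cfsg.Agent.ClsN

theorem run11_0_2 : part (cM 11 l11) 4 96 0 2 5 2 = true := by decide +kernel
theorem run11_2_0 : part (cM 11 l11) 4 96 2 2 3 0 = true := by decide +kernel
theorem run11_4_0 : part (cM 11 l11) 4 96 4 2 3 0 = true := by decide +kernel
theorem run11_5_0 : part (cM 11 l11) 4 96 5 2 1 0 = true := by decide +kernel
theorem run11_17_0 : part (cM 11 l11) 4 96 17 2 1 0 = true := by decide +kernel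
theorem run11_22_0 : part (cM 11 l11) 4 96 22 2 1 0 = true := by decide +kernel
theorem run11_24_0 : part (cM 11 l11) 4 96 24 2 1 0 = true := by decide +kernel
theorem run11_25_0 : part (cM 11 l11) 4 96 25 2 1 0 = true := by decide +kernel
theorem run11_27_0 : part (cM 11 l11) 4 96 27 2 1 0 = true := by decide +kernel
theorem run11_35_0 : part (cM 11 l11) 4 96 35 2 1 0 = true := by decide +kernel
theorem run11_48_0 : part (cM 11 l11) 4 96 48 2 1 0 = true := by decide +kernel
theorem run11_50_0 : part (cM 11 l11) 4 96 50 2 1 0 = true := by decide +kernel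
theorem run11_55_0 : part (cM 11 l11) 4 96 55 2 1 0 = true := by decide +kernel
theorem run11_70_0 : part (cM 11 l11) 4 96 70 2 1 0 = true := by decide +kernel
theorem run11_80_3 : part (cM 11 l11) 4 96 80 2 5 3 = true := by decide +kernel
theorem run11_81_0 : part (cM 11 l11) 4 96 81 2 1 0 = true := by decide +kernel
theorem run11_86_0 : part (cM 11 l11) 4 96 86 2 3 0 = true := by decide +kernel
theorem run11_93_0 : part (cM 11 l11) 4 96 93 2 1 0 = true := by decide +kernel
theorem run10_2 : part (cM 10 [2520]) 3 5 2 0 1 0 = true := by decide +kernel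
theorem run11J_0 : part (cF 11 175560 1 true fun _ => false) 4 3 0 0 1 0 = true := by
  decide +kernel
theorem run11J_2 : part (cF 11 175560 1 true fun _ => false) 4 3 2 0 1 0 = true := by
  decide +kernel

end Cfsg.Agent.ClsN
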