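import Cfsg.Agent.ClsN.Run0

/-!
Kernel runs of the class structure search (part 6).
-/

set_option autoImplicit false
set_option maxRecDepth 100000
set_option Elab.async false

namespace Cfsg.Agent.ClsN

theorem run11_0_0 : part (cM 11 l11) 4 96 0 2 5 0 = true := by decide +kernel
theorem run11_7_0 : part (cM 11 l11) 4 96 7 2 1 0 = true := by decide +kernel
theorem run11_15_0 : part (cM 11 l11) 4 96 15 2 1 0 = true := by decide +kernel
theorem run11_16_1 : part (cM 11 l11) 4 96 16 2 3 1 = true := by decide +kernel
theorem run11_21_0 : part (cM 11 l11) 4 96 21 2 1 0 = true := by decide +kernel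
theorem run11_33_0 : part (cM 11 l11) 4 96 33 2 1 0 = true := by decide +kernel
theorem run11_37_0 : part (cM 11 l11) 4 96 37 2 1 0 = true := by decide +kernel
theorem run11_43_0 : part (cM 11 l11) 4 96 43 2 1 0 = true := by decide +kernel
theorem run11_44_0 : part (cM 11 l11) 4 96 44 2 1 0 = true := by decide +kernel
theorem run11_46_0 : part (cM 11 l11) 4 96 46 2 1 0 = true := by decide +kernel
theorem run11_52_0 : part (cM 11 l11) 4 96 52 2 1 0 = true := by decide +kernel
theorem run11_59_0 : part (cM 11 l11) 4 96 59 2 1 0 = true := by decide +kernel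
theorem run11_65_0 : part (cM 11 l11) 4 96 65 2 1 0 = true := by decide +kernel
theorem run11_71_0 : part (cM 11 l11) 4 96 71 2 1 0 = true := by decide +kernel
theorem run11_77_0 : part (cM 11 l11) 4 96 77 2 5 0 = true := by decide +kernel
theorem run11_80_1 : part (cM 11 l11) 4 96 80 2 5 1 = true := by decide +kernel
theorem run11_82_2 : part (cM 11 l11) 4 96 82 2 3 2 = true := by decide +kernel
theorem run11_83_0 : part (cM 11 l11) 4 96 83 2 1 0 = true := by decide +kernel
theorem run11_86_1 : part (cM 11 l11) 4 96 86 2 3 1 = true := by decide +kernel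
theorem run10_0 : part (cM 10 [2520]) 3 5 0 0 1 0 = true := by decide +kernel
theorem run11J_1 : part (cF 11 175560 1 true fun _ => false) 4 3 1 0 1 0 = true := by
  decide +kernel

end Cfsg.Agent.ClsN
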