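import Cfsg.Agent.ClsN.Run1
import Cfsg.Agent.ClsN.Run2
import Cfsg.Agent.ClsN.Run3
import Cfsg.Agent.ClsN.Run4
import Cfsg.Agent.ClsN.Run5
import Cfsg.Agent.ClsN.Run6
import Cfsg.Agent.ClsN.Node

/-!
The outcome of the class structure search.
-/

set_option autoImplicit false

namespace Cfsg.Agent.ClsN

theorem ex1 {f : ℕ → ℕ → Bool} (h0 : f 1 0 = true) : ∃ N, 0 < N ∧ ∀ j < N, f N j = true :=
  ⟨1, one_pos, fun j hj => by obtain rfl : j = 0 := by omega
                              exact h0⟩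

theorem ex3 {f : ℕ → ℕ → Bool} (h0 : f 3 0 = true) (h1 : f 3 1 = true) (h2 : f 3 2 = true) :
    ∃ N, 0 < N ∧ ∀ j < N, f N j = true :=
  ⟨3, by norm_num, fun j hj => by interval_cases j <;> assumption⟩

theorem ex5 {f : ℕ → ℕ → Bool} (h0 : f 5 0 = true) (h1 : f 5 1 = true) (h2 : f 5 2 = true)
    (h3 : f 5 3 = true) (h4 : f 5 4 = true) : ∃ N, 0 < N ∧ ∀ j < N, f N j = true :=
  ⟨5, by norm_num, fun j hj => by interval_cases j <;> assumption⟩

theorem all11 : ∀ i < 96, ∃ N, 0 < N ∧ ∀ j < N, part (cM 11 l11) 4 96 i 2 N j = true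
  | 0, _ => ex5 (f := part _ 4 96 0 2) run11_0_0 run11_0_1 run11_0_2 run11_0_3 run11_0_4
  | 1, _ => ex1 (f := part _ 4 96 1 2) run11_1_0
  | 2, _ => ex3 (f := part _ 4 96 2 2) run11_2_0 run11_2_1 run11_2_2
  | 3, _ => ex1 (f := part _ 4 96 3 2) run11_3_0
  | 4, _ => ex3 (f := part _ 4 96 4 2) run11_4_0 run11_4_1 run11_4_2
  | 5, _ => ex1 (f := part _ 4 96 5 2) run11_5_0
  | 6, _ => ex1 (f := part _ 4 96 6 2) run11_6_0
  | 7, _ => ex1 (f := part _ 4 96 7 2) run11_7_0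
  | 8, _ => ex1 (f := part _ 4 96 8 2) run11_8_0
  | 9, _ => ex1 (f := part _ 4 96 9 2) run11_9_0
  | 10, _ => ex1 (f := part _ 4 96 10 2) run11_10_0
  | 11, _ => ex1 (f := part _ 4 96 11 2) run11_11_0
  | 12, _ => ex1 (f := part _ 4 96 12 2) run11_12_0
  | 13, _ => ex1 (f := part _ 4 96 13 2) run11_13_0
  | 14, _ => ex1 (f := part _ 4 96 14 2) run11_14_0
  | 15, _ => ex1 (f := part _ 4 96 15 2) run11_15_0
  | 16, _ => ex3 (f := part _ 4 96 16 2) run11_16_0 run11_16_1 run11_16_2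
  | 17, _ => ex1 (f := part _ 4 96 17 2) run11_17_0
  | 18, _ => ex1 (f := part _ 4 96 18 2) run11_18_0
  | 19, _ => ex1 (f := part _ 4 96 19 2) run11_19_0
  | 20, _ => ex1 (f := part _ 4 96 20 2) run11_20_0
  | 21, _ => ex1 (f := part _ 4 96 21 2) run11_21_0
  | 22, _ => ex1 (f := part _ 4 96 22 2) run11_22_0
  | 23, _ => ex1 (f := part _ 4 96 23 2) run11_23_0
  | 24, _ => ex1 (f := part _ 4 96 24 2) run11_24_0
  | 25, _ => ex1 (f := part _ 4 96 25 2) run11_25_0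
  | 26, _ => ex1 (f := part _ 4 96 26 2) run11_26_0
  | 27, _ => ex1 (f := part _ 4 96 27 2) run11_27_0
  | 28, _ => ex1 (f := part _ 4 96 28 2) run11_28_0
  | 29, _ => ex1 (f := part _ 4 96 29 2) run11_29_0
  | 30, _ => ex1 (f := part _ 4 96 30 2) run11_30_0
  | 31, _ => ex1 (f := part _ 4 96 31 2) run11_31_0
  | 32, _ => ex1 (f := part _ 4 96 32 2) run11_32_0
  | 33, _ => ex1 (f := part _ 4 96 33 2) run11_33_0
  | 34, _ => ex1 (f := part _ 4 96 34 2) run11_34_0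
  | 35, _ => ex1 (f := part _ 4 96 35 2) run11_35_0
  | 36, _ => ex1 (f := part _ 4 96 36 2) run11_36_0
  | 37, _ => ex1 (f := part _ 4 96 37 2) run11_37_0
  | 38, _ => ex1 (f := part _ 4 96 38 2) run11_38_0
  | 39, _ => ex1 (f := part _ 4 96 39 2) run11_39_0
  | 40, _ => ex1 (f := part _ 4 96 40 2) run11_40_0
  | 41, _ => ex1 (f := part _ 4 96 41 2) run11_41_0
  | 42, _ => ex1 (f := part _ 4 96 42 2) run11_42_0
  | 43, _ => ex1 (f := part _ 4 96 43 2) run11_43_0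
  | 44, _ => ex1 (f := part _ 4 96 44 2) run11_44_0
  | 45, _ => ex1 (f := part _ 4 96 45 2) run11_45_0
  | 46, _ => ex1 (f := part _ 4 96 46 2) run11_46_0
  | 47, _ => ex1 (f := part _ 4 96 47 2) run11_47_0
  | 48, _ => ex1 (f := part _ 4 96 48 2) run11_48_0
  | 49, _ => ex1 (f := part _ 4 96 49 2) run11_49_0
  | 50, _ => ex1 (f := part _ 4 96 50 2) run11_50_0
  | 51, _ => ex1 (f := part _ 4 96 51 2) run11_51_0
  | 52, _ => ex1 (f := part _ 4 96 52 2) run11_52_0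
  | 53, _ => ex1 (f := part _ 4 96 53 2) run11_53_0
  | 54, _ => ex1 (f := part _ 4 96 54 2) run11_54_0
  | 55, _ => ex1 (f := part _ 4 96 55 2) run11_55_0
  | 56, _ => ex1 (f := part _ 4 96 56 2) run11_56_0
  | 57, _ => ex1 (f := part _ 4 96 57 2) run11_57_0
  | 58, _ => ex1 (f := part _ 4 96 58 2) run11_58_0
  | 59, _ => ex1 (f := part _ 4 96 59 2) run11_59_0
  | 60, _ => ex1 (f := part _ 4 96 60 2) run11_60_0
  | 61, _ => ex1 (f := part _ 4 96 61 2) run11_61_0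
  | 62, _ => ex1 (f := part _ 4 96 62 2) run11_62_0
  | 63, _ => ex1 (f := part _ 4 96 63 2) run11_63_0
  | 64, _ => ex1 (f := part _ 4 96 64 2) run11_64_0
  | 65, _ => ex1 (f := part _ 4 96 65 2) run11_65_0
  | 66, _ => ex1 (f := part _ 4 96 66 2) run11_66_0
  | 67, _ => ex1 (f := part _ 4 96 67 2) run11_67_0
  | 68, _ => ex1 (f := part _ 4 96 68 2) run11_68_0
  | 69, _ => ex1 (f := part _ 4 96 69 2) run11_69_0
  | 70, _ => ex1 (f := part _ 4 96 70 2) run11_70_0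
  | 71, _ => ex1 (f := part _ 4 96 71 2) run11_71_0
  | 72, _ => ex1 (f := part _ 4 96 72 2) run11_72_0
  | 73, _ => ex1 (f := part _ 4 96 73 2) run11_73_0
  | 74, _ => ex1 (f := part _ 4 96 74 2) run11_74_0
  | 75, _ => ex1 (f := part _ 4 96 75 2) run11_75_0
  | 76, _ => ex1 (f := part _ 4 96 76 2) run11_76_0
  | 77, _ => ex5 (f := part _ 4 96 77 2) run11_77_0 run11_77_1 run11_77_2 run11_77_3 run11_77_4
  | 78, _ => ex1 (f := part _ 4 96 78 2) run11_78_0
  | 79, _ => ex1 (f := part _ 4 96 79 2) run11_79_0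
  | 80, _ => ex5 (f := part _ 4 96 80 2) run11_80_0 run11_80_1 run11_80_2 run11_80_3 run11_80_4
  | 81, _ => ex1 (f := part _ 4 96 81 2) run11_81_0
  | 82, _ => ex3 (f := part _ 4 96 82 2) run11_82_0 run11_82_1 run11_82_2
  | 83, _ => ex1 (f := part _ 4 96 83 2) run11_83_0
  | 84, _ => ex1 (f := part _ 4 96 84 2) run11_84_0
  | 85, _ => ex1 (f := part _ 4 96 85 2) run11_85_0
  | 86, _ => ex3 (f := part _ 4 96 86 2) run11_86_0 run11_86_1 run11_86_2
  | 87, _ => ex1 (f := part _ 4 96 87 2) run11_87_0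
  | 88, _ => ex1 (f := part _ 4 96 88 2) run11_88_0
  | 89, _ => ex1 (f := part _ 4 96 89 2) run11_89_0
  | 90, _ => ex1 (f := part _ 4 96 90 2) run11_90_0
  | 91, _ => ex1 (f := part _ 4 96 91 2) run11_91_0
  | 92, _ => ex1 (f := part _ 4 96 92 2) run11_92_0
  | 93, _ => ex1 (f := part _ 4 96 93 2) run11_93_0
  | 94, _ => ex1 (f := part _ 4 96 94 2) run11_94_0
  | 95, _ => ex1 (f := part _ 4 96 95 2) run11_95_0
  | n + 96, h => absurd h (by omega)

theorem all10 : ∀ i < 5, ∃ N, 0 < N ∧ ∀ j < N, part (cM 10 [2520]) 3 5 i 0 N j = true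
  | 0, _ => ex1 (f := part _ 3 5 0 0) run10_0
  | 1, _ => ex1 (f := part _ 3 5 1 0) run10_1
  | 2, _ => ex1 (f := part _ 3 5 2 0) run10_2
  | 3, _ => ex1 (f := part _ 3 5 3 0) run10_3
  | 4, _ => ex1 (f := part _ 3 5 4 0) run10_4
  | n + 5, h => absurd h (by omega)

theorem all11J : ∀ i < 3, ∃ N, 0 < N ∧ ∀ j < N,
    part (cF 11 175560 1 true fun _ => false) 4 3 i 0 N j = true
  | 0, _ => ex1 (f := part _ 4 3 0 0) run11J_0
  | 1, _ => ex1 (f := part _ 4 3 1 0) run11J_1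
  | 2, _ => ex1 (f := part _ 4 3 2 0) run11J_2
  | n + 3, h => absurd h (by omega)

theorem whole {C : Cfg} {g : ℕ} {M : Multiset (ℕ × ℕ)} (H : Hyp C g M) (hk : 1 ≤ C.k)
    (h : part C 0 1 0 0 1 0 = true) : ∃ l : PL, l.toM = M ∧ C.fin g l = true :=
  part_sound H (d := 0) (d' := 0) hk one_pos fun i hi => by
    obtain rfl : i = 0 := by omega
    exact ex1 (f := part C 0 1 0 0) h

variable {k g : ℕ} {M : Multiset (ℕ × ℕ)}

theorem main_run (hk : k = 9 ∨ k = 10 ∨ k = 11) (A : Ax k g M) (hg : 1800 ≤ g)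
    (h6 : ∃ a ∈ M, a.1 = 6) (h66 : (6, 6) ∈ M → 2 ≤ cn 2 M) :
    g ∈ [2160, 2520, 4032, 4320, 5760, 7560, 12960, 207360] ∧ k ≠ 9 := by
  obtain ⟨a, ha, e⟩ := h6
  have h1 : 6 ∣ g := e ▸ (A.bas a ha).2.1.trans (A.bas a ha).2.2.1
  have H : ∀ l, Hyp (cM k l) g M := fun l => ⟨A, by change k ≤ 11; omega, hg, dvd_zero _,
    fun _ => ⟨a, ha, e⟩, fun h => absurd h (by simp [cM]), fun _ => h66, by omega, fun _ => by omega⟩
  rcases hk with rfl | rfl | rfl
  · obtain ⟨l, -, h⟩ := whole (H _) (by decide) run9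
    simp [cM, memN_t] at h
  · obtain ⟨l, -, h⟩ := part_sound (H _) (by decide) (by decide) all10
    simp only [cM, memN_t, List.mem_singleton] at h
    simp [h]
  · obtain ⟨l, -, h⟩ := part_sound (H _) (by decide) (by decide) all11
    exact ⟨(memN_t _ _).1 h, by decide⟩

theorem hypF (hk : k ≤ 11) (A : Ax k g M) {six : ℕ} {three : Bool} (f : PL → Bool)
    (h1 : six = 1 → ∃ a ∈ M, a.1 = 6) (h2 : six = 2 → ∀ a ∈ M, a.1 ≠ 6) (h3 : 2 ∣ g)
    (h4 : three = true → 3 ∣ g) : Hyp (cF k g six three f) g M :=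
  ⟨A, hk, le_rfl, dvd_rfl, h1, h2, fun h => absurd h (by simp [cF]), h3, h4⟩

theorem six_run (hk : k = 9 ∨ k = 10 ∨ k = 11) (A : Ax k g M) (h6 : ∃ a ∈ M, a.1 = 6) :
    g ≠ 5616 ∧ g ≠ 175560 := by
  have H := fun (h3 : 2 ∣ g) (h4 : 3 ∣ g) => hypF (six := 1) (three := true) (by omega) A
    (fun _ => false) (fun _ => h6) (fun h => absurd h (by decide)) h3 fun _ => h4
  constructor <;> rintro rfl <;> have H := H (by decide) (by decide) <;>
    rcases hk with rfl | rfl | rfl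
  · simpa [cF] using whole H (by decide) run9_5616
  · simpa [cF] using whole H (by decide) run10_5616
  · simpa [cF] using whole H (by decide) run11_5616
  · simpa [cF] using whole H (by decide) run9_175560
  · simpa [cF] using whole H (by decide) run10_175560
  · simpa [cF] using part_sound H (by decide) (by decide) all11J

theorem nosix_run (hk : k = 9 ∨ k = 10 ∨ k = 11) (A : Ax k g M) (h6 : ∀ a ∈ M, a.1 ≠ 6) :
    g ≠ 62400 ∧ (g = 29120 → 2 ≤ cn 4 M → k = 11) ∧ (g = 20160 → 3 ≤ cn 4 M → k ≠ 9) := by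
  have H := fun three f (h3 : 2 ∣ g) h4 => hypF (six := 2) (three := three) (by omega) A
    f (fun h => absurd h (by decide)) (fun _ => h6) h3 h4
  refine ⟨?_, ?_, ?_⟩
  · rintro rfl
    have H := H true (fun _ => false) (by decide) fun _ => by decide
    rcases hk with rfl | rfl | rfl
    · simpa [cF] using whole H (by decide) run9_62400
    · simpa [cF] using whole H (by decide) run10_62400
    · simpa [cF] using whole H (by decide) run11_62400
  · rintro rfl h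
    rcases hk with rfl | rfl | rfl
    · simpa [cF] using whole (H _ _ (by decide) (by decide)) (by decide) run9_29120
    · obtain ⟨l, rfl, h1⟩ := whole (H _ _ (by decide) (by decide)) (by decide) run10_29120
      exact absurd ((cnt_e 4 l).symm.trans_lt ((lt_t _ _).1 h1)) (not_lt.2 h)
    · rfl
  · rintro rfl h rfl
    obtain ⟨l, rfl, h1⟩ := whole (H _ _ (by decide) fun _ => by decide) (by decide) run9_20160
    exact absurd ((cnt_e 4 l).symm.trans_lt ((lt_t _ _).1 h1)) (not_lt.2 h)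

end Cfsg.Agent.ClsN
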