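import Cfsg.Agent.ClsN.Defs

/-!
Kernel runs of the class structure search (configurations and short runs).
-/

set_option autoImplicit false
set_option maxRecDepth 100000
set_option Elab.async false

namespace Cfsg.Agent.ClsN

noncomputable def cM (k : ℕ) (l : List ℕ) : Cfg := ⟨k, 1800, 0, 1, true, true, fun g _ => memN g l⟩
noncomputable def cF (k g six : ℕ) (three : Bool) (f : PL → Bool) : Cfg :=
  ⟨k, g, g, six, false, three, fun _ l => f l⟩
noncomputable def l11 : List ℕ := [2160, 2520, 4032, 4320, 5760, 7560, 12960, 207360]

theorem run9 : part (cM 9 []) 0 1 0 0 1 0 = true := by decide +kernel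
theorem run9_5616 : part (cF 9 5616 1 true fun _ => false) 0 1 0 0 1 0 = true := by
  decide +kernel
theorem run10_5616 : part (cF 10 5616 1 true fun _ => false) 0 1 0 0 1 0 = true := by
  decide +kernel
theorem run11_5616 : part (cF 11 5616 1 true fun _ => false) 0 1 0 0 1 0 = true := by
  decide +kernel
theorem run9_175560 : part (cF 9 175560 1 true fun _ => false) 0 1 0 0 1 0 = true := by
  decide +kernel
theorem run10_175560 : part (cF 10 175560 1 true fun _ => false) 0 1 0 0 1 0 = true := by
  decide +kernel
theorem run9_62400 : part (cF 9 62400 2 true fun _ => false) 0 1 0 0 1 0 = true := by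
  decide +kernel
theorem run10_62400 : part (cF 10 62400 2 true fun _ => false) 0 1 0 0 1 0 = true := by
  decide +kernel
theorem run11_62400 : part (cF 11 62400 2 true fun _ => false) 0 1 0 0 1 0 = true := by
  decide +kernel
theorem run9_29120 : part (cF 9 29120 2 false fun _ => false) 0 1 0 0 1 0 = true := by
  decide +kernel
theorem run10_29120 : part (cF 10 29120 2 false fun l => cnt 4 l <' 2) 0 1 0 0 1 0 = true := by
  decide +kernel
theorem run9_20160 : part (cF 9 20160 2 true fun l => cnt 4 l <' 3) 0 1 0 0 1 0 = true := by
  decide +kernel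

end Cfsg.Agent.ClsN
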