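import Cfsg.Agent.ClsN.Run0

/-!
Kernel runs of the class structure search (part 1).
-/

set_option autoImplicit false
set_option maxRecDepth 100000
set_option Elab.async false

namespace Cfsg.Agent.ClsN

theorem run11_0_3 : part (cM 11 l11) 4 96 0 2 5 3 = true := by decide +kernel
theorem run11_2_1 : part (cM 11 l11) 4 96 2 2 3 1 = true := by decide +kernel
theorem run11_4_1 : part (cM 11 l11) 4 96 4 2 3 1 = true := by decide +kernel
theorem run11_6_0 : part (cM 11 l11) 4 96 6 2 1 0 = true := by decide +kernel
theorem run11_8_0 : part (cM 11 l11) 4 96 8 2 1 0 = true := by decide +kernel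
theorem run11_18_0 : part (cM 11 l11) 4 96 18 2 1 0 = true := by decide +kernel
theorem run11_19_0 : part (cM 11 l11) 4 96 19 2 1 0 = true := by decide +kernel
theorem run11_23_0 : part (cM 11 l11) 4 96 23 2 1 0 = true := by decide +kernel
theorem run11_28_0 : part (cM 11 l11) 4 96 28 2 1 0 = true := by decide +kernel
theorem run11_38_0 : part (cM 11 l11) 4 96 38 2 1 0 = true := by decide +kernel
theorem run11_47_0 : part (cM 11 l11) 4 96 47 2 1 0 = true := by decide +kernel
theorem run11_53_0 : part (cM 11 l11) 4 96 53 2 1 0 = true := by decide +kernel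
theorem run11_54_0 : part (cM 11 l11) 4 96 54 2 1 0 = true := by decide +kernel
theorem run11_57_0 : part (cM 11 l11) 4 96 57 2 1 0 = true := by decide +kernel
theorem run11_62_0 : part (cM 11 l11) 4 96 62 2 1 0 = true := by decide +kernel
theorem run11_75_0 : part (cM 11 l11) 4 96 75 2 1 0 = true := by decide +kernel
theorem run11_77_4 : part (cM 11 l11) 4 96 77 2 5 4 = true := by decide +kernel
theorem run11_78_0 : part (cM 11 l11) 4 96 78 2 1 0 = true := by decide +kernel
theorem run11_80_0 : part (cM 11 l11) 4 96 80 2 5 0 = true := by decide +kernel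
theorem run11_80_4 : part (cM 11 l11) 4 96 80 2 5 4 = true := by decide +kernel
theorem run11_92_0 : part (cM 11 l11) 4 96 92 2 1 0 = true := by decide +kernel

end Cfsg.Agent.ClsN
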